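import Cfsg.Agent.H7.SE0
import Cfsg.Agent.H9.SE1

set_option autoImplicit false
set_option linter.unusedSectionVars false

/-! Assembly of S3332 from the two permutation theorems (helper for S3332). -/

namespace CfsgH7SE

open Subgroup CfsgH5 CfsgH6 CfsgFT CfsgSZ CfsgSZ.PS CfsgSE

universe u

variable {G : Type u} [Group G] [Finite G]

/-- involutions at a point commute as soon as the odd core of the stabiliser moves a point. -/
def BE1 (G Ω : Type u) [Group G] [MulAction G Ω] : Prop :=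
  SE G Ω → (∃ s t : G, Iv s ∧ Iv t ∧ s ≠ t ∧ s * t = t * s) → (∀ g : G, (∀ c : Ω, g • c = c) → g = 1) →
    ∀ (a b : Ω) (x : G), x ∈ Opc 2 (St G a) → x • b ≠ b →
      ∀ s t : G, Iv s → Iv t → s • a = a → t • a = a → s * t = t * s

/-- the case of commuting involutions. -/
def VC (G Ω : Type u) [Group G] [MulAction G Ω] : Prop :=
  SE G Ω → (∀ g : G, (∀ c : Ω, g • c = c) → g = 1) →
    (∀ t : G, Iv t → Group.IsSolvable (C1 t)) →
    (∀ (a : Ω) (s t : G), Iv s → Iv t → s • a = a → t • a = a → s * t = t * s) →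
    ∀ B : Subgroup G, ElAb 2 B → 16 ≤ Nat.card B → ∀ a b : Ω, a ≠ b → Opc 2 (St G a) = ⊥

theorem no_front (hs : ∀ t : G, t * t = 1 → t ≠ 1 → Group.IsSolvable (C1 t))
    (hO : Opc 2 (⊤ : Subgroup G) = ⊥) {H : Subgroup G} (h : Front H)
    (hB : ∃ B ≤ H, ElAb 2 B ∧ 16 ≤ Nat.card B) (be : BE1 G (G ⧸ H)) (vc : VC G (G ⧸ H)) :
    False := by
  obtain ⟨B, BH, hB, h16⟩ := hB
  have h8 : 8 ≤ Nat.card B := by omega
  obtain ⟨z, hz, z1⟩ := exists_ne_one_of_rk h8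
  obtain ⟨y, -, l, -⟩ := exists_basis h8 hz z1
  have f := Four.of_ln hB l
  have zi : Iv z := ⟨f.aa, f.a1⟩
  have S : SE G (G ⧸ H) := se_quot (fun o => zi.not_mem o (BH hz))
    fun t ht ti g hg => h.se t ht ti.sq ti.ne g hg
  have e : St G ((1 : G) : G ⧸ H) = H := MulAction.stabilizer_quotient H
  obtain ⟨g0, hg0⟩ : ∃ g : G, g ∉ H := by
    by_contra! hn
    exact h.ne_top (eq_top_iff.2 fun g _ => hn g)
  have hab : ((1 : G) : G ⧸ H) ≠ g0 • ((1 : G) : G ⧸ H) := fun q =>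
    hg0 (e ▸ (show g0 ∈ St G ((1 : G) : G ⧸ H) from q.symm))
  have fa : ∀ g : G, (∀ c : G ⧸ H, g • c = c) → g = 1 := fun g hg => by
    let K : Subgroup G := (MulAction.toPermHom G (G ⧸ H)).ker
    have mK : ∀ k : G, k ∈ K ↔ ∀ c : G ⧸ H, k • c = c := fun k => by
      rw [MonoidHom.mem_ker, Equiv.ext_iff]; rfl
    have o : Odd (Nat.card K) :=
      S.odd_of_le hab (fun k hk => (mK k).1 hk _) (fun k hk => (mK k).1 hk _)
    have : K ≤ Opc 2 ⊤ := le_Opc' le_top (nrm_top_iff.2 (MonoidHom.normal_ker _)) o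
    rw [hO] at this
    exact mem_bot.1 (this ((mK g).2 hg))
  have f4 : ∃ s t : G, Iv s ∧ Iv t ∧ s ≠ t ∧ s * t = t * s :=
    ⟨z, y, zi, ⟨f.bb, f.b1⟩, f.ne, f.cm⟩
  refine h.core (e ▸ vc S fa (fun t ht => hs t ht.sq ht.ne) (fun a => ?_) B hB h16 _ _ hab)
  obtain ⟨g, rfl⟩ := S.trans ((1 : G) : G ⧸ H) a
  have : Opc 2 (St G (g • ((1 : G) : G ⧸ H))) ≠ ⊥ := by
    rw [← cj_St, ← cj_Opc, e]
    exact fun q => h.core (cj_eq_bot.1 q)
  obtain ⟨⟨x, hx⟩, x1⟩ := ne_bot_iff_exists_ne_one.1 this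
  obtain ⟨b, hb⟩ : ∃ b : G ⧸ H, x • b ≠ b := by
    by_contra! hn
    exact x1 (Subtype.ext (fa x hn))
  exact be S f4 fa _ b x hx hb

theorem final (be : ∀ H : Subgroup G, BE1 G (G ⧸ H)) (vc : ∀ H : Subgroup G, VC G (G ⧸ H))
    (hrank : ¬ Cfsg.PRankLE 2 3 G) (hO : Cfsg.oddCore G = ⊥) (S : Sylow 2 G)
    (A : Subgroup G) (hAS : A ≤ S) (hAn : (A.subgroupOf S).Normal) (hAc : IsMulCommutative A)
    (hA3 : ¬ Cfsg.PRankLE 2 2 A)
    (hsol : ∀ t : G, orderOf t = 2 → Group.IsSolvable (Subgroup.centralizer ({t} : Set G))) :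
    ∀ t : G, orderOf t = 2 → Cfsg.oddCore (Subgroup.centralizer ({t} : Set G)) = ⊥ :=
  reduce hrank hO S A hAS hAn hAc hA3 hsol fun hs h0 H h hB => no_front hs h0 h hB (be H) (vc H)

end CfsgH7SE
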