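import Cfsg.Agent.H7.Loc4

/-! The 3-local characterization of `A₈`. -/

set_option autoImplicit false

namespace CfsgH7
open Subgroup CfsgH5 CfsgH6 CfsgFT CfsgH8 CfsgH9 Equiv F5

universe u
variable {G : Type u} [Group G]

/-- `(S₃ × S₅) ∩ A₈`. -/
def L0 : Subgroup (S3 × S5) :=
  ((Perm.sign.comp (MonoidHom.fst S3 S5)) * (Perm.sign.comp (MonoidHom.snd S3 S5))).ker

theorem mem_L0 {x : S3 × S5} : x ∈ L0 ↔ Perm.sign x.1 * Perm.sign x.2 = 1 := Iff.rfl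

namespace A8c

def κ0 : A5 →* L0 := ((MonoidHom.inr S3 S5).comp A5.subtype).codRestrict _ fun x => by
  rw [mem_L0]; simpa using Perm.mem_alternatingGroup.mp x.2
def od (a b : Fin 5) : L0 :=
  if h : a ≠ b then ⟨(τ, swap a b), by
    rw [mem_L0, Perm.sign_swap h]; show Perm.sign τ * -1 = 1; decide⟩ else 1
def ζ0 : L0 := ⟨(ζ, 1), by rw [mem_L0]; decide⟩
def ω0 : L0 := κ0 (sw2 2 3 3 4)
def u1 : L0 := κ0 (sw2 1 2 3 4)
def u2 : L0 := κ0 (sw2 1 3 2 4)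

structure Hyp (l : L0 →* G) : Prop where
  inj : Function.Injective l
  rng : l.range = N (zpowers (l ζ0))
  syl : SylIn 3 (D9 (l ζ0) (l ω0)) ⊤
  cD : C (D9 (l ζ0) (l ω0)) ≤ D9 (l ζ0) (l ω0)
  hn : ∃ n ∈ N (D9 (l ζ0) (l ω0)), n * n ∉ D9 (l ζ0) (l ω0)
  h4 : ∀ g ∈ N (D9 (l ζ0) (l ω0)), g * g * g * g ∈ D9 (l ζ0) (l ω0)
  hy : ∃ y ∈ D9 (l ζ0) (l ω0), Nat.card (C1 y) = 18
  hz : Nat.card (C1 (l ζ0)) = 180

namespace Hyp
variable [Finite G] {l : L0 →* G} (h : Hyp l)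
include h

theorem b9 : B9 (l ζ0) (l ω0) := b9_map h.inj (by decide +kernel) (by decide +kernel)
  (by decide +kernel) (by decide +kernel) (by decide +kernel) (by decide +kernel)
  (by decide +kernel)

theorem of_N {g : G} (hg : g * l ζ0 * g⁻¹ ∈ zpowers (l ζ0)) : ∃ x, l x = g :=
  h.rng.ge (mem_N_zpowers hg)

theorem of_C {g : G} (hg : g * l ζ0 = l ζ0 * g) : ∃ x : L0, l x = g ∧ x.1.1 ^ 3 = 1 ∧
    Perm.sign x.1.2 = 1 := by
  obtain ⟨x, rfl⟩ := h.of_N (g := g) (by rw [hg, mul_inv_cancel_right]; exact mem_zpowers _)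
  have h1 : x * ζ0 = ζ0 * x := h.inj (by rwa [map_mul, map_mul])
  have h2 := cent_ζ _ (congrArg (fun t : L0 => t.1.1) h1)
  refine ⟨x, rfl, h2, ?_⟩
  have := mem_L0.mp x.2
  rwa [sign_of_cube (k := 1) h2, one_mul] at this

theorem of_C' {g : G} (hg : g * l ζ0 = l ζ0 * g) (ho : (orderOf g).Coprime 3) :
    ∃ q : A5, l (κ0 q) = g := by
  obtain ⟨x, rfl, h1, h2⟩ := h.of_C hg
  refine ⟨⟨x.1.2, h2⟩, congrArg l (Subtype.ext (Prod.ext ?_ rfl))⟩
  rw [orderOf_injective l h.inj] at ho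
  exact (eq_one_of_coprime_three
    (coprime_map ((MonoidHom.fst S3 S5).comp L0.subtype) ho) h1).symm

theorem exists_i : ∃ i : G, i * i = 1 ∧ i * l ζ0 * i⁻¹ = l ω0 ∧ i * l ω0 * i⁻¹ = l ζ0 := by
  obtain ⟨n, hn, hn2⟩ := h.hn
  obtain ⟨σ, h1, h2⟩ := h.b9.exists_swap (l := l (κ0 (sw2 0 1 2 3)))
    (rel_conj l (by decide +kernel))
    (by rw [← map_inv l ω0]; exact rel_conj l (by decide +kernel))
    ⟨n, hn, fun e => hn2 (h.cD e)⟩ fun g hg => h.b9.ab (h.h4 g hg)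
  have h0 : ∀ a b : G, σ * a * σ⁻¹ = b → σ * b * σ⁻¹ = a → σ * σ * a = a * (σ * σ) :=
    fun a b e1 e2 => by
      calc _ = σ * (σ * a * σ⁻¹) * σ⁻¹ * (σ * σ) := by group
        _ = _ := by rw [e1, e2]
  have h3 : σ * σ ∈ C (D9 (l ζ0) (l ω0)) := h.b9.mem_C_iff.mpr ⟨h0 _ _ h1 h2, h0 _ _ h2 h1⟩
  have h4 := h.b9.cube (h.cD h3)
  obtain ⟨h5, h6⟩ := h.b9.mem_C_iff.mp h3
  refine ⟨σ * (σ * σ), by rw [← h4]; simp only [pow_succ]; group, ?_, ?_⟩
  · rw [mul_assoc σ, h5, ← h1]; group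
  · rw [mul_assoc σ, h6, ← h2]; group

theorem card_zw : Nat.card (C1 (l ζ0 * l ω0)) = 18 ∧ Nat.card (C1 (l ζ0 * (l ω0)⁻¹)) = 18 := by
  obtain ⟨i, -, h1, -⟩ := h.exists_i
  have h2 : Nat.card (C1 (l ω0)) = 180 := by rw [← h1, card_C1_conj, h.hz]
  have h3 : Nat.card (C1 (l ζ0 * (l ω0)⁻¹)) = Nat.card (C1 (l ζ0 * l ω0)) := by
    rw [← card_C1_conj (l (κ0 (sw2 0 1 2 3))) (l ζ0 * l ω0), ← map_mul, ← map_inv, ← map_mul,
      rel_conj l (show _ = ζ0 * ω0⁻¹ by decide +kernel)]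
  have h5 := h.hz
  obtain ⟨y, hy, h4⟩ := h.hy
  rcases h.b9.mem' hy with rfl | rfl | rfl | rfl | rfl | rfl | rfl | rfl | rfl <;>
    try simp only [C1_inv] at h4
  · rw [C1_one] at h4
    have := card_dvd_of_le (le_top (a := C1 (l ζ0)))
    rw [h4, h5] at this
    omega
  all_goals omega

theorem not_conj {x g : G} (hx : Nat.card (C1 x) = 18) : g * x * g⁻¹ ∉ zpowers (l ζ0) := fun e => by
  have := card_C1_of_zpowers h.b9.a3 (fun e' => by
    have h1 := card_C1_conj g x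
    rw [e', C1_one, hx] at h1
    have := card_dvd_of_le (le_top (a := C1 (l ζ0)))
    rw [h.hz] at this
    omega) e
  rw [card_C1_conj, hx, h.hz] at this
  omega

theorem conj_of_cent {X : Subgroup G} {u x y : G} (u1 : u ≠ 1) (u2 : u * u = 1)
    (hx : x ∈ X) (hy : y ∈ X) (x3 : x ^ 3 = 1) (y3 : y ^ 3 = 1) (y1 : y ≠ 1)
    (xu : x * u = u * x) (yu : y * u = u * y) : ∃ c ∈ X, c * x * c⁻¹ ∈ zpowers y := by
  rcases h.b9.conj_or_cent h.syl hx hy x3 y3 y1 xu yu with ⟨c, h1, -, h2⟩ | ⟨g, -, h1⟩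
  · exact ⟨c, h1, h2⟩
  · rw [← cj_C, mem_cj] at h1
    have := h.b9.cube (h.cD h1)
    have h2 := conj_mul_self u2 g⁻¹
    rw [inv_inv] at h2
    have h3 := conj_ne_one u1 g⁻¹
    rw [inv_inv] at h3
    exact absurd (eq_one_of_sq_cube h2 this) h3

omit h [Finite G] in
set_option synthInstance.maxSize 2048 in
theorem mem_V_aux : ∀ j : Fin 3, ∀ t, ζ0 ^ j.val * ![1, u1, u2, u1 * u2] t * ζ0 =
      ζ0 * (ζ0 ^ j.val * ![1, u1, u2, u1 * u2] t) ∧ ζ0 ^ j.val * ![1, u1, u2, u1 * u2] t *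
      (ζ0 ^ j.val * ![1, u1, u2, u1 * u2] t) = ζ0 ^ (2 * j.val) ∧
      (ζ0 ^ (2 * j.val) = 1 → ζ0 ^ j.val = 1) := by decide +kernel

/-- the four-group `V`. -/
theorem mem_V {g : G} (hg : g * l ζ0 * g⁻¹ ∈ zpowers (l ζ0)) (h1 : g * l u1 = l u1 * g)
    (h2 : g * l u2 = l u2 * g) : g * l ζ0 = l ζ0 * g ∧ g * g ∈ zpowers (l ζ0) ∧
      ((orderOf g).Coprime 3 → g ∈ closure {l u1, l u2}) := by
  obtain ⟨x, rfl⟩ := h.of_N hg
  have e1 : x * u1 = u1 * x := h.inj (by rwa [map_mul, map_mul])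
  have e2 : x * u2 = u2 * x := h.inj (by rwa [map_mul, map_mul])
  obtain ⟨t, ht⟩ := cent_V x.1.2 (congrArg (fun t : L0 => t.1.2) e1)
    (congrArg (fun t : L0 => t.1.2) e2)
  have h3 : ∀ t, Perm.sign (V4 t) = 1 := by decide +kernel
  have h4 := mem_L0.mp x.2
  rw [ht, h3, mul_one] at h4
  obtain ⟨j, e⟩ : ∃ j : Fin 3, x = ζ0 ^ j.val * ![1, u1, u2, u1 * u2] t := by
    have h5 : ∀ j : Fin 3, ∀ t, (ζ0 ^ j.val * ![1, u1, u2, u1 * u2] t).1 = (ζ ^ j.val, V4 t) := by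
      decide +kernel
    rcases even_S3 _ h4 with e | e | e
    · exact ⟨0, Subtype.ext ((Prod.ext e ht).trans (h5 0 t).symm)⟩
    · exact ⟨1, Subtype.ext ((Prod.ext e ht).trans (h5 1 t).symm)⟩
    · exact ⟨2, Subtype.ext ((Prod.ext (e.trans (show ζ⁻¹ = ζ ^ 2 by decide +kernel)) ht).trans (h5 2 t).symm)⟩
  obtain ⟨h7, h8, h9⟩ := mem_V_aux j t
  rw [← e] at h7 h8
  have h10 : l x * l x = l ζ0 ^ (2 * j.val) := by rw [← map_mul, h8, map_pow]
  refine ⟨rel_mul l h7, h10 ▸ pow_mem (mem_zpowers _) _, fun ho => ?_⟩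
  have h11 : l x * l x = 1 := eq_one_of_coprime_three (by rw [← pow_two]; exact coprime_pow ho 2)
    (by rw [h10, ← pow_mul, mul_comm, pow_mul, h.b9.a3, one_pow])
  rw [h9 (h.inj (by rw [map_pow, ← h10, h11, map_one])), one_mul] at e
  rw [e]
  have a1 : l u1 ∈ closure {l u1, l u2} := subset_closure (by simp)
  have a2 : l u2 ∈ closure {l u1, l u2} := subset_closure (by simp)
  fin_cases t
  exacts [by simp, a1, a2, by simpa using mul_mem a1 a2]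

theorem nrm_X : Nrm (D9 (l ζ0) (l ω0)) (C1 (l u1) ⊓ C1 (l u2)) := by
  have hk : ∀ z x w : L0, z⁻¹ * x * z = w → ∀ m : G, m * l w = l w * m →
      l z * m * (l z)⁻¹ ∈ C1 (l x) := fun z x w e m hm =>
    mem_C1.mpr (comm_conj_of (by rwa [← map_inv, ← map_mul, ← map_mul, e]))
  refine h.b9.nrm (fun m hm => ⟨hk _ _ u1 (by decide +kernel) m (mem_C1.mp hm.1),
    hk _ _ u2 (by decide +kernel) m (mem_C1.mp hm.2)⟩) fun m hm =>
    ⟨hk _ _ (u1 * u2) (by decide +kernel) m ?_, hk _ _ u1 (by decide +kernel) m (mem_C1.mp hm.1)⟩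
  rw [map_mul]; exact comm_mul_of (mem_C1.mp hm.1) (mem_C1.mp hm.2)

theorem pNil_X : PNil 3 (C1 (l u1) ⊓ C1 (l u2)) := by
  have hz : zpowers (l ζ0) ≤ C1 (l u1) ⊓ C1 (l u2) := zpowers_le.mpr
    ⟨mem_C1.mpr (rel_mul l (by decide +kernel)), mem_C1.mpr (rel_mul l (by decide +kernel))⟩
  have h1 : ∀ g ∈ C1 (l u1) ⊓ C1 (l u2) ⊓ N (zpowers (l ζ0)), g * l ζ0 = l ζ0 * g ∧
      g * g ∈ zpowers (l ζ0) := fun g hg => by
    obtain ⟨a, b, -⟩ := h.mem_V (conj_mem_of_mem_N hg.2 (mem_zpowers _)) (mem_C1.mp hg.1.1)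
      (mem_C1.mp hg.1.2)
    exact ⟨a, b⟩
  refine SylIn.pNil_of_le_C Nat.prime_three (S := zpowers (l ζ0)) (sylIn_of_sylIn_N Nat.prime_three
    ⟨le_inf hz (le_N _), isPGroup_of_card_eq_prime (by rw [Nat.card_zpowers, h.b9.orderOf_a]),
      fun T hT hT3 hT1 => le_antisymm (fun g hg => ?_) hT1⟩) fun g hg => ?_
  · obtain ⟨k, hk⟩ := hT3 ⟨g, hg⟩
    refine mem_of_pow_mem_of_coprime' (n := 2) (Nat.Coprime.coprime_dvd_left
      (orderOf_dvd_of_pow_eq_one (congrArg Subtype.val hk)) (Nat.Coprime.pow_left k (by norm_num)))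
      (by rw [pow_two]; exact (h1 g (hT hg)).2)
  · rw [C_zpowers]; exact mem_C1.mpr (h1 g hg).1

theorem triv_of_cent {M : Subgroup G} (hM : Nrm (D9 (l ζ0) (l ω0)) M) (h3 : ¬ 3 ∣ Nat.card M)
    {y m : G} (hy : y ∈ D9 (l ζ0) (l ω0)) (h18 : Nat.card (C1 y) = 18) (hm : m ∈ M)
    (hc : m * y = y * m) : m = 1 := by
  have h1 : D9 (l ζ0) (l ω0) ≤ C1 y := le_C1_iff.mpr (h.b9.ab hy)
  have h2 := idx2_nrm h1 (relIndex_eq_of_mul h1 (by rw [h.b9.card, h18]))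
  refine eq_one_of_pow_of_not_dvd Nat.prime_three hm (h.b9.cube (h.cD (mem_C.mpr fun d hd => ?_))) h3
  have h4 : d * m * d⁻¹ * m⁻¹ ∈ D9 (l ζ0) (l ω0) := by
    have := mul_mem hd (h2 m (mem_C1.mpr hc) _ (inv_mem hd))
    simpa only [mul_assoc] using this
  have h5 := eq_one_of_pow_of_not_dvd Nat.prime_three (mul_mem (hM d hd m hm) (inv_mem hm))
    (h.b9.cube h4) h3
  rwa [mul_inv_eq_one, mul_inv_eq_iff_eq_mul] at h5

theorem V_cases {g : G} (hg : g ∈ closure {l u1, l u2}) :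
    g = 1 ∨ g = l u1 ∨ g = l u2 ∨ g = l (u1 * u2) := by
  refine E8.closure_ind _ (fun g => g = 1 ∨ g = l u1 ∨ g = l u2 ∨ g = l (u1 * u2)) (Or.inl rfl)
    ?_ g hg
  rintro s (rfl | rfl) _ (rfl | rfl | rfl | rfl) <;> simp only [mul_one, ← map_mul, true_or, or_true]
  · exact Or.inl (by rw [← map_one l]; exact congrArg l (by decide +kernel))
  · exact Or.inr (Or.inr (Or.inl (congrArg l (by decide +kernel))))
  · exact Or.inr (Or.inr (Or.inr (congrArg l (by decide +kernel))))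
  · exact Or.inl (by rw [← map_one l]; exact congrArg l (by decide +kernel))
  · exact Or.inr (Or.inl (congrArg l (by decide +kernel)))

theorem card_V : Nat.card (closure {l u1, l u2} : Subgroup G) = 4 := by
  have a1 : l u1 ∈ closure {l u1, l u2} := subset_closure (by simp)
  have a2 : l u2 ∈ closure {l u1, l u2} := subset_closure (by simp)
  have a3 : ∀ t : Fin 4, l (![1, u1, u2, u1 * u2] t) ∈ closure {l u1, l u2} := fun t => by
    fin_cases t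
    exacts [by simp, a1, a2, by simpa using mul_mem a1 a2]
  have a4 : Function.Injective ![1, u1, u2, u1 * u2] := by decide +kernel
  rw [← Nat.card_congr (Equiv.ofBijective (fun t => (⟨_, a3 t⟩ : (closure {l u1, l u2} : Subgroup G)))
    ⟨fun _ _ e => a4 (h.inj (congrArg Subtype.val e)), fun x => ?_⟩)]
  · simp
  · rcases h.V_cases x.2 with e | e | e | e
    exacts [⟨0, Subtype.ext (by simp [e])⟩, ⟨1, Subtype.ext e.symm⟩, ⟨2, Subtype.ext e.symm⟩,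
      ⟨3, Subtype.ext e.symm⟩]

theorem conj_V {g : G} (hg : g ∈ closure {l u1, l u2}) (h1 : g ≠ 1) :
    ∃ k, k * l u1 * k⁻¹ = g := by
  rcases h.V_cases hg with rfl | rfl | rfl | rfl
  · exact absurd rfl h1
  · exact ⟨1, by simp⟩
  · exact ⟨l ω0, rel_conj l (by decide +kernel)⟩
  · exact ⟨l ω0⁻¹, rel_conj l (by decide +kernel)⟩

theorem step2 (hV : ∀ g ∈ C1 (l u1) ⊓ C1 (l u2), (orderOf g).Coprime 3 →
    g ∈ closure {l u1, l u2}) : False := by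
  have := Fact.mk Nat.prime_three
  obtain ⟨i, i2, iz, iw⟩ := h.exists_i
  have hVp : IsPGroup 2 (closure {l u1, l u2} : Subgroup G) := isPGroup_of_card_eq (k := 2) h.card_V
  have a1 : l u1 ∈ closure {l u1, l u2} := subset_closure (by simp)
  have a2 : l u2 ∈ closure {l u1, l u2} := subset_closure (by simp)
  have n1 : l u1 ≠ 1 := rel_ne h.inj (by decide +kernel)
  have n2 : l u2 ≠ 1 := rel_ne h.inj (by decide +kernel)
  have s1 : l u1 * l u1 = 1 := rel_sq l (by decide +kernel)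
  have s2 : l u2 * l u2 = 1 := rel_sq l (by decide +kernel)
  obtain ⟨S, hVS, hS⟩ := exists_sylIn_ge le_top hVp
  have hco : ∀ g ∈ S, (orderOf g).Coprime 3 := fun g hg => by
    obtain ⟨k, hk⟩ := hS.isPGroup ⟨g, hg⟩
    exact Nat.Coprime.coprime_dvd_left (orderOf_dvd_of_pow_eq_one (congrArg Subtype.val hk))
      (Nat.Coprime.pow_left k (by norm_num))
  obtain ⟨c, hc, c1, c2, cc⟩ := exists_pow_central Nat.prime_two hS.isPGroup hS.isPGroup
    (Nrm.self S) (fun e => n1 (by have := hVS a1; rwa [e, mem_bot] at this))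
  have hcV := hV c ⟨mem_C1.mpr (cc _ (hVS a1)).symm, mem_C1.mpr (cc _ (hVS a2)).symm⟩ (hco c hc)
  obtain ⟨t, ht, t1, t2, tc⟩ : ∃ t ∈ closure {l u1, l u2}, t ≠ 1 ∧ t * t = 1 ∧
      ∀ g, g * c = c * g → g * t = t * g → g ∈ C1 (l u1) ⊓ C1 (l u2) := by
    rcases h.V_cases hcV with rfl | rfl | rfl | rfl
    · exact absurd rfl c1
    · exact ⟨_, a2, n2, s2, fun g e1 e2 => ⟨mem_C1.mpr e1, mem_C1.mpr e2⟩⟩
    · exact ⟨_, a1, n1, s1, fun g e1 e2 => ⟨mem_C1.mpr e2, mem_C1.mpr e1⟩⟩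
    · refine ⟨_, a1, n1, s1, fun g e1 e2 => ⟨mem_C1.mpr e2, mem_C1.mpr ?_⟩⟩
      rw [show u2 = u1 * (u1 * u2) by decide +kernel, map_mul]
      exact comm_mul_of e2 e1
  have hab : ∀ g ∈ closure {l u1, l u2}, g * t = t * g := by
    have e : l u1 * l u2 = l u2 * l u1 := rel_mul l (by decide +kernel)
    have : Ab (closure {l u1, l u2} : Subgroup G) := by
      rw [Set.insert_eq, Subgroup.closure_union, ← zpowers_eq_closure, ← zpowers_eq_closure]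
      exact (ab_zpowers _).sup (ab_zpowers _) (by rw [C_zpowers, zpowers_le, mem_C1]; exact e)
    exact fun g hg => this.comm hg ht
  have hSt : S ⊓ C1 t = closure {l u1, l u2} :=
    le_antisymm (fun g hg => hV g (tc g (cc g hg.1) (mem_C1.mp hg.2)) (hco g hg.1))
      fun g hg => ⟨hVS hg, mem_C1.mpr (hab g hg)⟩
  obtain ⟨Φ, S₀, b1, b2, b3, -, -, -, -, b4, b5⟩ := exists_idx2_of_cent_four hS.isPGroup (hVS ht)
    t1 t2 (by rw [hSt, h.card_V])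
  have hi1 : i ≠ 1 := fun e => h.b9.ind (by rw [← iz, e]; simp)
  have hzw : i * (l ζ0 * l ω0) * i⁻¹ = l ζ0 * l ω0 := by rw [← conj_mul, iz, iw, h.b9.comm]
  have hnc : ∀ k, k * l u1 * k⁻¹ ≠ i := fun k e => by
    obtain ⟨c, -, hc⟩ := h.conj_of_cent (X := ⊤) (x := k⁻¹ * (l ζ0 * l ω0) * k⁻¹⁻¹) n1 s1
      (mem_top _) (mem_top _) (by rw [conj_pow, h.b9.mul_cube]; simp) h.b9.a3 h.b9.a1
      (comm_conj_of (by rw [inv_inv, e]; exact (mul_inv_eq_iff_eq_mul.mp hzw).symm))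
      (rel_mul l (by decide +kernel))
    exact h.not_conj (by rw [card_C1_conj, h.card_zw.1]) hc
  obtain ⟨Y, -, hY, hiY⟩ := thompson_in hS b2 b3 (mem_top i) (fun g _ => by rw [i2]; simp)
    fun g _ hg => by
      have g2 := conj_mul_self i2 g
      have hk : ∀ v ∈ closure {l u1, l u2}, v ≠ 1 → ∀ k, k * v * k⁻¹ ≠ g * i * g⁻¹ :=
        fun v hv v1 k e => by
          obtain ⟨k', rfl⟩ := h.conj_V hv v1
          exact hnc (g⁻¹ * k * k') (by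
            calc _ = g⁻¹ * (k * (k' * l u1 * k'⁻¹) * k⁻¹) * g := by group
              _ = i := by rw [e]; group)
      rcases b5 _ hg with e | e
      · obtain ⟨k, -, e'⟩ := b4 _ e
        have e2 := conj_mul_self t2 k
        rw [e'] at e2
        refine hk _ (hSt.le ⟨b2 hg, mem_C1.mpr ?_⟩) (conj_ne_one hi1 g) 1 (by simp)
        rw [← inv_eq_self e2, mul_inv_rev, inv_eq_self t2, inv_eq_self g2]
      · obtain ⟨k, -, e'⟩ := b4 _ e
        exact hk t ht t1 k (by rw [e', mul_assoc, t2, mul_one])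
  have hK : ∀ q, l (κ0 q) ∈ Y := le_of_idx2_alt le_rfl (l.comp κ0) le_top hY fun _ => mem_top _
  have hYc : ∀ a b, a * b * a⁻¹ ∈ Y ↔ b ∈ Y := fun a b =>
    idx2_conj le_top hY (mem_top a) (mem_top b)
  have j2 : l (od 0 1) * l (od 0 1) = 1 := rel_sq l (by decide +kernel)
  have jw : l (od 0 1) * l ω0 = l ω0 * l (od 0 1) := rel_mul l (by decide +kernel)
  have jz : i * l (od 0 1) * i⁻¹ * l ζ0 = l ζ0 * (i * l (od 0 1) * i⁻¹) := by
    rw [← iw]; exact comm_conj_both jw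
  have hj : l (od 0 1) ∈ Y := by
    obtain ⟨q, e⟩ := h.of_C' jz (coprime_three_of_sq (conj_mul_self j2 i))
    exact (hYc i _).mp (e ▸ hK q)
  have hC : ∀ g, g * l ζ0 = l ζ0 * g → g ∈ Y := fun g hg => by
    obtain ⟨x, rfl, x1, x2⟩ := h.of_C hg
    have e : x = ⟨(x.1.1, 1), by rw [mem_L0, sign_of_cube (k := 1) x1]; simp⟩ * κ0 ⟨_, x2⟩ :=
      Subtype.ext (Prod.ext (mul_one _).symm (one_mul _).symm)
    rw [e, map_mul]
    exact mul_mem (idx2_cube le_top hY (mem_top _) (rel_pow l (Subtype.ext (Prod.ext x1 rfl))))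
      (hK _)
  have jz' : l (od 0 1) * l ζ0 * (l (od 0 1))⁻¹ = (l ζ0)⁻¹ := by
    rw [← map_inv l ζ0]; exact rel_conj l (by decide +kernel)
  have hL : ∀ g, g * l ζ0 * g⁻¹ ∈ zpowers (l ζ0) → g ∈ Y := fun g hg => by
    rcases mem_zpowers_three h.b9.a3 hg with e | e | e
    · exact absurd e (conj_ne_one h.b9.a1 g)
    · exact hC g (mul_inv_eq_iff_eq_mul.mp e)
    · refine (mul_mem_cancel_left hj).mp (hC _ (mul_inv_eq_iff_eq_mul.mp ?_))
      calc _ = (l (od 0 1) * (g * l ζ0 * g⁻¹)⁻¹ * (l (od 0 1))⁻¹)⁻¹ := by group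
        _ = _ := by rw [e, inv_inv, jz', inv_inv]
  have ez : l (od 2 3) * l ζ0 * (l (od 2 3))⁻¹ = (l ζ0)⁻¹ := by
    rw [← map_inv l ζ0]; exact rel_conj l (by decide +kernel)
  have ew : l (od 2 3) * l ω0 * (l (od 2 3))⁻¹ = (l ω0)⁻¹ := by
    rw [← map_inv l ω0]; exact rel_conj l (by decide +kernel)
  have ej : l (κ0 (sw2 0 2 1 3)) * l (od 2 3) * (l (κ0 (sw2 0 2 1 3)))⁻¹ = l (od 0 1) :=
    rel_conj l (by decide +kernel)
  have kY := hK (sw2 0 2 1 3)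
  generalize l (od 2 3) = e at ez ew ej
  generalize l (κ0 (sw2 0 2 1 3)) = k at ej kY
  have inv2 : ∀ x y : G, i * x * i⁻¹ = y → i * y * i⁻¹ = x → e * x * e⁻¹ = x⁻¹ →
      e * y * e⁻¹ = y⁻¹ → i * e * i⁻¹ * e⁻¹ * x = x * (i * e * i⁻¹ * e⁻¹) := by
    intro x y e1 e2 e3 e4
    have e5 : e⁻¹ * x * e = x⁻¹ := by
      calc _ = e⁻¹ * (e * x * e⁻¹)⁻¹ * e := by rw [e3]; group
        _ = _ := by group
    have e6 : i⁻¹ * x * i = y := by rw [← e2]; group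
    calc i * e * i⁻¹ * e⁻¹ * x = i * (e * (i⁻¹ * (e⁻¹ * x * e)⁻¹ * i) * e⁻¹)⁻¹ * i⁻¹ *
          (i * e * i⁻¹ * e⁻¹) := by group
      _ = _ := by rw [e5, inv_inv, e6, e4, inv_inv, e2]
  have hd := h.cD (h.b9.mem_C_iff.mpr ⟨inv2 _ _ iz iw ez ew, inv2 _ _ iw iz ew ez⟩)
  have hed : ∀ d ∈ D9 (l ζ0) (l ω0), e * d * e⁻¹ = d⁻¹ := fun d hd =>
    (D9_le (K := invSub _ (fun _ ha _ hb => h.b9.ab.comm ha hb) e) ⟨left_mem_D9 _ _, ez⟩
      ⟨right_mem_D9 _ _, ew⟩ hd).2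
  have hDY : ∀ d ∈ D9 (l ζ0) (l ω0), d ∈ Y := fun d hd =>
    idx2_cube le_top hY (mem_top _) (h.b9.cube hd)
  have e7 := hed _ hd
  have e8 := h.b9.cube hd
  have e9 := hDY _ hd
  obtain ⟨d, hdd⟩ : ∃ d, d = i * e * i⁻¹ * e⁻¹ := ⟨_, rfl⟩
  rw [← hdd] at e7 e8 e9
  have e10 : i * k * i⁻¹ * d⁻¹ * k⁻¹ * l (od 0 1) * (i * k * i⁻¹ * d⁻¹ * k⁻¹)⁻¹ =
      i * l (od 0 1) * i⁻¹ := by
    rw [← ej]
    calc _ = i * k * i⁻¹ * (d⁻¹ * (e * d * e⁻¹) * e) * (i * k * i⁻¹)⁻¹ := by group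
      _ = i * k * i⁻¹ * ((d ^ 3)⁻¹ * d * e) * (i * k * i⁻¹)⁻¹ := by rw [e7]; group
      _ = _ := by rw [e8, hdd]; group
  have gY : i * k * i⁻¹ * d⁻¹ * k⁻¹ ∈ Y :=
    mul_mem (mul_mem ((hYc i k).mpr kY) (inv_mem e9)) (inv_mem kY)
  generalize i * k * i⁻¹ * d⁻¹ * k⁻¹ = g at e10 gY
  obtain ⟨c, hc, e11⟩ := h.conj_of_cent (X := Y) (x := g * l ω0 * g⁻¹)
    (conj_ne_one (rel_ne h.inj (by decide +kernel)) i) (conj_mul_self j2 i)
    ((hYc _ _).mpr (hDY _ (right_mem_D9 _ _))) (hDY _ (left_mem_D9 _ _))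
    (by rw [conj_pow, h.b9.b3]; simp) h.b9.a3 h.b9.a1
    (by rw [← e10]; exact comm_conj_both jw.symm) jz.symm
  refine hiY ((mul_mem_cancel_left (mul_mem hc gY)).mp (hL _ ?_))
  rw [← iz] at e11
  convert e11 using 1; group

theorem exists_x2 : ∃ x : G, x * x = 1 ∧ x * l u1 = l u1 * x ∧ x * l u2 = l u2 * x ∧
    x * l ω0 = l ω0 * x ∧ x * l (od 2 3) = l (od 2 3) * x ∧ (x * l (od 0 1)) ^ 3 = 1 ∧
    (l ζ0 * x) ^ 3 = 1 ∧ ((l ζ0)⁻¹ * x) ^ 3 = 1 := by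
  have hP := h.pNil_X
  have hn := hP.nrm_compl h.nrm_X
  have h3 : ¬ 3 ∣ Nat.card hP.compl := (Nat.Prime.coprime_iff_not_dvd Nat.prime_three).mp
    (hP.coprime_card_compl Nat.prime_three).symm
  obtain ⟨m, hm, mw, m1⟩ : ∃ m ∈ hP.compl, m * l ω0 = l ω0 * m ∧ m ≠ 1 := by
    by_contra hc
    push Not at hc
    refine h.step2 fun g hg ho => h.b9.gen (hn _ (left_mem_D9 _ _)) (hn _ (right_mem_D9 _ _)) h3
      (fun m hm e => ?_) (fun m hm e => ?_) (fun m hm e => ?_) (fun m hm e => ?_)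
      (hP.mem_compl.mpr ⟨hg, ho⟩)
    · obtain ⟨m1, m2⟩ := hP.mem_compl.mp hm
      exact (h.mem_V (by rw [e, mul_inv_cancel_right]; exact mem_zpowers _) (mem_C1.mp m1.1)
        (mem_C1.mp m1.2)).2.2 m2
    · rw [hc m hm e]; exact one_mem _
    · rw [h.triv_of_cent hn h3 (mul_mem (left_mem_D9 _ _) (right_mem_D9 _ _)) h.card_zw.1 hm e]
      exact one_mem _
    · rw [h.triv_of_cent hn h3 (mul_mem (left_mem_D9 _ _) (inv_mem (right_mem_D9 _ _)))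
        h.card_zw.2 hm e]
      exact one_mem _
  obtain ⟨i, i2, iz, iw⟩ := h.exists_i
  -- the subgroup of `S₅` cut out by `i (M ∩ C(w)) i`
  let ι : A5 →* G := (MulAut.conj i).toMonoidHom.comp (l.comp κ0)
  have hι : ∀ q, ι q = i * l (κ0 q) * i⁻¹ := fun _ => rfl
  let W : Subgroup A5 := (hP.compl ⊓ C1 (l ω0)).comap ι
  let ω1 : A5 := sw2 2 3 3 4
  have hω : ι ω1 = l ζ0 := iw
  have hW1 : ∀ q ∈ W, ω1 * q * ω1⁻¹ ∈ W := fun q hq => by
    rw [mem_comap, map_mul, map_mul, map_inv, hω]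
    exact ⟨hn _ (left_mem_D9 _ _) _ hq.1, mem_C1.mpr (comm_conj_of (by
      rw [mul_assoc, ← h.b9.comm, inv_mul_cancel_left]; exact mem_C1.mp hq.2))⟩
  have hιi : Function.Injective ι := alt_injective le_rfl (x := ω1) (hω ▸ h.b9.a1)
  have hW2 : ∀ q ∈ W, ¬ (q.1 ≠ 1 ∧ q.1 ^ 3 = 1) := fun q hq e =>
    e.1 (congrArg Subtype.val (hιi ((eq_one_of_pow_of_not_dvd Nat.prime_three hq.1
      (rel_pow ι (Subtype.ext e.2)) h3).trans (map_one ι).symm)))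
  obtain ⟨q, hq⟩ := h.of_C' (g := i * m * i⁻¹) (by rw [← iw]; exact comm_conj_both mw)
    (by rw [orderOf_conj']; exact (hP.mem_compl.mp hm).2)
  have hqm : ι q = m := by rw [hι, hq, conj_invol i2]
  have hqW : q ∈ W := by rw [mem_comap, hqm]; exact ⟨hm, mem_C1.mpr mw⟩
  have hf1 : ∀ q ∈ W, q * (ω1 * q * ω1⁻¹) ∈ W := fun q hq => mul_mem hq (hW1 q hq)
  have hf2 : ∀ q ∈ W, q * (ω1 * q * ω1⁻¹)⁻¹ ∈ W := fun q hq => mul_mem hq (inv_mem (hW1 q hq))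
  obtain ⟨t, ht⟩ : ∃ t, q.1 = V6 t := by
    rcases inv_sub q.1 q.2 with e | e | e | e | e | e | e
    · exact absurd (by rw [← hqm, show q = 1 from Subtype.ext e, map_one]) m1
    · exact e
    · exact absurd e (hW2 _ hqW)
    · exact absurd e (hW2 _ (hf1 _ hqW))
    · exact absurd e (hW2 _ (hf2 _ hqW))
    · exact absurd e (hW2 _ (hf1 _ (hf1 _ hqW)))
    · exact absurd e (hW2 _ (hf2 _ (hf1 _ hqW)))
  -- the images of `od 0 1` and `od 2 3` under conjugation by `i`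
  have inv1 : ∀ x y : L0, ∀ g : G, x * y * x⁻¹ = y⁻¹ → i * l y * i⁻¹ = g →
      i * l x * i⁻¹ * g * (i * l x * i⁻¹)⁻¹ = g⁻¹ := fun x y g e1 e2 => by
    subst e2
    calc _ = i * (l x * l y * (l x)⁻¹) * i⁻¹ := by group
      _ = _ := by rw [rel_conj l e1, map_inv]; group
  obtain ⟨ql, hl⟩ := h.of_C' (g := i * l (od 0 1) * i⁻¹)
    (by rw [← iw]; exact comm_conj_both (rel_mul l (by decide +kernel)))
    (coprime_three_of_sq (conj_mul_self (rel_sq l (by decide +kernel)) i))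
  have e1 := inv1 (od 0 1) ζ0 _ (by decide +kernel) iz
  have e2 := inv1 (od 2 3) ζ0 _ (by decide +kernel) iz
  have e3 := inv1 (od 2 3) ω0 _ (by decide +kernel) iw
  obtain ⟨xe, he⟩ := h.of_N (g := i * l (od 2 3) * i⁻¹) (by rw [e3]; exact inv_mem (mem_zpowers _))
  have e4 : i * l (od 2 3) * i⁻¹ * (i * l (od 0 1) * i⁻¹) =
      i * l (od 0 1) * i⁻¹ * (i * l (od 2 3) * i⁻¹) :=
    comm_conj_both (rel_mul l (by decide +kernel))
  rw [← hl] at e1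
  rw [← he] at e2 e3
  rw [← he, ← hl] at e4
  simp only [← map_inv, ← map_mul] at e1 e2 e3 e4
  obtain ⟨jl, εl, f1⟩ := inverts_ω ql.1 (congrArg (fun t : L0 => t.1.2) (h.inj e1))
  obtain ⟨je, εe, f2⟩ := inverts_ω xe.1.2 (congrArg (fun t : L0 => t.1.2) (h.inj e2))
  have f3 : εl = 1 := by
    rcases (by decide : ∀ ε : Fin 2, ε = 0 ∨ ε = 1) εl with rfl | rfl
    · exact absurd ((sign_R6 jl).1.symm.trans (f1 ▸ ql.2)) (by decide)
    · rfl
  have f4 : εe = 0 := by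
    rcases (by decide : ∀ ε : Fin 2, ε = 0 ∨ ε = 1) εe with rfl | rfl
    · rfl
    · have f5 := mem_L0.mp xe.2
      rw [f2, (sign_R6 je).2, mul_one] at f5
      have f6 : xe.1.1 * ζ * xe.1.1⁻¹ = ζ⁻¹ := congrArg (fun t : L0 => t.1.1) (h.inj e3)
      rcases even_S3 _ f5 with e | e | e <;> rw [e] at f6 <;> exact absurd f6 (by decide +kernel)
  subst f3 f4
  obtain ⟨k, g1, g2, g3, g4, g5⟩ := moore_aux je jl
    (by rw [← f1, ← f2]; exact congrArg (fun t : L0 => t.1.2) (h.inj e4)) t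
  rw [← ht, ← f1] at *
  rw [← f2] at g2
  have hx : ω1 ^ k.val * q * (ω1 ^ k.val)⁻¹ ∈ W := by
    induction k.val with
    | zero => simpa using hqW
    | succ n ih =>
      have := hW1 _ ih
      convert this using 1
      rw [pow_succ']; group
  have hx' : (ω1 ^ k.val * q * (ω1 ^ k.val)⁻¹).1 = ω ^ k.val * q.1 * (ω ^ k.val)⁻¹ := rfl
  rw [← hx'] at g1 g2 g3 g4 g5
  generalize ω1 ^ k.val * q * (ω1 ^ k.val)⁻¹ = x at hx g1 g2 g3 g4 g5
  have hX := (hP.mem_compl.mp hx.1).1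
  refine ⟨ι x, rel_sq ι (Subtype.ext g1), mem_C1.mp hX.1, mem_C1.mp hX.2, mem_C1.mp hx.2, ?_, ?_,
    ?_, ?_⟩
  · rw [← conj_invol (x := l (od 2 3)) i2, ← he, hι]
    exact comm_conj_both (rel_mul l (Subtype.ext (Prod.ext ((one_mul _).trans (mul_one _).symm) g2)))
  · rw [← conj_invol (x := l (od 0 1)) i2, ← hl, ← hι, ← map_mul]
    exact rel_pow ι (Subtype.ext g3)
  · rw [← hω, ← map_mul]; exact rel_pow ι (Subtype.ext g4)
  · rw [← hω, ← map_inv, ← map_mul]; exact rel_pow ι (Subtype.ext g5)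

theorem main : Nonempty (G ≃* A8) := by
  obtain ⟨x, x2, xu1, xu2, xw, xe, xj, xz, xz'⟩ := h.exists_x2
  have xi := inv_eq_self x2
  have x4 : x * l (od 1 2) = l (od 1 2) * x := by
    rw [show od 1 2 = u1 * ω0 * ω0 * od 2 3 by decide +kernel, map_mul, map_mul, map_mul]
    exact comm_mul_of (comm_mul_of (comm_mul_of xu1 xw) xw) xe
  have x6 : x * l (od 3 4) = l (od 3 4) * x := by
    rw [show od 3 4 = od 2 3 * ω0 by decide +kernel, map_mul]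
    exact comm_mul_of xe xw
  let y0 : Fin 7 → L0 := ![1, ζ0, 1, od 0 1, od 1 2, od 2 3, od 3 4]
  let y : ℕ → G := fun n => if n = 2 then x else l (y0 (Fin.ofNat 7 n))
  have hc2 : ∀ g : L0, g * g = 1 → x * l g = l g * x →
      (x⁻¹ * l g) ^ 2 = 1 ∧ (x * (l g)⁻¹) ^ 2 = 1 := fun g g2 e => by
    rw [xi, inv_eq_self (rel_sq l g2), and_self, (Commute.mul_pow e 2), pow_two, pow_two, x2,
      rel_sq l g2, one_mul]
  have hb : ∀ a b : L0, ∀ n : ℕ, (a⁻¹ * b) ^ n = 1 ∧ (a * b⁻¹) ^ n = 1 →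
      ((l a)⁻¹ * l b) ^ n = 1 ∧ (l a * (l b)⁻¹) ^ n = 1 := fun a b n e => by
    simp only [← map_inv, ← map_mul]
    exact ⟨rel_pow l e.1, rel_pow l e.2⟩
  obtain ⟨ψ, hψ⟩ := moore_hom (k := 7) y (fun i hi => by
      have : i < 6 := by omega
      interval_cases i
      · exact hb _ _ _ (by decide +kernel)
      · exact ⟨xz', by change (l ζ0 * x⁻¹) ^ 3 = 1; rwa [xi]⟩
      · change (x⁻¹ * l (od 0 1)) ^ 3 = 1 ∧ (x * (l (od 0 1))⁻¹) ^ 3 = 1
        rw [xi, inv_eq_self (rel_sq l (by decide +kernel))]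
        exact ⟨xj, xj⟩
      all_goals exact hb _ _ _ (by decide +kernel))
    (fun i j hi hj => by
      have : i < 5 := by omega
      interval_cases i <;> interval_cases j
      · change ((l 1)⁻¹ * x) ^ 2 = 1 ∧ (l 1 * x⁻¹) ^ 2 = 1
        simp [xi, pow_two, x2]
      iterate 8 exact hb _ _ _ (by decide +kernel)
      · exact hc2 _ (by decide +kernel) x4
      · exact hc2 _ (by decide +kernel) xe
      · exact hc2 _ (by decide +kernel) x6
      all_goals exact hb _ _ _ (by decide +kernel))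
  have hy : ∀ (n : Fin 7) (g : A8), n.val ≠ 2 → g.1 = adjSwap 7 0 * adjSwap 7 n →
      ψ g = l (y0 n) := fun n g hn e => by
    rw [hψ 0 n (by norm_num) n.2 g e]
    simp [y, y0, hn]
  have hz := hy 1 (sw2 0 1 1 2) (by decide) (by decide +kernel)
  have h3 := hy 3 (sw2 0 1 3 4) (by decide) (by decide +kernel)
  have h4 := hy 4 (sw2 0 1 4 5) (by decide) (by decide +kernel)
  have h5 := hy 5 (sw2 0 1 5 6) (by decide) (by decide +kernel)
  have h6 := hy 6 (sw2 0 1 6 7) (by decide) (by decide +kernel)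
  change _ = l ζ0 at hz
  have hψi : Function.Injective ψ := alt_injective (by norm_num) (hz ▸ h.b9.a1)
  have m1 : l ζ0 ∈ ψ.range := ⟨_, hz⟩
  have m3 : l (od 0 1) ∈ ψ.range := ⟨_, h3⟩
  have m4 : l (od 1 2) ∈ ψ.range := ⟨_, h4⟩
  have m5 : l (od 2 3) ∈ ψ.range := ⟨_, h5⟩
  have m6 : l (od 3 4) ∈ ψ.range := ⟨_, h6⟩
  have hw : ψ (sw2 5 6 6 7) = l ω0 := by
    rw [show sw2 5 6 6 7 = sw2 0 1 5 6 * sw2 (0 : Fin 8) 1 6 7 by decide +kernel, map_mul, h5, h6,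
      ← map_mul]
    exact congrArg l (by decide +kernel)
  have hK : ∀ q, l (κ0 q) ∈ ψ.range := by
    refine A5_le (κ := l.comp κ0) (a := sw2 0 1 2 3) (b := sw2 0 1 1 2)
      (c := sw2 0 1 1 2 * sw2 2 3 3 4) ?_ ?_ ?_ (by decide +kernel) (by decide +kernel)
      (by decide +kernel) (by decide +kernel) (by decide +kernel) (by decide +kernel)
    · rw [MonoidHom.comp_apply, show κ0 _ = od 0 1 * od 2 3 by decide +kernel, map_mul]
      exact mul_mem m3 m5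
    · rw [MonoidHom.comp_apply, show κ0 _ = od 0 1 * od 1 2 by decide +kernel, map_mul]
      exact mul_mem m3 m4
    · rw [MonoidHom.comp_apply, show κ0 _ = od 0 1 * od 1 2 * od 2 3 * od 3 4 by decide +kernel,
        map_mul, map_mul, map_mul]
      exact mul_mem (mul_mem (mul_mem m3 m4) m5) m6
  have hC : ∀ g, g * l ζ0 = l ζ0 * g → g ∈ ψ.range := fun g hg => by
    obtain ⟨x, rfl, x1, x2⟩ := h.of_C hg
    have e : ∀ j : ℕ, x.1.1 = ζ ^ j → l x ∈ ψ.range := fun j e => by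
      rw [show x = ζ0 ^ j * κ0 ⟨_, x2⟩ from Subtype.ext (Prod.ext (e.trans (mul_one _).symm)
        (by simp [ζ0, κ0])), map_mul, map_pow]
      exact mul_mem (pow_mem m1 _) (hK _)
    rcases cube_S3 _ x1 with e' | e' | e'
    exacts [e 0 e', e 1 e', e 2 (e'.trans (by decide +kernel))]
  have jz' : l (od 0 1) * l ζ0 * (l (od 0 1))⁻¹ = (l ζ0)⁻¹ := by
    rw [← map_inv l ζ0]; exact rel_conj l (by decide +kernel)
  have hL : ∀ g, g * l ζ0 * g⁻¹ ∈ zpowers (l ζ0) → g ∈ ψ.range := fun g hg => by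
    rcases mem_zpowers_three h.b9.a3 hg with e | e | e
    · exact absurd e (conj_ne_one h.b9.a1 g)
    · exact hC g (mul_inv_eq_iff_eq_mul.mp e)
    · refine (mul_mem_cancel_left m3).mp (hC _ (mul_inv_eq_iff_eq_mul.mp ?_))
      calc _ = (l (od 0 1) * (g * l ζ0 * g⁻¹)⁻¹ * (l (od 0 1))⁻¹)⁻¹ := by group
        _ = _ := by rw [e, inv_inv, jz', inv_inv]
  obtain ⟨π, hπ, π1, π2, πz, πw⟩ : ∃ π ∈ ψ.range, π ≠ 1 ∧ π * π = 1 ∧ π * l ζ0 * π⁻¹ = l ω0 ∧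
      π * l ω0 * π⁻¹ = l ζ0 :=
    ⟨ψ (sw2 0 5 1 6 * sw2 2 7 3 4), ⟨_, rfl⟩, rel_ne hψi (by decide +kernel),
      rel_sq ψ (by decide +kernel), by rw [← hz, ← hw]; exact rel_conj ψ (by decide +kernel),
      by rw [← hz, ← hw]; exact rel_conj ψ (by decide +kernel)⟩
  have hD : D9 (l ζ0) (l ω0) ≤ ψ.range := D9_le m1 ⟨_, hw⟩
  have hcj : ∀ k ∈ ψ.range, ∀ a b : G, k * a * k⁻¹ = b → C1 a ≤ ψ.range → C1 b ≤ ψ.range :=
    fun k hk a b e e' => by rw [← e, ← cj_C1]; exact cj_le_of_le e' hk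
  have c1 : C1 (l ζ0) ≤ ψ.range := fun g hg => hC g (mem_C1.mp hg)
  have c2 := hcj π hπ _ _ πz c1
  have c3 : C1 (l ζ0 * l ω0) ≤ ψ.range := by
    have a1 : D9 (l ζ0) (l ω0) ≤ C1 (l ζ0 * l ω0) :=
      le_C1_iff.mpr (h.b9.ab (mul_mem (left_mem_D9 _ _) (right_mem_D9 _ _)))
    rcases eq_or_eq_of_prime_relIndex (by
      rw [relIndex_eq_of_mul a1 (n := 2) (by rw [h.b9.card, h.card_zw.1])]; exact Nat.prime_two)
      (le_inf a1 hD) inf_le_left with e | e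
    · refine absurd (eq_one_of_sq_cube π2 (h.b9.cube (e.le ⟨mem_C1_iff_conj.mpr ?_, hπ⟩))) π1
      rw [← conj_mul, πz, πw, h.b9.comm]
    · exact e.ge.trans inf_le_right
  have c4 := hcj _ (hK (sw2 0 1 2 3)) (l ζ0 * l ω0) (l ζ0 * (l ω0)⁻¹) (by
    rw [← map_mul l ζ0 ω0, ← map_inv l ω0, ← map_mul l ζ0 ω0⁻¹]
    exact rel_conj l (by decide +kernel)) c3
  have hSE : SE 3 ψ.range := by
    refine se_of Nat.prime_three h.syl hD (fun g hg => ?_) fun d hd d1 _ g hg => ?_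
    · have a1 : g * l ζ0 * g⁻¹ ∈ D9 (l ζ0) (l ω0) := hg ▸ conj_mem_cj.mpr (left_mem_D9 _ _)
      have a2 := card_C1_conj g (l ζ0)
      have a3 : ∀ u ∈ zpowers (l ω0), g * l ζ0 * g⁻¹ = u → g ∈ ψ.range := fun u hu e => by
        refine (mul_mem_cancel_left hπ).mp (hL _ ?_)
        rw [← πw, ← cj_zpowers, mem_cj, πw]
        convert hu using 1
        rw [← e]; group
      rw [h.hz] at a2
      rcases h.b9.mem' a1 with e | e | e | e | e | e | e | e | e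
      · exact absurd e (conj_ne_one h.b9.a1 g)
      · exact hL g (by rw [e]; exact mem_zpowers _)
      · exact hL g (by rw [e]; exact inv_mem (mem_zpowers _))
      · exact a3 _ (mem_zpowers _) e
      · exact a3 _ (inv_mem (mem_zpowers _)) e
      all_goals simp only [e, C1_inv, h.card_zw.1, h.card_zw.2] at a2; omega
    · replace hg := mem_C1.mpr hg
      rcases h.b9.mem' hd with rfl | rfl | rfl | rfl | rfl | rfl | rfl | rfl | rfl <;>
        try simp only [C1_inv] at hg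
      exacts [absurd rfl d1, c1 hg, c1 hg, c2 hg, c2 hg, c3 hg, c3 hg, c4 hg, c4 hg]
  exact ⟨(MulEquiv.ofBijective ψ ⟨hψi, endgame_A8 hψi hSE⟩).symm⟩

end Hyp
end A8c
end CfsgH7
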