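import Cfsg.Agent.H9.Row3Ker

/-! The algebra of the special classes of `3³ : S₄`. -/

set_option autoImplicit false

namespace CfsgH7.N9c
open CfsgH8

theorem k1 {r x y g α φ β ξ : ℂ} (hr : r ≠ 0) (hx : x ≠ 0) (hy : y ≠ 0) (hg : g ≠ 0) (hh : x + y ≠ 0)
    (e0 : x + y + r + g = 0) (e1 : r * α + g * φ = 0) (e2 : r * α * α + g * φ * φ = 3)
    (e3 : x * ξ + y * β = 0) (e4 : x * ξ * ξ + y * β * β = 3)
    (d : r * y * (6 * α * α + 6 * α * β + 3 * β * β) = 9 * (r + y)) :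
    α = -2 * β ∧ 4 * r * x = -g * y := by
  have n1 : r * (x + y) * α * α = -3 * g := by grind
  have n2 : y * (x + y) * β * β = 3 * x := by grind
  have n3 : α = -2 * β := by grind
  exact ⟨n3, by grind⟩

theorem k2 {r x y g φ β ξ a w : ℂ} (hr : r ≠ 0) (hx : x ≠ 0) (hy : y ≠ 0) (hg : g ≠ 0)
    (e0 : x + y + r + g = 0) (e1 : r * (-2 * β) + g * φ = 0)
    (e3 : x * ξ + y * β = 0) (e4 : x * ξ * ξ + y * β * β = 3) (e5 : 4 * r * x = -g * y)
    (o1 : r * (6 * (a + 2 * β) * (2 * β) - 3 * ((a + 2 * β) * β + w * (2 * β)) + 3 * w * β) = 9)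
    (d : x * (-g) * (9 / 2 * φ * φ + 3 * φ * ξ + 3 / 2 * ξ * ξ) = (x - g) * (9 / 2))
    (o2 : x * (9 / 2 * a * φ - 3 / 2 * (a * (-ξ) + (w - ξ) * φ) + 3 / 2 * (w - ξ) * (-ξ)) = 9 / 2) :
    a = -2 * β := by
  have n2 : y * (x + y) * β * β = 3 * x := by grind
  have n3 : 11 * r * x = (x - g) * (x + y) := by grind
  have n4 : x + y = 3 * r := by grind
  have n5 : x = y := by grind
  grind

theorem k3 {r x y g φ β ξ : ℂ} (hx : x ≠ 0) (hy : y ≠ 0) (hg : g ≠ 0) (hh : x + y ≠ 0)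
    (e0 : x + y + r + g = 0) (e1 : r * (-2 * β) + g * φ = 0)
    (e3 : x * ξ + y * β = 0) (e4 : x * ξ * ξ + y * β * β = 3) (e5 : 4 * r * x = -g * y)
    (d : y * (-g) * (9 / 2 * φ * φ + 3 * φ * β + 3 / 2 * β * β) = (y - g) * (9 / 2))
    (e6 : 2 + 2 * y + r - g = 0) : 17 * x = -1 := by
  have n2 : y * (x + y) * β * β = 3 * x := by grind
  have n1 : 4 * r * (x + y) * β * β = -3 * g := by grind
  have n5 : 3 * y * r - 4 * r * x - x * g = (x + y) * (y - g) := by grind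
  have n3 : g = -4 * (x + y) := by grind
  have n4 : y = 3 * x := by grind
  grind

theorem k4 {r x y g β ξ : ℂ} (hr : r ≠ 0) (hx : x ≠ 0) (hy : y ≠ 0)
    (e0 : x + y + r + g = 0)
    (e3 : x * ξ + y * β = 0) (e4 : x * ξ * ξ + y * β * β = 3) (e5 : 4 * r * x = -g * y)
    (d : x * (-r) * (18 * β * β - 6 * β * ξ + 3 / 2 * ξ * ξ) = (x - r) * (9 / 2))
    (e6 : x - 2 * r - y = 0) : False := by
  have n2 : y * (x + y) * β * β = 3 * x := by grind
  have n3 : 3 * r + 2 * (x + y) = 0 := by grind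
  grind

variable {ι : Type*} [Fintype ι]

structure RW (d U W : ι → ℂ) (c : ι → ℤ) (n : ℤ) (A B C : ℂ) : Prop where
  n : ∑ i, c i * c i = n
  h0 : ∑ i, c i * d i = 0
  hU : ∑ i, c i * d i * U i = 0
  hW : ∑ i, c i * d i * W i = 0
  hA : ∑ i, c i * d i * U i * U i = A
  hB : ∑ i, c i * d i * U i * W i = B
  hC : ∑ i, c i * d i * W i * W i = C

theorem norm2_second {c : ι → ℤ} (h : ∑ i, c i * c i = 2) {i : ι} (hi : c i ≠ 0) :
    ∃ k, k ≠ i ∧ c k ≠ 0 ∧ (∀ l, c l ≠ 0 → l = i ∨ l = k) ∧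
      ∀ {R : Type} [AddCommMonoid R] (F : ι → R), (∀ l, c l = 0 → F l = 0) →
        ∑ l, F l = F i + F k := by
  classical
  have h1 := unit_of_mul_self_le hi ((sq_le_sum_sq c i).trans (by omega))
  obtain ⟨k, hk, hk0⟩ := exists_not_mem_of_sum_sq_lt (c := c) (s := {i}) (by
    rw [Finset.sum_singleton, h]
    rcases h1 with h1 | h1 <;> simp [h1])
  rw [Finset.mem_singleton] at hk
  have h4 : ∀ l, l ∉ ({i, k} : Finset ι) → c l = 0 := fun l hl => eq_zero_of_sum_sq_eq (by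
    rw [h, Finset.sum_pair (Ne.symm hk)]
    have := one_le_mul_self hi
    have := one_le_mul_self hk0
    omega) hl
  refine ⟨k, hk, hk0, fun l hl => by_contra fun e => hl (h4 l (by simpa using e)), fun F hF => ?_⟩
  rw [sum_eq_of_support h4 F hF, Finset.sum_pair (Ne.symm hk)]

theorem unit4 {c : ι → ℤ} (h : ∑ i, c i * c i = 4) {o i : ι} (ho : c o = 1) (hi : i ≠ o) :
    c i = 0 ∨ c i = 1 ∨ c i = -1 := by
  classical
  have h1 := sum_sq_le_sum_sq c {i, o}
  rw [Finset.sum_pair hi, h, ho] at h1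
  exact (em _).imp_right fun e => unit_of_mul_self_le e (by omega)

theorem two_cases {a b s t e : ℤ} (ha : a = 0 ∨ a = 1 ∨ a = -1) (hb : b = 0 ∨ b = 1 ∨ b = -1)
    (hs : s = 1 ∨ s = -1) (ht : t = 1 ∨ t = -1) (he : e = 1 ∨ e = -1) (h : a * s + b * t = e) :
    (a = e * s ∧ b = 0) ∨ (b = e * t ∧ a = 0) := by
  rcases ha with rfl | rfl | rfl <;> rcases hb with rfl | rfl | rfl <;> rcases hs with rfl | rfl <;>
    rcases ht with rfl | rfl <;> omega

theorem alg9 {d U W : ι → ℂ} (hz : ∀ i, ∃ n : ℕ, 0 < n ∧ d i = n) {o : ι} (ho : d o = 1)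
    {v u q a c : ι → ℤ} (hv : RW d U W v 3 0 0 3) (hu : RW d U W u 3 3 0 0)
    (hq : RW d U W q 2 0 0 0) (ha : RW d U W a 4 3 3 6) (hc : RW d U W c 4 (3 / 2) (3 / 2) (9 / 2))
    (uv : ∑ i, u i * v i = -1) (qu : ∑ i, q i * u i = 1) (qv : ∑ i, q i * v i = -1)
    (au : ∑ i, a i * u i = 1) (av : ∑ i, a i * v i = 1) (aq : ∑ i, a i * q i = 0)
    (cu : ∑ i, c i * u i = -1) (cv : ∑ i, c i * v i = 1) (cq : ∑ i, c i * q i = 0)
    (ca : ∑ i, c i * a i = 1) (vo : v o = 0) (uo : u o = 0) (qo : q o = 0) (ao : a o = 1)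
    (co : c o = 1) : ∃ i, i ≠ o ∧ U i = U o := by
  have hd : ∀ i, d i ≠ 0 := fun i => by
    obtain ⟨n, a, e⟩ := hz i
    rw [e]; exact_mod_cast a.ne'
  have nz : ∀ {c : ι → ℤ} {i}, c i ≠ 0 → (c i : ℂ) * d i ≠ 0 := fun a =>
    mul_ne_zero (by exact_mod_cast a) (hd _)
  have vU : R3 d U v 0 := ⟨hv.n, hv.h0, hv.hU, hv.hA⟩
  have vW : R3 d W v 3 := ⟨hv.n, hv.h0, hv.hW, hv.hC⟩
  have uU : R3 d U u 3 := ⟨hu.n, hu.h0, hu.hU, hu.hA⟩
  have uW : R3 d W u 0 := ⟨hu.n, hu.h0, hu.hW, hu.hC⟩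
  obtain ⟨T, uT, vT⟩ := exists_eq_neg_of_neg hu.n.le hv.n.le (by omega)
  have vT' : v T ≠ 0 := by omega
  have t1 : ∀ i, u i ≠ 0 → U i = U T → i = T := fun i a => uU.eq_of_ne_zero hd (by norm_num) a uT
  have t2 : ∀ i, v i ≠ 0 → W i = W T → i = T := fun i a => vW.eq_of_ne_zero hd (by norm_num) a vT'
  have s1 : ∀ i, v i ≠ 0 → U i = U T := fun i a => vU.eq_of_zero hd a vT'
  have s2 : ∀ i, u i ≠ 0 → W i = W T := fun i a => uW.eq_of_zero hd a uT
  have q2 : ∀ j k, q j ≠ 0 → q k ≠ 0 → U j = U k ∧ W j = W k := fun j k a b => by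
    obtain ⟨l, e1, e2, e, hF⟩ := norm2_second hq.n a
    rcases e k b with rfl | rfl
    · exact ⟨rfl, rfl⟩
    have e0 := hq.h0
    have e3 := hq.hU
    have e4 := hq.hW
    rw [hF _ (fun l hl => by simp [hl])] at e0 e3 e4
    exact ⟨mul_left_cancel₀ (nz a) (by linear_combination e3 - U k * e0),
      mul_left_cancel₀ (nz a) (by linear_combination e4 - W k * e0)⟩
  obtain ⟨j, qj, vj⟩ := exists_eq_neg_of_neg (hq.n.le.trans (by norm_num)) hv.n.le (by omega)
  obtain ⟨k, qT, uk⟩ := exists_eq_of_pos (hq.n.le.trans (by norm_num)) hu.n.le (by omega)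
  obtain rfl : k = T := t1 k (by omega) ((q2 k j qT qj).1.trans (s1 j (by omega)))
  obtain ⟨T', n1, qT', -, qF⟩ := norm2_second hq.n qT
  have ok : o ≠ k := by rintro rfl; omega
  have cT : ∀ {c : ι → ℤ} {A B C : ℂ}, RW d U W c 4 A B C → A * C - B * B ≠ 0 → c o = 1 →
      ∑ i, c i * q i = 0 → c k = 0 := fun {c A B C} h e1 e2 e3 => by
    by_contra e4
    rw [qF _ (fun l hl => by simp [hl])] at e3
    have e5 := hq.h0
    have e6 := hq.n
    rw [qF _ (fun l hl => by simp [hl])] at e5 e6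
    have e7 : c T' ≠ 0 := fun e => by simp [e, e4, qT] at e3
    have := (row4_orth h.n hd h.h0 h.hU h.hW h.hA h.hB h.hC (i := k) (j := o) (k := T') ok.symm
      n1.symm (by rintro rfl; omega) e4 (by omega) e7).2
    rw [(q2 _ _ qT qT').1, (q2 _ _ qT qT').2, sub_self, sub_self] at this
    have e8 : (c k : ℂ) * d k + c T' * d T' = 0 := mul_right_cancel₀ e1 (by linear_combination -this)
    have e9 : (c k : ℂ) * q k + c T' * q T' = 0 := by exact_mod_cast e3
    have e10 : (q k : ℂ) * q k + q T' * q T' = 2 := by exact_mod_cast e6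
    have e11 : q T' * q T' = 1 := by
      have := one_le_mul_self qT
      have := one_le_mul_self qT'
      omega
    have e12 : (q T' : ℂ) * q T' = 1 := by exact_mod_cast e11
    have := nz e4
    grind
  have ak := cT ha (by norm_num) ao aq
  have ck := cT hc (by norm_num) co cq
  have u1 : ∀ {i}, u i ≠ 0 → u i = 1 ∨ u i = -1 := fun a =>
    unit_of_mul_self_le a (hu.n ▸ sq_le_sum_sq u _)
  have v1 : ∀ {i}, v i ≠ 0 → v i = 1 ∨ v i = -1 := fun a =>
    unit_of_mul_self_le a (hv.n ▸ sq_le_sum_sq v _)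
  have ou : ∀ {i}, u i ≠ 0 → i ≠ o := fun a e => a (e ▸ uo)
  have ov : ∀ {i}, v i ≠ 0 → i ≠ o := fun a e => a (e ▸ vo)
  obtain ⟨R, hR⟩ := exists_pos_of_sum_pos (c := fun i => a i * u i) (by omega)
  obtain ⟨Y, hY⟩ := exists_pos_of_sum_pos (c := fun i => a i * v i) (by omega)
  have uR := right_ne_zero_of_mul hR.ne'
  have vY := right_ne_zero_of_mul hY.ne'
  have aR := left_ne_zero_of_mul hR.ne'
  have aY := left_ne_zero_of_mul hY.ne'
  obtain ⟨F, FT, FR, uF, -, uS⟩ := norm3_third hu.n (i := k) (j := R) (by rintro rfl; omega) uT uR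
  obtain ⟨X, XT, XY, vX, -, vS⟩ := norm3_third hv.n (i := k) (j := Y) (by rintro rfl; omega) vT' vY
  rw [uS _ (fun l hl => by simp [hl])] at au cu
  rw [vS _ (fun l hl => by simp [hl])] at av cv
  simp only [ak, ck, zero_mul, zero_add] at au cu av cv
  obtain ⟨aR', aF⟩ := (two_cases (unit4 ha.n ao (ou uR)) (unit4 ha.n ao (ou uF)) (u1 uR) (u1 uF)
    (Or.inl rfl) au).resolve_right fun e => aR e.2
  obtain ⟨aY', aX⟩ := (two_cases (unit4 ha.n ao (ov vY)) (unit4 ha.n ao (ov vX)) (v1 vY) (v1 vX)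
    (Or.inl rfl) av).resolve_right fun e => aY e.2
  have dj : ∀ {i j}, u i ≠ 0 → v j ≠ 0 → i ≠ k → i ≠ j := fun a b e e' =>
    e (t1 _ a (s1 _ (e' ▸ b)))
  have RT : R ≠ k := by rintro rfl; omega
  have e0 := hu.h0
  have e1 := hu.hU
  have e2 := hu.hA
  rw [uS _ (fun l hl => by simp [hl])] at e0 e1 e2
  have f0 := hv.h0
  have e3 := hv.hW
  have e4 := hv.hC
  rw [vS _ (fun l hl => by simp [hl]), vT] at f0 e3 e4
  have oa := fun {i j l} => row4_orth ha.n hd ha.h0 ha.hU ha.hW ha.hA ha.hB ha.hC (i := i) (j := j)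
    (k := l)
  have oc := fun {i j l} => row4_orth hc.n hd hc.h0 hc.hU hc.hW hc.hA hc.hB hc.hC (i := i) (j := j)
    (k := l)
  have ao' : a o ≠ 0 := by omega
  have co' : c o ≠ 0 := by omega
  have d1 := (oa (dj uR vY RT) (ou uR) (ov vY) aR aY ao').1
  have d2 := (oa (ou uR) (dj uR vY RT) (ov vY).symm aR ao' aY).2
  have d3 := (oa (ov vY).symm (ou uR).symm (dj uR vY RT).symm ao' aY aR).1
  obtain ⟨Θ, Θo, ΘR, ΘY, aΘ, -, aS⟩ := norm4_fourth ha.n (ou uR).symm (ov vY).symm (dj uR vY RT) ao' aR aY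
  have g0 := ha.h0
  rw [aS _ (fun l hl => by simp [hl])] at ca g0
  rw [one_mul] at aR' aY'
  rw [ao, co, aR', aY'] at ca
  simp only [ao, aR', aY', ho, s1 X vX, s1 Y vY, s2 R uR, s2 F uF] at d1 d2 d3 g0
  push_cast at f0 e3 e4 d1 d2 d3 g0
  have hh : (v X : ℂ) * d X + v Y * d Y ≠ 0 := fun e => nz uT (by linear_combination e - f0)
  obtain ⟨m1, m2⟩ := k1 (α := U R - U k) (φ := U F - U k) (β := W Y - W k) (ξ := W X - W k) (nz uR)
    (nz vX) (nz vY) (nz uF) hh (by linear_combination e0 + f0) (by linear_combination e1 - U k * e0)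
    (by linear_combination e2 - 2 * U k * e1 + U k * U k * e0) (by linear_combination e3 - W k * f0)
    (by linear_combination e4 - 2 * W k * e3 + W k * W k * f0) (by linear_combination d2)
  have z0 : (v X : ℂ) * d X + v Y * d Y + u R * d R + u F * d F = 0 := by linear_combination e0 + f0
  have z1 : u R * d R * (-2 * (W Y - W k)) + u F * d F * (U F - U k) = 0 := by
    rw [← m1]; linear_combination e1 - U k * e0
  have z3 : v X * d X * (W X - W k) + v Y * d Y * (W Y - W k) = 0 := by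
    linear_combination e3 - W k * f0
  have z4 : v X * d X * (W X - W k) * (W X - W k) + v Y * d Y * (W Y - W k) * (W Y - W k) = 3 := by
    linear_combination e4 - 2 * W k * e3 + W k * W k * f0
  have m3 : U R = U k - 2 * (W Y - W k) := by linear_combination m1
  have cS : ∀ {i j}, u i ≠ 0 → v j ≠ 0 → i ≠ k → c i ≠ 0 → c j ≠ 0 → c Θ ≠ 0 → Θ ≠ i → Θ ≠ j →
      1 + c i * d i + c j * d j + c Θ * d Θ = 0 := fun {i j} a1 a2 a3 a4 a5 a6 a7 a8 => by
    obtain ⟨l, -, -, -, -, b, S⟩ := norm4_fourth hc.n (ou a1).symm (ov a2).symm (dj a1 a2 a3) co' a4 a5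
    obtain rfl : Θ = l := by
      rcases b Θ a6 with e | e | e | e
      exacts [absurd e Θo, absurd e a7, absurd e a8, e]
    have := hc.h0
    rwa [S _ (fun l hl => by simp [hl]), co, ho, Int.cast_one, mul_one] at this
  have ΘF : Θ ≠ F := by rintro rfl; exact aΘ aF
  have ΘX : Θ ≠ X := by rintro rfl; exact aΘ aX
  have uu : ∀ {s : ℤ}, s = 1 ∨ s = -1 → s * s = 1 := by rintro _ (rfl | rfl) <;> rfl
  have tt := (unit4 ha.n ao Θo).resolve_left aΘ
  have tc := unit4 hc.n co Θo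
  rcases two_cases (unit4 hc.n co (ou uR)) (unit4 hc.n co (ou uF)) (u1 uR) (u1 uF) (Or.inr rfl) cu
    with ⟨c1, c2⟩ | ⟨c1, c2⟩ <;>
  rcases two_cases (unit4 hc.n co (ov vY)) (unit4 hc.n co (ov vX)) (v1 vY) (v1 vX) (Or.inl rfl) cv
    with ⟨c3, c4⟩ | ⟨c3, c4⟩ <;> rw [neg_one_mul] at c1 <;> rw [one_mul] at c3
  · have d4 := (oc (dj uR vY RT) (ou uR) (ov vY) (by omega) (by omega) co').1
    simp only [co, ho, s1 Y vY, s2 R uR] at d4
    push_cast at d4
    have : (U R - U o) * (U k - U o) = 0 := by linear_combination d4 * 2 / 3 - d1 / 3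
    rcases mul_eq_zero.mp this with e | e
    exacts [⟨R, ou uR, sub_eq_zero.mp e⟩, ⟨k, ok.symm, sub_eq_zero.mp e⟩]
  · rw [c1, c4, neg_mul, uu (u1 uR)] at ca
    have c5 : c Θ = a Θ := by rcases tt with e | e <;> rw [e] at ca ⊢ <;> omega
    have d4 := (oc (ov vX) (dj uR vX RT).symm (ou uR).symm (by omega) co' (by omega)).2
    have d5 := cS uR vX RT (by omega) (by omega) (by omega) ΘR ΘX
    simp only [c1, c3, c5, s1 X vX, s2 R uR, m3] at d4 d5
    push_cast at d4 d5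
    exact (k4 (nz uR) (nz vX) (nz vY) z0 z3 z4 m2 (by linear_combination d4)
      (by linear_combination d5 - g0)).elim
  · rw [c2, c3, uu (v1 vY)] at ca
    have c5 : c Θ = -a Θ := by rcases tt with e | e <;> rw [e] at ca ⊢ <;> omega
    have d4 := (oc (ov vY) (dj uF vY FT).symm (ou uF).symm (by omega) co' (by omega)).2
    have d5 := cS uF vY FT (by omega) (by omega) (by omega) ΘF ΘY
    simp only [c1, c3, c5, s1 Y vY, s2 F uF] at d4 d5
    push_cast at d4 d5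
    have := k3 (nz vX) (nz vY) (nz uF) hh z0 z1 z3 z4 m2 (by linear_combination d4)
      (by linear_combination d5 + g0)
    obtain ⟨n, -, e⟩ := hz X
    rw [e] at this
    have : 17 * (v X * n) = -1 := by exact_mod_cast this
    omega
  · have d4 := (oc (ov vX) (dj uF vX FT).symm (ou uF).symm (by omega) co' (by omega)).2
    have d5 := (oc (ou uF).symm (ov vX).symm (dj uF vX FT) co' (by omega) (by omega)).1
    simp only [c1, c3, s1 X vX, s2 F uF, m3] at d3 d4 d5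
    push_cast at d4 d5
    have := k2 (a := U o - U k) (w := W o - W k) (nz uR) (nz vX) (nz vY) (nz uF) z0 z1 z3 z4 m2
      (by linear_combination d3) (by linear_combination d4) (by linear_combination d5)
    exact ⟨R, ou uR, by linear_combination m1 - this⟩

end CfsgH7.N9c
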