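import Cfsg.Agent.H7.Loc23
import Cfsg.Agent.H3.N9Mod

/-! Special classes of `3³ : S₄`. -/

set_option autoImplicit false

namespace CfsgH7.N9c
open CfsgH8 CfsgH9 CfsgH3.N9 Cfsg CfsgL Subgroup
open scoped ComplexConjugate

def TC : ℕ := 164069528532484306374173045225633315729174029177953199106339846982620141597640803412122401809451824583551491347894336452710129658776625953894000872888235223498720515766766965424356474799942303110137931674236041234461960571784521600637547896741763033024638484345316872293222173086131594182930324895785662602798505321498617998236363184974115382868506958859586317293473835656875281836213928232127456561583506694496288653486275523657342504798635152070192962396908626401789969507778505978761550123949668641777118589865907454070884932718182656657721113684505139453018793692948377998004960960450281938785935927954103125489735043334934068000058483542588674625506489450288944351882898193070525827561916183700929748092803623713287688619890628847162848730021133190437220253787142872624574457115133116035968376852117581114743509341280924357328318753697632127017128020946201427623409046680652628055746338570222494546680905980034377519634867091002286859436433110547786237349132737907295264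
def TP : ℕ := 344111769973166880680293164904416596972719259067526147069516065771091332337830873612516048509112014590281710195454279666426038713092943034895592070064483688146282917149576714915848934708853772772895674422802587067149324917909386683591961918395690183404491153206268991839600516827642883221728196367171913928582174603936540153503214307548770573704219494490677958115356622633356167047316459663722092024162390629921398405282103833524787904851490115872137960163784676410230089931838795487835223808096848518583114406932263902055131811284519255471305745600061430515188437377133846155312864045033438811219627941220166538901825831557358529316459858794180822544239498143531974689939398918352823166915222400862124831702351392575879467934239853034244641534298245783706467776492698252023643514161356529769240676665081587565972187146174731278139877944934579194931784354287213240215150297502528414408566803115688114119673848126415881573725908494404500618112184118949432469550827424918274048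
def TQ : ℕ := 701105100633626320172922316825596246575997937774929847430191329867029387224045091795533507545347464247446705642624210280455404729959474174325067699391080402707929042015773437427444466640801697664671285528979485388815849978255450468695543140653752200386517671683599580074499862817890924529457418003792212441463419605509259047062597827732406326016034817110550454299010462994029854799391214322018049770101352127503417658591556294268368360916496981272074877713485179749853403792872856145346113616233257141044670472526329493623599084438229402527721811070312699937394195242679867505225059098210408617225141463886782088490254443868976174490847623971974475398194166455144493331690631262983540789139474412039928877198033579998944042261367098946354775315928427707748862913771283628091926191295625470413302584799547332033394914604265884337921892149159504596523218858832633046886613958280903358291498999609084248301440806096104708313159445251607957748685295135335356679102082302398177280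

def ix (m : M) : ℕ := Nat.add (Nat.mul 24 m.v.val) m.w.val
def cls (m : M) : Fin 14 := ⟨Nat.mod (lk TC (ix m)) 14, Nat.mod_lt _ (by decide)⟩
def cjg (m : M) : M := ⟨f27 (lk TP (ix m)), f24 (lk TQ (ix m))⟩
def rep : Fin 14 → M := ![⟨0, 0⟩, ⟨0, 1⟩, ⟨0, 7⟩, ⟨0, 12⟩, ⟨0, 4⟩, ⟨1, 0⟩, ⟨21, 0⟩, ⟨13, 0⟩, ⟨1, 1⟩,
  ⟨21, 7⟩, ⟨1, 12⟩, ⟨2, 12⟩, ⟨1, 4⟩, ⟨1, 5⟩]
def cen : Fin 14 → ℕ := ![648, 24, 12, 9, 12, 108, 54, 81, 12, 6, 9, 9, 12, 12]

theorem cls1 : ∀ m, cjg m * rep (cls m) * (cjg m)⁻¹ = m := by decide +kernel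
theorem cls2 : ∀ k m, cls (m * rep k * m⁻¹) = k := by decide +kernel
theorem cls_rep (k : Fin 14) : cls (rep k) = k := by simpa using cls2 k 1

theorem sp_rep {k : Fin 14} (h : ¬ k < 5) : 5 ≤ cls (rep k) := by rw [cls_rep]; omega

theorem sumM {R : Type} [AddCommMonoid R] (g : M → R) :
    ∑ m, g m = ∑ v : Fin 27, ∑ w : Fin 24, g ⟨v, w⟩ := by
  rw [← Fintype.sum_prod_type']
  exact Fintype.sum_equiv ⟨fun m => (m.v, m.w), fun p => ⟨p.1, p.2⟩, fun _ => rfl, fun _ => rfl⟩ _ _
    fun _ => rfl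

theorem cardM (P : M → Prop) [DecidablePred P] :
    Nat.card {m // P m} = ∑ v : Fin 27, ∑ w : Fin 24, if P ⟨v, w⟩ then 1 else 0 := by
  rw [Nat.card_eq_fintype_card, Fintype.card_subtype, Finset.card_filter, sumM]

theorem cen_spec : ∀ k, (∑ v : Fin 27, ∑ w : Fin 24,
    if (⟨v, w⟩ : M) * rep k = rep k * ⟨v, w⟩ then 1 else 0) = cen k := by decide +kernel

abbrev Z4 := ℤ × ℤ × ℤ × ℤ

noncomputable def s3 : ℂ := (Real.sqrt 3 : ℝ)
theorem s3_sq : s3 * s3 = 3 := by
  rw [s3, ← Complex.ofReal_mul, Real.mul_self_sqrt (by norm_num)]; norm_num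

noncomputable def zc : Z4 →+ ℂ := AddMonoidHom.mk'
  (fun x => x.1 + x.2.1 * s3 + (x.2.2.1 + x.2.2.2 * s3) * Complex.I) fun x y => by simp; ring

def mz (x y : Z4) : Z4 :=
  (x.1 * y.1 + 3 * x.2.1 * y.2.1 - x.2.2.1 * y.2.2.1 - 3 * x.2.2.2 * y.2.2.2,
   x.1 * y.2.1 + x.2.1 * y.1 - x.2.2.1 * y.2.2.2 - x.2.2.2 * y.2.2.1,
   x.1 * y.2.2.1 + x.2.2.1 * y.1 + 3 * x.2.1 * y.2.2.2 + 3 * x.2.2.2 * y.2.1,
   x.1 * y.2.2.2 + x.2.2.2 * y.1 + x.2.1 * y.2.2.1 + x.2.2.1 * y.2.1)
def cz (x : Z4) : Z4 := (x.1, x.2.1, -x.2.2.1, -x.2.2.2)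

theorem zc_mz (x y : Z4) : zc (mz x y) = zc x * zc y := by
  simp only [zc, mz, AddMonoidHom.mk'_apply]
  push_cast
  have := s3_sq
  have := Complex.I_mul_I
  grind

theorem zc_cz (x : Z4) : zc (cz x) = conj (zc x) := by
  simp [zc, cz, s3]; ring

theorem zc_int (n : ℤ) : zc (n, 0, 0, 0) = n := by simp [zc]

def zt : Fin 12 → Z4 := ![(2, 0, 0, 0), (0, 1, 1, 0), (1, 0, 0, 1), (0, 0, 2, 0), (-1, 0, 0, 1),
  (0, -1, 1, 0), (-2, 0, 0, 0), (0, -1, -1, 0), (-1, 0, 0, -1), (0, 0, -2, 0), (1, 0, 0, -1),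
  (0, 1, -1, 0)]

theorem zt_add (a b : Fin 12) : zc (zt (a + b)) / 2 = zc (zt a) / 2 * (zc (zt b) / 2) := by
  have := congrArg zc ((by decide +kernel : ∀ a b, mz (zt a) (zt b) = 2 • zt (a + b)) a b)
  rw [zc_mz, map_nsmul, nsmul_eq_mul] at this
  push_cast at this
  linear_combination -this / 4

variable {G : Type*} [Group G] [Fintype G] {f : M →* G}

def Row (f : M →* G) (τ : Fin 14 → Z4) (c : IrrCharacter G → ℤ) : Prop :=
  ∀ χ : IrrCharacter G, 1296 * (c χ : ℂ) = ∑ k, zc (τ k) * (χ : G → ℂ) (f (rep k))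

theorem Row.sub {τ τ' : Fin 14 → Z4} {c c' : IrrCharacter G → ℤ} (h : Row f τ c) (h' : Row f τ' c') :
    Row f (τ - τ') (c - c') := fun χ => by
  simp only [Pi.sub_apply, map_sub, sub_mul, Finset.sum_sub_distrib, ← h χ, ← h' χ]
  push_cast; ring

def Lin (P : Fin 24 → Prop) (e : M → Fin 12) : Prop := P 0 ∧ e 1 = 0 ∧ ∀ w, P w → P (wi w) ∧
  ∀ w', P w' → P (wm w w') ∧ ∀ v v', e (⟨v, w⟩ * ⟨v', w'⟩) = e ⟨v, w⟩ + e ⟨v', w'⟩
instance (P : Fin 24 → Prop) [DecidablePred P] (e : M → Fin 12) : Decidable (Lin P e) := by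
  unfold Lin; infer_instance

theorem exists_lin (f : M →* G) (P : Fin 24 → Prop) [DecidablePred P] (e : M → Fin 12) (h1 : Lin P e)
    (χ : IrrCharacter G) : ∃ n : ℤ, ∑ m : M, zc (if P m.w then zt (e m) else 0) * (χ : G → ℂ) (f m) =
      2 * Nat.card {m : M // P m.w} * n := by
  let K : Subgroup M := ⟨⟨⟨{m | P m.w}, fun a b => ((h1.2.2 _ a).2 _ b).1⟩, h1.1⟩,
    fun a => (h1.2.2 _ a).1⟩
  let l : K →* ℂ :=
    { toFun := fun m => conj (zc (zt (e m)) / 2)
      map_one' := by simp [h1.2.1, show zt 0 = (2, 0, 0, 0) from rfl, zc_int]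
      map_mul' := fun m n => by rw [← map_mul, ← zt_add, coe_mul, ((h1.2.2 _ m.2).2 _ n.2).2 m.1.v n.1.v] }
  let _ := Fintype.ofFinite K
  obtain ⟨n, hn⟩ := gen_inner_int (gen_comp (f.comp K.subtype) (gen_of_irr χ.2))
    (gen_of_irr (irr_of_hom l))
  refine ⟨n, ?_⟩
  rw [← hn, mul_assoc, show Nat.card {m : M // P m.w} = Nat.card K from rfl, ← sum_mul_conj_eq,
    Finset.mul_sum, ← Finset.sum_subset (Finset.filter_subset (fun m : M => P m.w) _) fun m _ hm => by
      simp [show ¬ P m.w by simpa using hm], Finset.sum_subtype (p := (· ∈ K)) _ (fun _ => by simp; rfl)]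
  refine Finset.sum_congr rfl fun m _ => ?_
  rw [if_pos (show P m.1.w from m.2)]
  simp [l]; ring

theorem exists_row' (f : M →* G) (P : Fin 24 → Prop) [DecidablePred P] (e e' : M → Fin 12)
    (h1 : Lin P e) (h2 : Lin P e') (r : ℕ) (τ : Fin 14 → Z4)
    (h3 : (∑ _v : Fin 27, ∑ w : Fin 24, if P w then 1 else 0) * r = 648 ∧ ∀ k,
      r • (∑ w : Fin 24, if P w then ∑ v : Fin 27, if cls ⟨v, w⟩ = k then
        zt (e ⟨v, w⟩) - zt (e' ⟨v, w⟩) else 0 else 0) = τ k) : ∃ c, Row f τ c := by
  choose c hc using exists_lin f P e h1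
  choose c' hc' using exists_lin f P e' h2
  refine ⟨c - c', fun χ => ?_⟩
  have h4 : (Nat.card {m : M // P m.w} : ℂ) * r = 648 := by
    rw [cardM]; exact_mod_cast h3.1
  have h5 : ∀ m, (χ : G → ℂ) (f m) = (χ : G → ℂ) (f (rep (cls m))) := fun m => by
    conv_lhs => rw [← cls1 m, map_mul, map_mul, map_inv, Irr_class χ]
  have h6 : ∑ k, zc (τ k) * (χ : G → ℂ) (f (rep k)) = r * ∑ m : M,
      (zc (if P m.w then zt (e m) else 0) - zc (if P m.w then zt (e' m) else 0)) * (χ : G → ℂ) (f m) := by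
    have h7 : ∀ k, zc (τ k) = r * ∑ m : M,
        zc (if P m.w then if cls m = k then zt (e m) - zt (e' m) else 0 else 0) := fun k => by
      rw [← h3.2, map_nsmul, nsmul_eq_mul, ← map_sum, sumM, Finset.sum_comm (t := Finset.univ)]
      congr 3
      funext w
      split_ifs <;> simp
    simp only [h7, mul_assoc, ← Finset.mul_sum, Finset.sum_mul]
    rw [Finset.sum_comm]
    refine congrArg _ (Finset.sum_congr rfl fun m _ => ?_)
    rw [Finset.sum_eq_single (cls m) (fun k _ hk => by simp [hk.symm]) (by simp), h5 m]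
    by_cases hm : P m.w <;> simp [hm]
  simp only [h6, sub_mul, Finset.sum_sub_distrib, hc, hc', Pi.sub_apply]
  push_cast
  linear_combination (2 * (c' χ - c χ)) * h4

variable {τ τ' : Fin 14 → Z4} {c c' : IrrCharacter G → ℤ}

theorem Row.sum_class (h : Row f τ c) {ψ : G → ℂ} (hψ : IsClassFunction G ψ) :
    1296 * ∑ χ : IrrCharacter G, c χ * classInner ψ χ = ∑ k, zc (τ k) * ψ (f (rep k)) := by
  simp only [class_apply_eq_sum hψ, Finset.mul_sum]
  rw [Finset.sum_comm]
  refine Finset.sum_congr rfl fun χ _ => ?_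
  rw [← mul_assoc, h χ, Finset.sum_mul]
  exact Finset.sum_congr rfl fun m _ => by ring

theorem Row.one (h : Row f τ c) {n : ℤ} (hn : ∑ k, τ k = (1296 * n, 0, 0, 0)) : c (irrOne G) = n := by
  have h1 := h (irrOne G)
  simp only [irrOne, mul_one] at h1
  rw [← map_sum, hn, zc_int] at h1
  push_cast at h1
  exact_mod_cast mul_left_cancel₀ (by norm_num) h1

def Sp (τ : Fin 14 → Z4) : Prop := ∀ k, k < 5 → τ k = 0
instance (τ : Fin 14 → Z4) : Decidable (Sp τ) := by unfold Sp; infer_instance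

structure Hy (f : M →* G) : Prop where
  inj : Function.Injective f
  ti : IsTIModel f fun m => 5 ≤ cls m
  nc : ¬ IsConj (f (rep 1)) (f (rep 2))

theorem Row.inner (h : Row f τ c) (h' : Row f τ' c') (hf : Hy f) {n : ℤ} (hn : Sp τ ∧ Sp τ' ∧
    ∑ k, cen k • mz (τ k) (cz (τ' k)) = (1296 * 1296 * n, 0, 0, 0)) : ∑ χ, c χ * c' χ = n := by
  classical
  have h1 : ∀ k l, zc (τ k) * conj (zc (τ' l)) * ∑ χ : IrrCharacter G, (χ : G → ℂ) (f (rep k)) *
      conj ((χ : G → ℂ) (f (rep l))) = if l = k then zc (cen k • mz (τ k) (cz (τ' k))) else 0 := by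
    intro k l
    by_cases a : k < 5
    · rw [map_nsmul, zc_mz]; simp [hn.1 k a]
    by_cases b : l < 5
    · split_ifs with e
      · exact absurd (e ▸ b) a
      · simp [hn.2.1 l b]
    have t := hf.ti (rep l) (rep k) (sp_rep b) (sp_rep a)
    rw [second_orth]
    split_ifs with e1 e2 e2
    · subst e2
      rw [map_nsmul, zc_mz, zc_cz, nsmul_eq_mul, mul_comm, ← cen_spec,
        ← cardM fun m => m * rep l = rep l * m]
      congr 2
      refine (Nat.card_congr (Equiv.ofBijective (fun m => ⟨f m.1, mem_centralizer_singleton_iff.mpr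
        (by rw [← map_mul, m.2, map_mul])⟩) ⟨fun x y e => Subtype.ext (hf.inj (congrArg Subtype.val e)),
          fun g => ?_⟩)).symm
      have e := mem_centralizer_singleton_iff.mp g.2
      obtain ⟨m, e'⟩ := t g (by rw [e]; simp)
      exact ⟨⟨m, hf.inj (by rwa [map_mul, map_mul, e'])⟩, Subtype.ext e'⟩
    · obtain ⟨g, e⟩ := isConj_iff.mp e1
      obtain ⟨m, rfl⟩ := t g e
      rw [← map_inv, ← map_mul, ← map_mul] at e
      exact absurd ((cls2 l m).symm.trans ((congrArg cls (hf.inj e)).trans (cls_rep k))) e2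
    · exact absurd (e2 ▸ IsConj.refl _) e1
    · simp
  have h2 : ∀ χ, 1296 * 1296 * ((c χ : ℂ) * c' χ) = ∑ k, ∑ l, zc (τ k) * conj (zc (τ' l)) *
      ((χ : G → ℂ) (f (rep k)) * conj ((χ : G → ℂ) (f (rep l)))) := fun χ => by
    have := congrArg conj (h' χ)
    simp only [map_mul, map_sum, map_intCast, map_ofNat] at this
    rw [mul_mul_mul_comm, h χ, this, Finset.sum_mul_sum]
    exact Finset.sum_congr rfl fun _ _ => Finset.sum_congr rfl fun _ _ => by ring
  have h3 := Finset.sum_congr rfl fun χ (_ : χ ∈ Finset.univ) => h2 χ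
  rw [← Finset.mul_sum, Finset.sum_comm] at h3
  simp only [Finset.sum_comm (s := (Finset.univ : Finset (IrrCharacter G))), ← Finset.mul_sum, h1,
    Finset.sum_ite_eq', Finset.mem_univ, if_true, ← map_sum, hn.2.2, zc_int] at h3
  rw [Int.cast_mul, Int.cast_mul, Int.cast_ofNat] at h3
  exact_mod_cast mul_left_cancel₀ (by norm_num) h3

theorem Hy.conj_iff (hf : Hy f) {i : Fin 14} (hi : i = 1 ∨ i = 2) (m : M) :
    IsConj (f (rep i)) (f m) ↔ cls m = i := by
  have h1 : IsConj (f (rep (cls m))) (f m) :=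
    isConj_iff.mpr ⟨f (cjg m), by rw [← map_inv, ← map_mul, ← map_mul, cls1]⟩
  refine ⟨fun e => ?_, fun e => e ▸ h1⟩
  have h2 := (by decide +kernel : ∀ i, i = 1 ∨ i = 2 → rep i * rep i = 1 ∧ rep i ≠ 1) i hi
  obtain ⟨g, e1⟩ := isConj_iff.mp e
  have h3 := (by decide +kernel : ∀ m : M, m * m = 1 → m = 1 ∨ cls m = 1 ∨ cls m = 2) m
    (hf.inj (by rw [map_mul, ← e1, conj_mul, ← map_mul, h2.1]; simp))
  rcases h3 with rfl | h3
  · exact absurd (hf.inj (by simpa using e1)) h2.2
  by_contra hn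
  have h4 := e.trans h1.symm
  rcases hi with rfl | rfl <;> rcases h3 with h3 | h3 <;> rw [h3] at h4 hn
  exacts [hn rfl, hf.nc h4, hf.nc h4.symm, hn rfl]

def NN (i j k : Fin 14) : ℕ := ∑ v : Fin 27, ∑ w : Fin 24,
  if cls ⟨v, w⟩ = i ∧ cls ((⟨v, w⟩ : M)⁻¹ * rep k) = j then 1 else 0

theorem isConj_cl {s : G} : IsClassFunction G (ind (IsConj s)) :=
  ind_class fun _ x h => h.trans (isConj_iff.mpr ⟨x, rfl⟩)

theorem Row.first (h : Row f τ c) (hf : Hy f) (hs : Sp τ) {i : Fin 14} (hi : i = 1 ∨ i = 2) :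
    ∑ χ : IrrCharacter G, (c χ : ℂ) * (χ : G → ℂ) 1 * cv (ind (IsConj (f (rep i)))) χ = 0 := by
  have h2 := h.sum_class (isConj_cl (s := f (rep i)))
  rw [Finset.sum_eq_zero (s := Finset.univ) (f := fun k => zc (τ k) * _), mul_eq_zero] at h2
  · rw [← mul_zero (Real.sqrt (Nat.card G) : ℂ), ← h2.resolve_left (by norm_num), Finset.mul_sum]
    refine Finset.sum_congr rfl fun χ _ => ?_
    have := irr_one_ne_zero χ.2
    unfold cv
    field_simp
  · intro k _
    by_cases a : k < 5
    · simp [hs k a]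
    · rw [ind_of_not, mul_zero]
      rw [hf.conj_iff hi, cls_rep]
      omega

theorem Row.second (h : Row f τ c) (hf : Hy f) {i j : Fin 14} (hi : i = 1 ∨ i = 2)
    (hj : j = 1 ∨ j = 2) (hs : Sp τ) {N : Fin 14 → ℕ} (hN : ∀ k, NN i j k = N k) {T : ℤ}
    (hT : ∑ k, N k • τ k = (T, 0, 0, 0)) :
    ∑ χ : IrrCharacter G, (c χ : ℂ) * (χ : G → ℂ) 1 * cv (ind (IsConj (f (rep i)))) χ *
      cv (ind (IsConj (f (rep j)))) χ = T / 1296 := by
  classical
  have sq : ∀ {i}, i = 1 ∨ i = 2 → ∀ {x}, IsConj (f (rep i)) x → x * x = 1 := fun {i} hi x e => by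
    obtain ⟨g, rfl⟩ := isConj_iff.mp e
    rw [conj_mul, ← map_mul, (by decide +kernel : ∀ i, i = 1 ∨ i = 2 → rep i * rep i = 1) i hi]; simp
  rw [eq_div_iff (by norm_num), mul_comm, ← zc_int, ← hT, map_sum]
  refine Eq.trans ?_ ((h.sum_class (conv_class (isConj_cl (s := f (rep i)))
    (isConj_cl (s := f (rep j))))).trans (Finset.sum_congr rfl fun k _ => ?_))
  · congr 1
    refine Finset.sum_congr rfl fun χ _ => ?_
    have := irr_one_ne_zero χ.2
    have h2 : (Real.sqrt (Nat.card G) : ℂ) * (Real.sqrt (Nat.card G) : ℂ) = Nat.card G := by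
      rw [← Complex.ofReal_mul, Real.mul_self_sqrt (Nat.cast_nonneg _)]
      simp
    rw [inner_conv _ isConj_cl χ.2, ← h2]
    unfold cv
    field_simp
  by_cases a : k < 5
  · simp [hs k a]
  rw [map_nsmul, nsmul_eq_mul, mul_comm, ← hN, NN,
    ← sumM fun m => if cls m = i ∧ cls (m⁻¹ * rep k) = j then 1 else 0]
  congr 1
  push_cast
  unfold conv
  symm
  apply Finset.sum_of_injOn f hf.inj.injOn (by simp)
  · intro x _ hx
    by_contra hne
    obtain ⟨y, rfl⟩ := hf.ti.mem_of_invol (by decide +kernel : ∀ m, 5 ≤ cls m → 5 ≤ cls m⁻¹)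
      (sq hi (of_ind_ne_zero (left_ne_zero_of_mul hne))) (sq hj (of_ind_ne_zero
        (right_ne_zero_of_mul hne))) (m := rep k) (sp_rep a) (mul_inv_cancel_left _ _)
    exact hx ⟨y, by simp, rfl⟩
  · intro x _
    rw [← map_inv, ← map_mul, ind_eq_int (hf.conj_iff hi _), ind_eq_int (hf.conj_iff hj _)]
    by_cases e : cls x = i <;> simp [e]

theorem NN11 : ∀ k, NN 1 1 k = ![27, 6, 0, 0, 0, 18, 9, 0, 6, 0, 0, 0, 0, 0] k := by decide +kernel
theorem NN12 : ∀ k, NN 1 2 k = ![0, 0, 3, 0, 6, 0, 0, 0, 0, 3, 0, 0, 6, 6] k := by decide +kernel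
theorem NN22 : ∀ k, NN 2 2 k = ![54, 6, 0, 9, 0, 18, 9, 27, 6, 0, 9, 9, 0, 0] k := by decide +kernel

theorem Row.rw (h : Row f τ c) (hf : Hy f) {n A B C : ℤ} (hn : (Sp τ ∧ Sp τ ∧
    ∑ k, cen k • mz (τ k) (cz (τ k)) = (1296 * 1296 * n, 0, 0, 0)) ∧
    ∑ k, ![27, 6, 0, 0, 0, 18, 9, 0, 6, 0, 0, 0, 0, 0] k • τ k = (A, 0, 0, 0) ∧
    ∑ k, ![0, 0, 3, 0, 6, 0, 0, 0, 0, 3, 0, 0, 6, 6] k • τ k = (B, 0, 0, 0) ∧
    ∑ k, ![54, 6, 0, 9, 0, 18, 9, 27, 6, 0, 9, 9, 0, 0] k • τ k = (C, 0, 0, 0)) {a b d : ℂ}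
    (e : A / 1296 = a ∧ B / 1296 = b ∧ C / 1296 = d) :
    RW (fun χ : IrrCharacter G => (χ : G → ℂ) 1) (cv (ind (IsConj (f (rep 1)))))
      (cv (ind (IsConj (f (rep 2))))) c n a b d := by
  refine ⟨h.inner h hf hn.1, ?_, h.first hf hn.1.1 (Or.inl rfl), h.first hf hn.1.1 (Or.inr rfl),
    e.1 ▸ h.second hf (Or.inl rfl) (Or.inl rfl) hn.1.1 NN11 hn.2.1,
    e.2.1 ▸ h.second hf (Or.inl rfl) (Or.inr rfl) hn.1.1 NN12 hn.2.2.1,
    e.2.2 ▸ h.second hf (Or.inr rfl) (Or.inr rfl) hn.1.1 NN22 hn.2.2.2⟩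
  have h2 := h.sum_class (char_isClass (char_reg (G := G)))
  simp only [inner_reg_left, char_conj_one (irr_isChar (Subtype.prop _))] at h2
  rw [Finset.sum_eq_zero (s := Finset.univ) (f := fun k => zc (τ k) * _), mul_eq_zero] at h2
  · exact h2.resolve_left (by norm_num)
  · intro k _
    by_cases a : k < 5
    · simp [hn.1.1 k a]
    · simp [regChar, map_eq_one_iff f hf.inj, (by decide +kernel : ∀ k, ¬ k < 5 → rep k ≠ 1) k a]

def P1 (w : Fin 24) : Prop := w = 0 ∨ w = 1 ∨ w = 4 ∨ w = 5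
def P2 (w : Fin 24) : Prop := w = 0 ∨ w = 12 ∨ w = 16
def P3 (w : Fin 24) : Prop := w = 0 ∨ w = 7
instance : DecidablePred P1 := fun _ => inferInstanceAs (Decidable (_ ∨ _))
instance : DecidablePred P2 := fun _ => inferInstanceAs (Decidable (_ ∨ _))
instance : DecidablePred P3 := fun _ => inferInstanceAs (Decidable (_ ∨ _))
def ex (a b c d : ℕ) (m : M) : Fin 12 := Fin.ofNat 12 (a * (m.v.val % 3) + b * (m.v.val / 3 % 3) +
  c * (m.v.val / 9) + d * (if m.w = 4 then 3 else if m.w = 1 then 6 else if m.w = 5 then 9 else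
    if m.w = 12 then 4 else if m.w = 16 then 8 else 0))
def tz (l : Fin 9 → ℤ) (e : ℤ) : Fin 14 → Z4 := ![0, 0, 0, 0, 0, (l 0, 0, 0, 0), (l 1, 0, 0, 0),
  (l 2, 0, 0, 0), (l 3, 0, 0, 0), (l 4, 0, 0, 0), (l 5, 0, 0, 0), (l 6, 0, 0, 0), (l 7, e, 0, 0),
  (l 8, -e, 0, 0)]

def τv := tz ![36, 144, 144, -324, 0, 0, 0, 0, 0] 108
def τv' := tz ![36, 144, 144, -324, 0, 0, 0, 0, 0] (-108)
def τa := tz ![36, 144, 144, 324, 0, 0, 0, 324, 324] 0
def τw := tz ![144, 144, 144, 0, 0, 0, -432, 0, 0] 0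
def τc := tz ![144, 360, 144, 0, 648, 0, 0, 0, 0] 0

theorem rv (f : M →* G) : ∃ c, Row f τv c := exists_row' f P1 (ex 0 0 0 1) (ex 4 0 0 1)
  (by decide +kernel) (by decide +kernel) 6 _ (by decide +kernel)
theorem rv' (f : M →* G) : ∃ c, Row f τv' c := exists_row' f P1 (ex 0 0 0 1) (ex 8 0 0 1)
  (by decide +kernel) (by decide +kernel) 6 _ (by decide +kernel)
theorem ra (f : M →* G) : ∃ c, Row f τa c := exists_row' f P1 (ex 0 0 0 0) (ex 4 0 0 0)
  (by decide +kernel) (by decide +kernel) 6 _ (by decide +kernel)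
theorem rw' (f : M →* G) : ∃ c, Row f τw c := exists_row' f P2 (ex 0 0 0 1) (ex 4 4 4 1)
  (by decide +kernel) (by decide +kernel) 8 _ (by decide +kernel)
theorem rc (f : M →* G) : ∃ c, Row f τc c := exists_row' f P3 (ex 0 0 0 0) (ex 0 4 8 0)
  (by decide +kernel) (by decide +kernel) 12 _ (by decide +kernel)

theorem Hy.main (hf : Hy f) : ∃ K : Subgroup G, K.Normal ∧ K ≠ ⊤ ∧ f (rep 1) ∈ K := by
  obtain ⟨v, hv⟩ := rv f
  obtain ⟨v', hv'⟩ := rv' f
  obtain ⟨a, ha⟩ := ra f
  obtain ⟨w, hw⟩ := rw' f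
  obtain ⟨c, hc⟩ := rc f
  have hu := hw.sub hv
  have hq := hv'.sub hv
  have hc := hc.sub hw
  obtain ⟨χ, h1, h2⟩ := alg9 (o := irrOne G) (fun χ => irr_deg_pos χ.2) rfl
    (hv.rw hf (A := 0) (B := 0) (C := 3888) (by decide +kernel) (by norm_num))
    (hu.rw hf (A := 3888) (B := 0) (C := 0) (by decide +kernel) (by norm_num))
    (hq.rw hf (A := 0) (B := 0) (C := 0) (by decide +kernel) (by norm_num))
    (ha.rw hf (A := 3888) (B := 3888) (C := 7776) (by decide +kernel) (by norm_num))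
    (hc.rw hf (A := 1944) (B := 1944) (C := 5832) (by decide +kernel) (by norm_num))
    (hu.inner hv hf (by decide +kernel)) (hq.inner hu hf (by decide +kernel))
    (hq.inner hv hf (by decide +kernel)) (ha.inner hu hf (by decide +kernel))
    (ha.inner hv hf (by decide +kernel)) (ha.inner hq hf (by decide +kernel))
    (hc.inner hu hf (by decide +kernel)) (hc.inner hv hf (by decide +kernel))
    (hc.inner hq hf (by decide +kernel)) (hc.inner ha hf (by decide +kernel))
    (hv.one (by decide +kernel)) (hu.one (by decide +kernel)) (hq.one (by decide +kernel))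
    (ha.one (by decide +kernel)) (hc.one (by decide +kernel))
  exact ⟨charKer (χ : G → ℂ), charKer_normal (char_isClass (irr_isChar χ.2)), charKer_ne_top h1,
    mem_charKer_of_cv h2⟩

end CfsgH7.N9c
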