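import Mathlib

/-! Matrices over a ring of characteristic three given by tables of natural numbers. -/

set_option autoImplicit false

namespace CfsgH7.NM3

open Matrix
open scoped Kronecker

/-- Tables of natural numbers. -/
abbrev NM := ℕ → ℕ → ℕ

/-- Decoding of a table stored in the base-four digits of a number. -/
def cd (N w : ℕ) : NM := fun i j =>
  Nat.mod (Nat.shiftRight N (Nat.mul 2 (Nat.add (Nat.mul w i) j))) 4

/-- Sum over an initial segment. -/
noncomputable def sumN (n : ℕ) (f : ℕ → ℕ) : ℕ := Nat.rec 0 (fun k acc => Nat.add acc (f k)) n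

/-- Conjunction over an initial segment. -/
noncomputable def allN (n : ℕ) (f : ℕ → Bool) : Bool :=
  Nat.rec true (fun k acc => Bool.rec false acc (f k)) n

/-- Product of tables. -/
noncomputable def mulN (n : ℕ) (A B : NM) : NM := fun i j =>
  sumN n fun k => Bool.rec (Nat.mul (A i k) (B k j)) 0 (Nat.beq (B k j) 0)

/-- Sum of tables. -/
def addN (A B : NM) : NM := fun i j => Nat.add (A i j) (B i j)

/-- Kronecker product of tables. -/
def kronN (A B : NM) : NM := fun i j =>
  Nat.mul (A (Nat.div i 7) (Nat.div j 7)) (B (Nat.mod i 7) (Nat.mod j 7))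

/-- Identity table. -/
noncomputable def oneN : NM := fun i j => Bool.rec 0 1 (Nat.beq i j)

/-- Zero table. -/
def zeroN : NM := fun _ _ => 0

/-- Transposed table. -/
def trN (A : NM) : NM := fun i j => A j i

/-- Congruence of tables modulo three. -/
noncomputable def eqN (m n : ℕ) (A B : NM) : Bool :=
  allN m fun i => allN n fun j => Nat.beq (Nat.mod (A i j) 3) (Nat.mod (B i j) 3)

theorem sumN_eq (n : ℕ) (f : ℕ → ℕ) : sumN n f = ∑ k ∈ Finset.range n, f k := by
  induction n with
  | zero => rfl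
  | succ n ih => rw [Finset.sum_range_succ, ← ih]; rfl

theorem of_allN {n : ℕ} {f : ℕ → Bool} (h : allN n f = true) : ∀ k < n, f k = true := by
  induction n with
  | zero => intro k hk; omega
  | succ n ih =>
    have h1 : (Bool.rec false (allN n f) (f n) : Bool) = true := h
    cases h2 : f n with
    | false => rw [h2] at h1; exact absurd h1 (by simp)
    | true =>
      rw [h2] at h1
      intro k hk
      rcases Nat.lt_succ_iff_lt_or_eq.1 hk with h3 | rfl
      · exact ih h1 k h3
      · exact h2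

/-- An enumeration of a finite type by an initial segment. -/
class Enc (ι : Type) where
  /-- size -/
  n : ℕ
  /-- the code -/
  e : ι → ℕ
  lt : ∀ i, e i < n
  inj : Function.Injective e
  surj : ∀ k < n, ∃ i, e i = k

instance instEncFin7 : Enc (Fin 7) :=
  ⟨7, Fin.val, fun i => i.2, Fin.val_injective, fun k hk => ⟨⟨k, hk⟩, rfl⟩⟩

instance instEncSum : Enc (Fin 2 ⊕ Fin 12) :=
  ⟨14, Sum.elim (fun i => i.val) (fun i => i.val + 2), by decide, by decide, by decide⟩

instance instEncProd : Enc (Fin 7 × Fin 7) :=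
  ⟨49, fun i => 7 * i.1.val + i.2.val, by decide,
    fun i j h => Prod.ext (Fin.ext (by have := i.2.2; have := j.2.2; simp only at h; omega))
      (Fin.ext (by have := i.2.2; have := j.2.2; simp only at h; omega)),
    fun k hk => ⟨(⟨k / 7, by omega⟩, ⟨k % 7, by omega⟩), by simp only; omega⟩⟩

theorem Enc.sum_eq {ι : Type} [Fintype ι] [Enc ι] {M : Type*} [AddCommMonoid M] (f : ℕ → M) :
    ∑ i : ι, f (Enc.e i) = ∑ k ∈ Finset.range (Enc.n ι), f k := by
  apply Finset.sum_bij (fun i _ => Enc.e i)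
  · intro i _; exact Finset.mem_range.2 (Enc.lt i)
  · intro i _ j _ h; exact Enc.inj h
  · intro k hk
    obtain ⟨i, hi⟩ := Enc.surj (ι := ι) k (Finset.mem_range.1 hk)
    exact ⟨i, Finset.mem_univ _, hi⟩
  · intro i _; rfl

/-- The matrix of a table. -/
def cm (K : Type*) [CommRing K] (ι κ : Type) [Enc ι] [Enc κ] (A : NM) : Matrix ι κ K :=
  Matrix.of fun i j => (A (Enc.e i) (Enc.e j) : K)

variable {K : Type*} [CommRing K] {ι κ μ : Type} [Enc ι] [Enc κ] [Enc μ]

theorem cm_apply (A : NM) (i : ι) (j : κ) : cm K ι κ A i j = (A (Enc.e i) (Enc.e j) : K) := rfl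

theorem cm_mul [Fintype κ] (A B : NM) :
    cm K ι κ A * cm K κ μ B = cm K ι μ (mulN (Enc.n κ) A B) := by
  ext i j
  rw [Matrix.mul_apply, cm_apply, mulN, sumN_eq, ← Enc.sum_eq, Nat.cast_sum]
  refine Finset.sum_congr rfl fun k _ => ?_
  rw [cm_apply, cm_apply]
  cases h : Nat.beq (B (Enc.e k) (Enc.e j)) 0 with
  | false => exact (Nat.cast_mul _ _).symm
  | true => rw [Nat.eq_of_beq_eq_true h]; simp

theorem cm_add (A B : NM) : cm K ι κ A + cm K ι κ B = cm K ι κ (addN A B) := by
  ext i j
  exact (Nat.cast_add _ _).symm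

theorem cm_zero : (0 : Matrix ι κ K) = cm K ι κ zeroN := by
  ext i j
  exact Nat.cast_zero.symm

theorem cm_one [DecidableEq ι] : (1 : Matrix ι ι K) = cm K ι ι oneN := by
  ext i j
  rw [cm_apply, oneN, Matrix.one_apply]
  split_ifs with h
  · rw [h, Nat.beq_refl]; simp
  · have : Nat.beq (Enc.e i) (Enc.e j) = false := by
      cases h2 : Nat.beq (Enc.e i) (Enc.e j) with
      | false => rfl
      | true => exact absurd (Enc.inj (Nat.eq_of_beq_eq_true h2)) h
    rw [this]; simp

theorem cm_transpose (A : NM) : (cm K ι κ A)ᵀ = cm K κ ι (trN A) := rfl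

theorem cm_kron (A B : NM) : cm K (Fin 7) (Fin 7) A ⊗ₖ cm K (Fin 7) (Fin 7) B =
    cm K (Fin 7 × Fin 7) (Fin 7 × Fin 7) (kronN A B) := by
  ext ⟨i, j⟩ ⟨k, l⟩
  have h1 : ∀ a b : Fin 7, Nat.div (7 * a.val + b.val) 7 = a.val := fun a b => by
    have := b.2
    change (7 * a.val + b.val) / 7 = _
    omega
  have h2 : ∀ a b : Fin 7, Nat.mod (7 * a.val + b.val) 7 = b.val := fun a b => by
    have := b.2
    change (7 * a.val + b.val) % 7 = _
    omega
  change _ = ((Nat.mul (A (Nat.div (7 * i.val + j.val) 7) (Nat.div (7 * k.val + l.val) 7))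
    (B (Nat.mod (7 * i.val + j.val) 7) (Nat.mod (7 * k.val + l.val) 7)) : ℕ) : K)
  rw [h1, h1, h2, h2]
  exact (Nat.cast_mul _ _).symm

theorem cm_eq [CharP K 3] {A B : NM} (h : eqN (Enc.n ι) (Enc.n κ) A B = true) :
    cm K ι κ A = cm K ι κ B := by
  ext i j
  have h1 := Nat.eq_of_beq_eq_true (of_allN (of_allN h _ (Enc.lt i)) _ (Enc.lt j))
  exact (CharP.cast_eq_mod K 3 _).trans ((congrArg _ h1).trans (CharP.cast_eq_mod K 3 _).symm)

theorem cm_map {L : Type*} [CommRing L] (φ : K →+* L) (A : NM) :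
    (cm K ι κ A).map φ = cm L ι κ A := by
  ext i j
  exact map_natCast φ _

end CfsgH7.NM3
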