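import Cfsg.Agent.H7.PSU33

set_option autoImplicit false
set_option linter.style.haveILetI false
set_option linter.unusedVariables false
set_option maxRecDepth 100000

namespace CfsgH7

open Matrix
open scoped MatrixGroups

theorem su34_comm {C : Type*} [CommRing C] (x t : C) (h2 : (2 : C) = 0)
    (ht : t = 0 ∨ t + 1 = 0 ∨ t ^ 2 + t + 1 = 0 ∨ t ^ 4 + t + 1 = 0 ∨ t ^ 4 + t ^ 3 + 1 = 0 ∨ t ^ 4 + t ^ 3 + t ^ 2 + t + 1 = 0)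
    (h : x ^ 3 = t * x ^ 2 - t ^ 4 * x + 1) : x ^ 4 = 1 ∨ x ^ 10 = 1 ∨ x ^ 13 = 1 ∨ x ^ 15 = 1 := by
  rcases ht with ht | ht | ht | ht | ht | ht
  · right; right; right
    linear_combination (((-1) * t ^ 0) * x ^ 0 + ((-1) * t ^ 0) * x ^ 3 + ((-1) * t ^ 0) * x ^ 6 + ((-1) * t ^ 0) * x ^ 9 + ((-1) * t ^ 0) * x ^ 12) * h + (((-1) * t ^ 3) * x ^ 1 + ((-1) * t ^ 0) * x ^ 2 + ((-1) * t ^ 3) * x ^ 4 + ((-1) * t ^ 0) * x ^ 5 + ((-1) * t ^ 3) * x ^ 7 + ((-1) * t ^ 0) * x ^ 8 + ((-1) * t ^ 3) * x ^ 10 + ((-1) * t ^ 0) * x ^ 11 + ((-1) * t ^ 3) * x ^ 13 + ((-1) * t ^ 0) * x ^ 14) * ht + (((-1) * t ^ 0) * x ^ 0 + ((1) * t ^ 4) * x ^ 1 + ((1) * t ^ 4) * x ^ 4 + ((1) * t ^ 4) * x ^ 7 + ((1) * t ^ 4) * x ^ 10 + ((1) * t ^ 4) * x ^ 13 + ((1) * t ^ 0) * x ^ 15) * h2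
  · left
    linear_combination (((-1) * t ^ 0) * x ^ 0 + ((-1) * t ^ 0) * x ^ 1) * h + (((-1) * t ^ 0 + (-1) * t ^ 1 + (-1) * t ^ 2 + (-1) * t ^ 3) * x ^ 1 + ((-1) * t ^ 1 + (-1) * t ^ 2 + (-1) * t ^ 3) * x ^ 2 + ((-1) * t ^ 0) * x ^ 3) * ht + (((-1) * t ^ 0) * x ^ 0 + ((1) * t ^ 1 + (1) * t ^ 2 + (1) * t ^ 3 + (1) * t ^ 4) * x ^ 1 + ((1) * t ^ 2 + (1) * t ^ 3 + (1) * t ^ 4) * x ^ 2 + ((1) * t ^ 0) * x ^ 3 + ((1) * t ^ 0) * x ^ 4) * h2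
  · right; left
    linear_combination (((-1) * t ^ 0) * x ^ 0 + ((-1) * t ^ 1) * x ^ 1 + ((-1) * t ^ 0) * x ^ 2 + ((-1) * t ^ 0) * x ^ 5 + ((-1) * t ^ 1) * x ^ 6 + ((-1) * t ^ 0) * x ^ 7) * h + (((-1) * t ^ 1 + (-1) * t ^ 2) * x ^ 1 + ((-1) * t ^ 0 + (-1) * t ^ 2 + (-1) * t ^ 3) * x ^ 2 + ((-1) * t ^ 0 + (-1) * t ^ 1 + (-1) * t ^ 2) * x ^ 3 + ((-1) * t ^ 1 + (-1) * t ^ 2) * x ^ 6 + ((-1) * t ^ 0 + (-1) * t ^ 2 + (-1) * t ^ 3) * x ^ 7 + ((-1) * t ^ 0 + (-1) * t ^ 1 + (-1) * t ^ 2) * x ^ 8) * ht + (((-1) * t ^ 0) * x ^ 0 + ((1) * t ^ 2 + (1) * t ^ 3 + (1) * t ^ 4) * x ^ 1 + ((1) * t ^ 2 + (1) * t ^ 3 + (1) * t ^ 4 + (1) * t ^ 5) * x ^ 2 + ((1) * t ^ 0 + (1) * t ^ 1 + (1) * t ^ 2 + (1) * t ^ 3 + (1) * t ^ 4) * x ^ 3 + ((1) * t ^ 2 + (1) * t ^ 3 + (1) * t ^ 4) * x ^ 6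 + ((1) * t ^ 2 + (1) * t ^ 3 + (1) * t ^ 4 + (1) * t ^ 5) * x ^ 7 + ((1) * t ^ 0 + (1) * t ^ 1 + (1) * t ^ 2 + (1) * t ^ 3 + (1) * t ^ 4) * x ^ 8 + ((1) * t ^ 0) * x ^ 10) * h2
  · right; right; right
    linear_combination (((-1) * t ^ 0) * x ^ 0 + ((-1) * t ^ 0 + (-1) * t ^ 1) * x ^ 1 + ((-1) * t ^ 0 + (-1) * t ^ 1 + (-1) * t ^ 2) * x ^ 2 + ((-1) * t ^ 1 + (-1) * t ^ 2 + (-1) * t ^ 3) * x ^ 3 + ((-1) * t ^ 2 + (-1) * t ^ 3) * x ^ 4 + ((-1) * t ^ 0 + (-1) * t ^ 1 + (-1) * t ^ 2 + (-1) * t ^ 3) * x ^ 5 + ((-1) * t ^ 0 + (-1) * t ^ 1 + (-1) * t ^ 2) * x ^ 6 + ((-1) * t ^ 3) * x ^ 7 + ((-1) * t ^ 1 + (-1) * t ^ 3) * x ^ 8 + ((-1) * t ^ 0 + (-1) * t ^ 3) * x ^ 9 + ((-1) * t ^ 0 + (-1) * t ^ 1 + (-1) * t ^ 2) * x ^ 10 + ((-1) * t ^ 1) * x ^ 11 + ((-1) * t ^ 0) * x ^ 12)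 * h + (((-1) * t ^ 0) * x ^ 1 + ((-1) * t ^ 0 + (-1) * t ^ 1) * x ^ 2 + ((-1) * t ^ 0 + (-1) * t ^ 1 + (-1) * t ^ 2) * x ^ 3 + ((-1) * t ^ 0 + (-1) * t ^ 1 + (-1) * t ^ 2 + (-1) * t ^ 3) * x ^ 4 + ((-1) * t ^ 2 + (-1) * t ^ 3) * x ^ 5 + ((-1) * t ^ 0 + (-1) * t ^ 1 + (-1) * t ^ 2 + (-1) * t ^ 3) * x ^ 6 + ((-1) * t ^ 1 + (-1) * t ^ 2) * x ^ 7 + ((-1) * t ^ 0 + (-1) * t ^ 3) * x ^ 8 + ((-1) * t ^ 1 + (-1) * t ^ 3) * x ^ 9 + ((-1) * t ^ 0 + (-1) * t ^ 3) * x ^ 10 + ((-1) * t ^ 1 + (-1) * t ^ 2) * x ^ 11 + ((-1) * t ^ 1) * x ^ 12 + ((-1) * t ^ 0) * x ^ 13) * ht + (((-1) * t ^ 0) * x ^ 0 + ((1) * t ^ 4) * x ^ 1 + ((1) * t ^ 4 + (1) * t ^ 5) * x ^ 2 + ((1) * t ^ 0 + (1) * t ^ 4 + (1) * t ^ 5 + (1) * t ^ 6) * x ^ 3 + ((1) * t ^ 0 + (1) * t ^ 1 + (1) * t ^ 4 + (1) * t ^ 5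 + (1) * t ^ 6 + (1) * t ^ 7) * x ^ 4 + ((1) * t ^ 6 + (1) * t ^ 7) * x ^ 5 + ((1) * t ^ 1 + (1) * t ^ 2 + (1) * t ^ 3 + (1) * t ^ 4 + (1) * t ^ 5 + (1) * t ^ 6 + (1) * t ^ 7) * x ^ 6 + ((1) * t ^ 2 + (1) * t ^ 5 + (1) * t ^ 6) * x ^ 7 + ((1) * t ^ 0 + (1) * t ^ 4 + (1) * t ^ 7) * x ^ 8 + ((1) * t ^ 1 + (1) * t ^ 2 + (1) * t ^ 5 + (1) * t ^ 7) * x ^ 9 + ((-1) * t ^ 2 + (1) * t ^ 3 + (1) * t ^ 4 + (1) * t ^ 7) * x ^ 10 + ((1) * t ^ 2 + (1) * t ^ 3 + (1) * t ^ 5 + (1) * t ^ 6) * x ^ 11 + ((1) * t ^ 5) * x ^ 12 + ((1) * t ^ 0 + (1) * t ^ 1 + (1) * t ^ 4) * x ^ 13 + ((1) * t ^ 0) * x ^ 15) * h2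
  · right; right; left
    linear_combination (((-1) * t ^ 0) * x ^ 0 + ((-1) * t ^ 0 + (-1) * t ^ 3) * x ^ 1 + ((-1) * t ^ 2 + (-1) * t ^ 3) * x ^ 2 + ((-1) * t ^ 1) * x ^ 3 + ((-1) * t ^ 0 + (-1) * t ^ 1) * x ^ 4 + ((-1) * t ^ 1 + (-1) * t ^ 3) * x ^ 5 + ((-1) * t ^ 3) * x ^ 6 + ((-1) * t ^ 0 + (-1) * t ^ 3) * x ^ 7 + ((-1) * t ^ 0 + (-1) * t ^ 2 + (-1) * t ^ 3) * x ^ 8 + ((-1) * t ^ 1) * x ^ 9 + ((-1) * t ^ 0) * x ^ 10) * h + (((-1) * t ^ 0) * x ^ 1 + ((-1) * t ^ 1 + (-1) * t ^ 2 + (-1) * t ^ 3) * x ^ 2 + ((-1) * t ^ 0 + (-1) * t ^ 3) * x ^ 3 + ((-1) * t ^ 1) * x ^ 4 + ((-1) * t ^ 1) * x ^ 5 + ((-1) * t ^ 2 + (-1) * t ^ 3) * x ^ 6 + ((-1) * t ^ 1 + (-1) * t ^ 2 + (-1) * t ^ 3) * x ^ 7 + ((-1) * t ^ 0 + (-1) * t ^ 1 + (-1) * t ^ 2 + (-1) * t ^ 3) * x ^ 8 + ((-1) *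 t ^ 3) * x ^ 9 + ((-1) * t ^ 1) * x ^ 10 + ((-1) * t ^ 0) * x ^ 11) * ht + (((-1) * t ^ 0) * x ^ 0 + ((1) * t ^ 4) * x ^ 1 + ((1) * t ^ 4 + (1) * t ^ 5 + (1) * t ^ 6 + (1) * t ^ 7) * x ^ 2 + ((1) * t ^ 0 + (-1) * t ^ 1 + (1) * t ^ 3 + (1) * t ^ 6 + (1) * t ^ 7) * x ^ 3 + ((1) * t ^ 5) * x ^ 4 + ((1) * t ^ 4 + (1) * t ^ 5) * x ^ 5 + ((1) * t ^ 5 + (1) * t ^ 6 + (1) * t ^ 7) * x ^ 6 + ((1) * t ^ 1 + (1) * t ^ 5 + (1) * t ^ 6 + (1) * t ^ 7) * x ^ 7 + ((1) * t ^ 1 + (1) * t ^ 3 + (1) * t ^ 4 + (1) * t ^ 5 + (1) * t ^ 6 + (1) * t ^ 7) * x ^ 8 + ((-1) * t ^ 1 + (1) * t ^ 3 + (1) * t ^ 6 + (1) * t ^ 7) * x ^ 9 + ((1) * t ^ 5) * x ^ 10 + ((1) * t ^ 0 + (1) * t ^ 3 + (1) * t ^ 4) * x ^ 11 + ((1) * t ^ 0) * x ^ 13) * h2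
  · right; left
    linear_combination (((-1) * t ^ 0) * x ^ 0 + ((-1) * t ^ 0 + (-1) * t ^ 1 + (-1) * t ^ 2 + (-1) * t ^ 3) * x ^ 1 + ((-1) * t ^ 1 + (-1) * t ^ 3) * x ^ 2 + ((-1) * t ^ 0 + (-1) * t ^ 2) * x ^ 3 + ((-1) * t ^ 0 + (-1) * t ^ 3) * x ^ 4 + ((-1) * t ^ 0 + (-1) * t ^ 1 + (-1) * t ^ 3) * x ^ 5 + ((-1) * t ^ 1) * x ^ 6 + ((-1) * t ^ 0) * x ^ 7) * h + (((-1) * t ^ 0) * x ^ 1 + ((-1) * t ^ 3) * x ^ 2 + ((-1) * t ^ 1 + (-1) * t ^ 2 + (-1) * t ^ 3) * x ^ 3 + ((-1) * t ^ 1 + (-1) * t ^ 2) * x ^ 4 + ((-1) * t ^ 0 + (-1) * t ^ 2 + (-1) * t ^ 3) * x ^ 5 + ((-1) * t ^ 0 + (-1) * t ^ 1 + (-1) * t ^ 2 + (-1) * t ^ 3) * x ^ 6 + ((-1) * t ^ 1) * x ^ 7 + ((-1) * t ^ 0) * x ^ 8) * ht + (((-1) * t ^ 0) * x ^ 0 + ((1) * t ^ 4) * x ^ 1 + ((-1) * t ^ 1 + (1) * t ^ 4 + (1)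 * t ^ 5 + (1) * t ^ 6 + (1) * t ^ 7) * x ^ 2 + ((1) * t ^ 3 + (1) * t ^ 4 + (2) * t ^ 5 + (1) * t ^ 6 + (1) * t ^ 7) * x ^ 3 + ((1) * t ^ 1 + (1) * t ^ 2 + (1) * t ^ 3 + (1) * t ^ 4 + (1) * t ^ 5 + (1) * t ^ 6) * x ^ 4 + ((1) * t ^ 2 + (1) * t ^ 3 + (2) * t ^ 4 + (1) * t ^ 5 + (1) * t ^ 6 + (1) * t ^ 7) * x ^ 5 + ((1) * t ^ 0 + (2) * t ^ 2 + (2) * t ^ 3 + (2) * t ^ 4 + (2) * t ^ 5 + (1) * t ^ 6 + (1) * t ^ 7) * x ^ 6 + ((1) * t ^ 3 + (1) * t ^ 5) * x ^ 7 + ((1) * t ^ 0 + (1) * t ^ 1 + (1) * t ^ 3 + (1) * t ^ 4) * x ^ 8 + ((1) * t ^ 0) * x ^ 10) * h2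

theorem card_sixteen_cases {F : Type*} [Field F] [Fintype F] [CharP F 2] (hF : Fintype.card F = 16) (t : F) :
    t = 0 ∨ t + 1 = 0 ∨ t ^ 2 + t + 1 = 0 ∨ t ^ 4 + t + 1 = 0 ∨ t ^ 4 + t ^ 3 + 1 = 0 ∨ t ^ 4 + t ^ 3 + t ^ 2 + t + 1 = 0 := by
  have h := FiniteField.pow_card t
  rw [hF] at h
  have h2 : (2 : F) = 0 := CharP.ofNat_eq_zero F 2
  have h3 : (t) * ((t + 1) * ((t ^ 2 + t + 1) * ((t ^ 4 + t + 1) * ((t ^ 4 + t ^ 3 + 1) * ((t ^ 4 + t ^ 3 + t ^ 2 + t + 1)))))) = 0 := by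
    linear_combination h + ((1) * t ^ 1 + (2) * t ^ 2 + (4) * t ^ 3 + (6) * t ^ 4 + (9) * t ^ 5 + (13) * t ^ 6 + (16) * t ^ 7 + (17) * t ^ 8 + (17) * t ^ 9 + (16) * t ^ 10 + (13) * t ^ 11 + (9) * t ^ 12 + (6) * t ^ 13 + (4) * t ^ 14 + (2) * t ^ 15) * h2
  simpa only [mul_eq_zero] using h3

theorem su34_pow {F : Type*} [Field F] [Fintype F] [CharP F 2] (hF : Fintype.card F = 16)
    (A : Matrix (Fin 3) (Fin 3) F) (t : F) (h : A ^ 3 = t • A ^ 2 - t ^ 4 • A + 1) :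
    A ^ 4 = 1 ∨ A ^ 10 = 1 ∨ A ^ 13 = 1 ∨ A ^ 15 = 1 := by
  obtain ⟨C, _, _, x, f, hf, rfl⟩ := comm_transfer_alg F A
  have := su34_comm x (algebraMap F C t) (by
      rw [← map_ofNat (algebraMap F C), CharP.ofNat_eq_zero F 2, map_zero])
    (by
      rcases card_sixteen_cases hF t with h | h | h | h | h | h <;>
        have h' := congrArg (algebraMap F C) h <;>
        simp only [map_add, map_pow, map_one, map_zero] at h' <;> tauto)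
    (hf (by
      rw [← map_pow (algebraMap F C), ← Algebra.smul_def, ← Algebra.smul_def]
      simpa using h))
  rcases this with h | h | h | h
  · left; rw [← map_pow, h, map_one]
  · right; left; rw [← map_pow, h, map_one]
  · right; right; left; rw [← map_pow, h, map_one]
  · right; right; right; rw [← map_pow, h, map_one]

/-- The field with four elements. -/
abbrev K4 : Type := QuadraticAlgebra (ZMod 2) 1 1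

instance instFactK4 : Fact (∀ r : ZMod 2, r ^ 2 ≠ 1 + 1 * r) := ⟨by decide⟩

/-- The field with sixteen elements. -/
abbrev K16 : Type := QuadraticAlgebra K4 ⟨0, 1⟩ 1

instance instFactK16 : Fact (∀ r : K4, r ^ 2 ≠ ⟨0, 1⟩ + 1 * r) :=
  ⟨by rintro ⟨a, b⟩; revert a b; decide +kernel⟩

theorem exists_hom_K16 {F : Type*} [Field F] [Fintype F] (hF : Fintype.card F = 16) :
    Nonempty (K16 ≃+* F) := by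
  letI : Fintype K16 := Fintype.ofFinite _
  refine ⟨FiniteField.ringEquivOfCardEq ?_⟩
  rw [hF, ← Nat.card_eq_fintype_card, Nat.card_congr (QuadraticAlgebra.equivProd _ _), Nat.card_prod,
    Nat.card_congr (QuadraticAlgebra.equivProd _ _)]
  simp

def su34a : Matrix (Fin 3) (Fin 3) K16 :=
  !![⟨⟨0, 0⟩, ⟨0, 0⟩⟩, ⟨⟨1, 0⟩, ⟨1, 1⟩⟩, ⟨⟨0, 0⟩, ⟨0, 0⟩⟩; ⟨⟨1, 1⟩, ⟨1, 1⟩⟩, ⟨⟨0, 0⟩, ⟨0, 0⟩⟩, ⟨⟨0, 0⟩, ⟨1, 0⟩⟩; ⟨⟨1, 1⟩, ⟨0, 1⟩⟩, ⟨⟨0, 0⟩, ⟨0, 0⟩⟩, ⟨⟨1, 1⟩, ⟨1, 1⟩⟩]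
def su34b : Matrix (Fin 3) (Fin 3) K16 :=
  !![⟨⟨1, 1⟩, ⟨1, 0⟩⟩, ⟨⟨0, 0⟩, ⟨0, 0⟩⟩, ⟨⟨0, 0⟩, ⟨1, 0⟩⟩; ⟨⟨0, 0⟩, ⟨0, 0⟩⟩, ⟨⟨0, 1⟩, ⟨0, 1⟩⟩, ⟨⟨0, 0⟩, ⟨0, 0⟩⟩; ⟨⟨1, 1⟩, ⟨0, 0⟩⟩, ⟨⟨0, 0⟩, ⟨0, 0⟩⟩, ⟨⟨1, 1⟩, ⟨1, 0⟩⟩]
def su34c : Matrix (Fin 3) (Fin 3) K16 :=
  !![⟨⟨0, 0⟩, ⟨0, 0⟩⟩, ⟨⟨0, 0⟩, ⟨1, 0⟩⟩, ⟨⟨0, 1⟩, ⟨0, 0⟩⟩; ⟨⟨1, 0⟩, ⟨0, 0⟩⟩, ⟨⟨0, 0⟩, ⟨0, 0⟩⟩, ⟨⟨0, 0⟩, ⟨0, 0⟩⟩; ⟨⟨0, 0⟩, ⟨0, 0⟩⟩, ⟨⟨0, 1⟩, ⟨0, 0⟩⟩, ⟨⟨1, 0⟩, ⟨1, 0⟩⟩]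

theorem su34_facts : (∀ a ∈ [su34a, su34b, su34c], a.det = 1 ∧ aᵀ * a.map (· ^ 4) = 1) ∧
    su34a ^ 13 = 1 ∧ su34b ^ 10 = 1 ∧ su34c ^ 15 = 1 ∧ su34b * su34a ≠ su34a * su34b ∧
    su34a * su34b ^ 5 ≠ su34b ^ 5 * su34a ∧ su34a * su34b ^ 2 ≠ su34b ^ 2 * su34a ∧
    su34a * su34c ^ 5 ≠ su34c ^ 5 * su34a ∧ su34a * su34c ^ 3 ≠ su34c ^ 3 * su34a := by
  simp only [Matrix.det_fin_three, List.forall_mem_cons, List.not_mem_nil, false_imp_iff,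
    implies_true, and_true]
  refine ⟨⟨⟨?_, ?_⟩, ⟨?_, ?_⟩, ?_, ?_⟩, ?_, ?_, ?_, ?_, ?_, ?_, ?_, ?_⟩ <;> decide +kernel

/-- The element orders of `PSU(3,4)`. -/
theorem psu3_four_orders {F : Type*} [Field F] [Fintype F] (hF : Fintype.card F = 16) :
    (∀ g : Cfsg.PSU 3 F 4, g ^ 4 = 1 ∨ g ^ 10 = 1 ∨ g ^ 13 = 1 ∨ g ^ 15 = 1) ∧
      (∃ g : Cfsg.PSU 3 F 4, orderOf g = 10) ∧ (∃ g : Cfsg.PSU 3 F 4, orderOf g = 13) ∧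
      (∃ g : Cfsg.PSU 3 F 4, orderOf g = 15) := by
  haveI : CharP F 2 := charP_of_card_eq_prime_pow (f := 4) (by rw [hF]; norm_num)
  obtain ⟨e⟩ := exists_hom_K16 hF
  have hσ : ∀ x : F, iterateFrobenius F 2 2 x = x ^ 4 := fun x => rfl
  let φ : Matrix (Fin 3) (Fin 3) K16 →+* Matrix (Fin 3) (Fin 3) F := e.toRingHom.mapMatrix
  have hφ : Function.Injective φ := Matrix.map_injective e.injective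
  have tr : ∀ a ∈ [su34a, su34b, su34c], ∃ A : Cfsg.SU 3 F 4, A.1.1 = φ a := by
    intro a ha
    obtain ⟨h1, h2⟩ := su34_facts.1 a ha
    refine ⟨⟨⟨φ a, ?_⟩, (mem_SU_iff _ hσ _).2 ?_⟩, rfl⟩
    · rw [← RingHom.map_det, h1, map_one]
    · have := congrArg φ h2
      rw [map_mul, map_one] at this
      rw [← this]
      congr 1
      ext i j
      simp [φ, hσ]
  obtain ⟨A, hA⟩ := tr su34a (by simp)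
  obtain ⟨B, hB⟩ := tr su34b (by simp)
  obtain ⟨C, hC⟩ := tr su34c (by simp)
  obtain ⟨-, f1, f2, f3, f4, f5, f6, f7, f8⟩ := su34_facts
  have pw : ∀ (X : Cfsg.SU 3 F 4) (x : Matrix (Fin 3) (Fin 3) K16) (n : ℕ), X.1.1 = φ x → x ^ n = 1 →
      X ^ n ∈ Subgroup.center (Cfsg.SU 3 F 4) := by
    intro X x n hX hx
    have : X ^ n = 1 := by
      apply Subtype.ext
      apply Subtype.ext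
      change X.1.1 ^ n = 1
      rw [hX, ← map_pow, hx, map_one]
    rw [this]
    exact Subgroup.one_mem _
  have nc : ∀ (X Y : Cfsg.SU 3 F 4) (x y : Matrix (Fin 3) (Fin 3) K16) (n : ℕ), X.1.1 = φ x → Y.1.1 = φ y →
      y * x ^ n ≠ x ^ n * y → Y * X ^ n ≠ X ^ n * Y := by
    intro X Y x y n hX hY hne h
    apply hne
    apply hφ
    have h' : Y.1.1 * X.1.1 ^ n = X.1.1 ^ n * Y.1.1 := congrArg (fun Z : Cfsg.SU 3 F 4 => Z.1.1) h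
    rw [hX, hY] at h'
    simpa using h'
  refine ⟨?_, ?_, ?_, ?_⟩
  · intro g
    obtain ⟨X, rfl⟩ := QuotientGroup.mk_surjective g
    have h := su3_cubic _ X.1.1 X.1.2 ((mem_SU_iff _ hσ _).1 X.2)
    have key : ∀ n : ℕ, X.1.1 ^ n = 1 → (QuotientGroup.mk X : Cfsg.PSU 3 F 4) ^ n = 1 := by
      intro n hn
      have : X ^ n = 1 := Subtype.ext (Subtype.ext hn)
      rw [← QuotientGroup.mk_pow, this, QuotientGroup.mk_one]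
    rcases su34_pow hF X.1.1 _ h with h | h | h | h
    · exact Or.inl (key _ h)
    · exact Or.inr (Or.inl (key _ h))
    · exact Or.inr (Or.inr (Or.inl (key _ h)))
    · exact Or.inr (Or.inr (Or.inr (key _ h)))
  · refine ⟨_, orderOf_mk_center B 10 (by norm_num) (pw B _ _ hB f2) fun r hr h => ?_⟩
    rcases prime_dvd_two_five (a := 1) (b := 1) (by norm_num) hr h with rfl | rfl
    · exact ⟨A, nc B A _ _ _ hB hA f5⟩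
    · exact ⟨A, nc B A _ _ _ hB hA f6⟩
  · refine ⟨_, orderOf_mk_center A 13 (by norm_num) (pw A _ _ hA f1) fun r hr h => ?_⟩
    obtain rfl := (Nat.prime_dvd_prime_iff_eq hr (by norm_num)).1 h
    exact ⟨B, nc A B _ _ _ hA hB (by simpa using f4)⟩
  · refine ⟨_, orderOf_mk_center C 15 (by norm_num) (pw C _ _ hC f3) fun r hr h => ?_⟩
    rcases (Nat.Prime.dvd_mul hr (m := 3) (n := 5)).1 h with h | h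
    · obtain rfl := (Nat.prime_dvd_prime_iff_eq hr Nat.prime_three).1 h
      exact ⟨A, nc C A _ _ _ hC hA f7⟩
    · obtain rfl := (Nat.prime_dvd_prime_iff_eq hr Nat.prime_five).1 h
      exact ⟨A, nc C A _ _ _ hC hA f8⟩

/-- The prime graph of a group with element orders dividing `20, 50, 75, 13` and elements of orders
`10, 13, 15`. -/
theorem primeGraph_u34 {G : Type*} [Group G] [Finite G]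
    (h : ∀ g : G, orderOf g ∣ 20 ∨ orderOf g ∣ 50 ∨ orderOf g ∣ 13 ∨ orderOf g ∣ 75)
    (h10 : ∃ g : G, orderOf g = 10) (h13 : ∃ g : G, orderOf g = 13) (h15 : ∃ g : G, orderOf g = 15) :
    (∀ p : ℕ, p.Prime → (p ∈ Set.range (orderOf : G → ℕ) ↔ p = 2 ∨ p = 3 ∨ p = 5 ∨ p = 13)) ∧
      ∀ p q : ℕ, p.Prime → q.Prime → p ≠ q →
        (p * q ∈ Set.range (orderOf : G → ℕ) ↔ p * q = 10 ∨ p * q = 15) := by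
  have key : ∀ a : ℕ, (∃ g : G, orderOf g = a) → ∀ n, n ∣ a → n ∈ Set.range (orderOf : G → ℕ) := by
    rintro a ⟨g, hg⟩ n hn
    exact exists_orderOf_of_dvd' g (hg ▸ hn)
  have k1 : ∀ p, p < 76 → p.Prime → (p ∣ 20 ∨ p ∣ 50 ∨ p ∣ 13 ∨ p ∣ 75) →
      p = 2 ∨ p = 3 ∨ p = 5 ∨ p = 13 := by decide +kernel
  have k3 : ∀ n : ℕ, (n ∣ 20 ∨ n ∣ 50 ∨ n ∣ 13 ∨ n ∣ 75) → n < 76 := by
    rintro n (h | h | h | h) <;> have := Nat.le_of_dvd (by norm_num) h <;> omega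
  refine ⟨fun p hp => ⟨?_, ?_⟩, fun p q hp hq hpq => ⟨?_, ?_⟩⟩
  · rintro ⟨g, rfl⟩
    exact k1 _ (k3 _ (h g)) hp (h g)
  · rintro (rfl | rfl | rfl | rfl)
    exacts [key _ h10 _ (by norm_num), key _ h15 _ (by norm_num), key _ h10 _ (by norm_num),
      key _ h13 _ (by norm_num)]
  · rintro ⟨g, hg⟩
    have h1 := h g
    rw [hg] at h1
    have h2 : p ∣ 20 ∨ p ∣ 50 ∨ p ∣ 13 ∨ p ∣ 75 :=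
      h1.imp (Dvd.dvd.trans (dvd_mul_right p q)) (Or.imp (Dvd.dvd.trans (dvd_mul_right p q))
        (Or.imp (Dvd.dvd.trans (dvd_mul_right p q)) (Dvd.dvd.trans (dvd_mul_right p q))))
    have h3 : q ∣ 20 ∨ q ∣ 50 ∨ q ∣ 13 ∨ q ∣ 75 :=
      h1.imp (Dvd.dvd.trans (dvd_mul_left q p)) (Or.imp (Dvd.dvd.trans (dvd_mul_left q p))
        (Or.imp (Dvd.dvd.trans (dvd_mul_left q p)) (Dvd.dvd.trans (dvd_mul_left q p))))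
    rcases k1 p (k3 _ h2) hp h2 with rfl | rfl | rfl | rfl <;>
      rcases k1 q (k3 _ h3) hq h3 with rfl | rfl | rfl | rfl <;> revert h1 hpq <;> decide
  · rintro (e | e) <;> rw [e]
    exacts [h10, h15]

end CfsgH7
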