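import Cfsg.Agent.H1.Q4Def
import Cfsg.Agent.H4.WittA
import Cfsg.Agent.H9.MatCode
import Cfsg.Agent.S3732

set_option autoImplicit false
set_option linter.unusedSectionVars false

/-! The Steiner system `S(4,7,23)`: coordinates. -/

namespace CfsgH7.Q4M

open CfsgH1.Q4 CfsgH9 CfsgWitt Matrix

/-- a Steiner system `S(4,7,23)` -/
structure Des (Ω : Type*) (𝔅 : Set (Set Ω)) : Prop where
  h23 : Nat.card Ω = 23
  h7 : ∀ β ∈ 𝔅, β.ncard = 7
  hS : ∀ B : Set Ω, B.ncard = 4 → ∃! β, β ∈ 𝔅 ∧ B ⊆ β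

/-- the points of the projective plane of order `4`. -/
def pts (i : Fin 21) (j : Fin 3) : GF4 := ⟨Fin.ofNat 4 ((![16, 4, 20, 36, 52, 1, 17, 33, 49, 5, 21, 37,
  53, 9, 25, 41, 57, 13, 29, 45, 61] i : ℕ) >>> (2 * j.val))⟩

theorem pts_ne : ∀ i, pts i ≠ 0 := by decide +kernel
theorem pts_inj : ∀ i j (c : GF4), c • pts j = pts i → i = j := by decide +kernel
theorem pts_inc : ∀ i j, pts j ⬝ᵥ pts i = 0 ↔ Golay.ofMask (Lm i) (lab j) = 1 := by decide +kernel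

/-- coordinates of a projective plane of order `4` -/
theorem coord_plane {P L : Type*} [Membership P L] [Fintype P] [Fintype L]
    [Configuration.ProjectivePlane P L] (h21 : Nat.card P = 21)
    (h2t : ∀ p₁ p₂ q₁ q₂ : P, p₁ ≠ p₂ → q₁ ≠ q₂ → ∃ (σ : Equiv.Perm P) (τ : Equiv.Perm L),
      (∀ (p : P) (l : L), σ p ∈ τ l ↔ p ∈ l) ∧ σ p₁ = q₁ ∧ σ p₂ = q₂) :
    ∃ k : Fin 21 → P, Function.Bijective k ∧
      ∀ i : Fin 21, ∃ l : L, ∀ j, k j ∈ l ↔ Golay.ofMask (Lm i) (lab j) = 1 := by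
  obtain ⟨F, _, _, φ, -, h2⟩ := Cfsg.Agent.S3732.result h2t
  have hF : Fintype.card F = 4 := by
    have h := Projectivization.card_of_finrank F (Fin 3 → F) (n := 3) (by simp)
    rw [← Nat.card_congr φ, h21, Nat.card_eq_fintype_card] at h
    simp only [Finset.sum_range_succ, Finset.range_zero, Finset.sum_empty] at h
    generalize Fintype.card F = q at h
    have : q ≤ 4 := by nlinarith
    interval_cases q <;> simp_all
  let e : F ≃+* GF4 := FiniteField.ringEquivOfCardEq (hF.trans card_GF4.symm)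
  let v : Fin 21 → Fin 3 → F := fun i j => e.symm (pts i j)
  have v0 : ∀ i, v i ≠ 0 := fun i h => pts_ne i (funext fun j => by
    simpa [v] using congrFun h j)
  refine ⟨fun j => φ.symm (Projectivization.mk F (v j) (v0 j)),
    (Nat.bijective_iff_injective_and_card _).2 ⟨fun i j h => ?_, by rw [h21]; simp⟩, fun i => ?_⟩
  · obtain ⟨c, hc⟩ := (Projectivization.mk_eq_mk_iff' F _ _ _ _).1 (φ.symm.injective h)
    refine pts_inj i j (e c) (funext fun t => ?_)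
    simpa [v] using congrArg e (congrFun hc t)
  · let f : (Fin 3 → F) →ₗ[F] F := (dotProductBilin F F).flip (v i)
    have hf : f ≠ 0 := fun h => v0 i (funext fun t => by
      simpa [f] using LinearMap.congr_fun h (Pi.single t 1))
    obtain ⟨l, hl⟩ := h2 (LinearMap.ker f) (by
      have := Module.Dual.finrank_ker_add_one_of_ne_zero hf
      simp only [Module.finrank_fin_fun] at this
      omega)
    refine ⟨l, fun j => ?_⟩
    rw [hl, Equiv.apply_symm_apply, Projectivization.submodule_mk, Submodule.span_singleton_le_iff_mem,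
      ← pts_inc, LinearMap.mem_ker, ← e.map_eq_zero_iff]
    simp [f, v, dotProduct]

variable {Ω : Type*} [Finite Ω] {𝔅 : Set (Set Ω)} {β β' : Set Ω} {a b c d p p' : Ω}

namespace Des
variable (h : Des Ω 𝔅)
include h

theorem ex4 (hd : D4 a b c d) : ∃ β ∈ 𝔅, a ∈ β ∧ b ∈ β ∧ c ∈ β ∧ d ∈ β := by
  obtain ⟨β, ⟨h1, h2⟩, -⟩ := h.hS _ hd.ncard
  exact ⟨β, h1, h2 (by simp), h2 (by simp), h2 (by simp), h2 (by simp)⟩

theorem uq' (h1 : β ∈ 𝔅) (h2 : β' ∈ 𝔅) (h4 : 4 ≤ (β ∩ β').ncard) : β = β' := by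
  obtain ⟨B, hB, e⟩ := exists_four h4
  exact (h.hS B e).unique ⟨h1, hB.trans Set.inter_subset_left⟩ ⟨h2, hB.trans Set.inter_subset_right⟩

theorem uq (h1 : β ∈ 𝔅) (h2 : β' ∈ 𝔅) (hd : D4 a b c d) (ha : a ∈ β ∩ β') (hb : b ∈ β ∩ β')
    (hc : c ∈ β ∩ β') (hd' : d ∈ β ∩ β') : β = β' := h.uq' h1 h2 (hd.le_ncard ha hb hc hd')

theorem other (h1 : β ∈ 𝔅) (a b c d : Ω) : ∃ x ∈ β, x ≠ a ∧ x ≠ b ∧ x ≠ c ∧ x ≠ d := by
  obtain ⟨x, h2, h3⟩ := Set.exists_mem_notMem_of_ncard_lt_ncard (s := {a, b, c, d}) (t := β) (by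
    have := Set.ncard_insert_le a {b, c, d}
    have := Set.ncard_insert_le b {c, d}
    have := Set.ncard_insert_le c {d}
    have := Set.ncard_singleton d
    have := h.h7 β h1
    omega)
  exact ⟨x, h2, by simpa [not_or] using h3⟩

theorem off (h1 : β ∈ 𝔅) : ∃ x, x ∉ β := by
  obtain ⟨x, -, h3⟩ := Set.exists_mem_notMem_of_ncard_lt_ncard (s := β) (t := Set.univ) (by
    rw [h.h7 β h1, Set.ncard_univ, h.h23]; norm_num)
  exact ⟨x, h3⟩

theorem meet (h1 : β ∈ 𝔅) (h2 : β' ∈ 𝔅) (hp : p ≠ p') (a1 : p ∈ β ∩ β') (a2 : p' ∈ β ∩ β') :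
    ∃ x ∈ β ∩ β', x ≠ p ∧ x ≠ p' := by
  classical
  by_contra n
  push Not at n
  have := Fintype.ofFinite Ω
  obtain ⟨q, q1, q2, q3, -⟩ := h.other h2 p p' p p
  have q4 : q ∉ β := fun e => q3 (n q ⟨e, q1⟩ q2)
  have key : ∀ x ∈ β \ {p, p'}, D4 p p' q x := fun x hx => by
    have := hx.2
    simp only [Set.mem_insert_iff, Set.mem_singleton_iff, not_or] at this
    exact ⟨hp, q2.symm, Ne.symm this.1, q3.symm, Ne.symm this.2, fun e => q4 (e ▸ hx.1)⟩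
  choose! γ g1 g2 g3 g4 g5 using fun x hx => h.ex4 (key x hx)
  have key' : ∀ x, ∀ y ∈ γ x \ {p, p', q}, D4 p p' q y := fun x y hy => by
    have := hy.2
    simp only [Set.mem_insert_iff, Set.mem_singleton_iff, not_or] at this
    exact ⟨hp, q2.symm, Ne.symm this.1, q3.symm, Ne.symm this.2.1, Ne.symm this.2.2⟩
  have c1 : ((β \ {p, p'}).toFinset.biUnion fun x => (γ x \ {p, p', q}).toFinset).card = 20 := by
    rw [Finset.card_biUnion, Finset.sum_congr rfl (g := fun _ => 4)]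
    · rw [Finset.sum_const, ← Set.ncard_eq_toFinset_card', Set.ncard_sdiff (by
        rintro _ (rfl | rfl); exacts [a1.1, a2.1]), h.h7 β h1, Set.ncard_pair hp]
      rfl
    · intro x hx
      rw [Set.mem_toFinset] at hx
      rw [← Set.ncard_eq_toFinset_card', Set.ncard_sdiff (by
        rintro _ (rfl | rfl | rfl); exacts [g2 x hx, g3 x hx, g4 x hx]), h.h7 _ (g1 x hx),
        Set.ncard_insert_of_notMem (by simp [hp, q2.symm]), Set.ncard_pair q3.symm]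
    · intro x hx x' hx' ne
      rw [Finset.mem_coe, Set.mem_toFinset] at hx hx'
      refine Finset.disjoint_left.2 fun y hy hy' => q4 ?_
      rw [Set.mem_toFinset] at hy hy'
      have e := h.uq (g1 x hx) (g1 x' hx') (key' x y hy) ⟨g2 x hx, g2 x' hx'⟩ ⟨g3 x hx, g3 x' hx'⟩
        ⟨g4 x hx, g4 x' hx'⟩ ⟨hy.1, hy'.1⟩
      have k := key x hx
      have k' := key x' hx'
      rw [h.uq h1 (g1 x hx) (a := p) (b := p') (c := x) (d := x')
        ⟨hp, k.2.2.1, k'.2.2.1, k.2.2.2.2.1, k'.2.2.2.2.1, ne⟩ ⟨a1.1, g2 x hx⟩ ⟨a2.1, g3 x hx⟩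
        ⟨hx.1, g5 x hx⟩ ⟨hx'.1, e ▸ g5 x' hx'⟩]
      exact g4 x hx
  have c2 : ((β \ {p, p'}).toFinset.biUnion fun x => (γ x \ {p, p', q}).toFinset) ⊆ β'ᶜ.toFinset := by
    intro y hy
    simp only [Finset.mem_biUnion, Set.mem_toFinset] at hy ⊢
    obtain ⟨x, hx, hy⟩ := hy
    intro y2
    have e := h.uq (g1 x hx) h2 (key' x y hy) ⟨g2 x hx, a1.2⟩ ⟨g3 x hx, a2.2⟩ ⟨g4 x hx, q1⟩
      ⟨hy.1, y2⟩
    have k := key x hx
    exact k.2.2.2.2.1 (n x ⟨hx.1, e ▸ g5 x hx⟩ k.2.2.1.symm).symm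
  have c3 := Finset.card_le_card c2
  have c4 := Set.ncard_add_ncard_compl β'
  rw [c1, ← Set.ncard_eq_toFinset_card'] at c3
  rw [h.h7 _ h2, h.h23] at c4
  omega

end Des

/-- points of the derived plane -/
def Pt (p p' : Ω) : Type _ := {x : Ω // x ≠ p ∧ x ≠ p'}

/-- lines of the derived plane -/
def Ln (𝔅 : Set (Set Ω)) (p p' : Ω) : Type _ := {β : Set Ω // β ∈ 𝔅 ∧ p ∈ β ∧ p' ∈ β}

instance memLn : Membership (Pt p p') (Ln 𝔅 p p') := ⟨fun l x => x.1 ∈ l.1⟩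

theorem mem_Ln {x : Pt p p'} {l : Ln 𝔅 p p'} : x ∈ l ↔ x.1 ∈ l.1 := Iff.rfl

namespace Des
variable (h : Des Ω 𝔅) (hp : p ≠ p')
include h hp

theorem join {x y : Pt p p'} (ne : x ≠ y) : ∃ l : Ln 𝔅 p p', x ∈ l ∧ y ∈ l := by
  obtain ⟨β, h1, h2, h3, h4, h5⟩ := h.ex4 (a := p) (b := p') (c := x.1) (d := y.1)
    ⟨hp, x.2.1.symm, y.2.1.symm, x.2.2.symm, y.2.2.symm, fun e => ne (Subtype.ext e)⟩
  exact ⟨⟨β, h1, h2, h3⟩, h4, h5⟩

theorem eq_or {x y : Pt p p'} {l l' : Ln 𝔅 p p'} (h1 : x ∈ l) (h2 : y ∈ l) (h3 : x ∈ l')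
    (h4 : y ∈ l') : x = y ∨ l = l' := or_iff_not_imp_left.2 fun ne => Subtype.ext
  (h.uq l.2.1 l'.2.1 (a := p) (b := p') (c := x.1) (d := y.1)
    ⟨hp, x.2.1.symm, y.2.1.symm, x.2.2.symm, y.2.2.symm, fun e => ne (Subtype.ext e)⟩
    ⟨l.2.2.1, l'.2.2.1⟩ ⟨l.2.2.2, l'.2.2.2⟩ ⟨h1, h3⟩ ⟨h2, h4⟩)

theorem third (l : Ln 𝔅 p p') (x y : Pt p p') : ∃ z ∈ l, z ≠ x ∧ z ≠ y := by
  obtain ⟨z, h1, h2, h3, h4, h5⟩ := h.other l.2.1 p p' x.1 y.1
  exact ⟨⟨z, h2, h3⟩, h1, fun e => h4 (congrArg Subtype.val e), fun e => h5 (congrArg Subtype.val e)⟩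

theorem offL (l : Ln 𝔅 p p') : ∃ x : Pt p p', x ∉ l := by
  obtain ⟨x, hx⟩ := h.off l.2.1
  exact ⟨⟨x, fun e => hx (e ▸ l.2.2.1), fun e => hx (e ▸ l.2.2.2)⟩, hx⟩

theorem card_Pt : Nat.card (Pt p p') = 21 := by
  have c := Set.ncard_add_ncard_compl ({p, p'} : Set Ω)
  rw [Set.ncard_pair hp, h.h23] at c
  have : Nat.card (Pt p p') = ({p, p'} : Set Ω)ᶜ.ncard :=
    Nat.card_congr (Equiv.subtypeEquivRight fun x => by simp [not_or])
  omega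

theorem config (x : Pt p p') : ∃ (p₁ p₃ : Pt p p') (l₁ l₂ l₃ : Ln 𝔅 p p'),
    p₁ ∉ l₂ ∧ p₁ ∉ l₃ ∧ x ∉ l₁ ∧ x ∈ l₂ ∧ x ∈ l₃ ∧ p₃ ∉ l₁ ∧ p₃ ∈ l₂ ∧ p₃ ∉ l₃ := by
  have : Finite (Pt p p') := Subtype.finite
  have : Nontrivial (Pt p p') := Finite.one_lt_card_iff_nontrivial.1 (by rw [h.card_Pt hp]; norm_num)
  obtain ⟨y, ne⟩ := exists_ne x
  obtain ⟨l₂, a1, a2⟩ := h.join hp ne
  obtain ⟨p₁, a3⟩ := h.offL hp l₂
  obtain ⟨r, a4, a5, a6⟩ := h.third hp l₂ x y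
  obtain ⟨l₁, a7, a8⟩ := h.join hp (x := r) (y := p₁) fun e => a3 (e ▸ a4)
  have n12 : l₁ ≠ l₂ := fun e => a3 (e ▸ a8)
  have b1 : x ∉ l₁ := fun e => a5 ((h.eq_or hp a7 e a4 a2).resolve_right n12)
  have b2 : y ∉ l₁ := fun e => a6 ((h.eq_or hp a7 e a4 a1).resolve_right n12)
  obtain ⟨u, c1, c2, c3⟩ := h.third hp l₁ r p₁
  obtain ⟨l₃, c4, c5⟩ := h.join hp (x := x) (y := u) fun e => b1 (e ▸ c1)
  refine ⟨p₁, y, l₁, l₂, l₃, a3, fun e => ?_, b1, a2, c4, b2, a1, fun e => ?_⟩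
  · exact b1 (((h.eq_or hp c1 a8 c5 e).resolve_left c3) ▸ c4)
  · exact c2 ((h.eq_or hp c1 a7 (((h.eq_or hp a1 a2 e c4).resolve_left ne) ▸ c5) a4).resolve_right n12)

/-- the derived plane -/
@[reducible] noncomputable def plane : Configuration.ProjectivePlane (Pt p p') (Ln 𝔅 p p') :=
  have hm : ∀ l l' : Ln 𝔅 p p', ∃ x : Pt p p', x ∈ l ∧ x ∈ l' := fun l l' => by
    obtain ⟨x, h1, h2⟩ := h.meet l.2.1 l'.2.1 hp ⟨l.2.2.1, l'.2.2.1⟩ ⟨l.2.2.2, l'.2.2.2⟩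
    exact ⟨⟨x, h2⟩, h1⟩
  { exists_point := h.offL hp
    exists_line := fun x => by
      obtain ⟨-, -, l, -, -, -, -, h1, -⟩ := h.config hp x
      exact ⟨l, h1⟩
    eq_or_eq := h.eq_or hp
    mkPoint := fun {l l'} _ => (hm l l').choose
    mkPoint_ax := fun {l l'} _ => (hm l l').choose_spec
    mkLine := fun ne => (h.join hp ne).choose
    mkLine_ax := fun ne => (h.join hp ne).choose_spec
    exists_config := by
      have : Nonempty (Pt p p') := (Nat.card_pos_iff.1 (by rw [h.card_Pt hp]; norm_num)).1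
      obtain ⟨p₁, p₃, l₁, l₂, l₃, h1⟩ := h.config hp this.some
      exact ⟨p₁, _, p₃, l₁, l₂, l₃, h1⟩ }

theorem coord {G : Type*} [Group G] [MulAction G Ω] (h4 : T4 (⊤ : Subgroup G) (Set.univ : Set Ω))
    (hG : ∀ g : G, ∀ β ∈ 𝔅, (g • ·) '' β ∈ 𝔅) :
    ∃ k : Fin 21 → Ω, Function.Injective k ∧ (∀ j, k j ≠ p ∧ k j ≠ p') ∧
      (∀ x, x = p ∨ x = p' ∨ ∃ j, k j = x) ∧
      ∀ i : Fin 21, ∃ β ∈ 𝔅, p ∈ β ∧ p' ∈ β ∧ ∀ j, k j ∈ β ↔ Golay.ofMask (Lm i) (lab j) = 1 := by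
  have : Finite (Pt p p') := Subtype.finite
  have : Finite (Ln 𝔅 p p') := Subtype.finite
  have := Fintype.ofFinite (Pt p p')
  have := Fintype.ofFinite (Ln 𝔅 p p')
  let _ := h.plane hp
  obtain ⟨k, h1, h2⟩ := coord_plane (L := Ln 𝔅 p p') (h.card_Pt hp) fun x y x' y' ne ne' => by
    obtain ⟨g, -, g1, g2, g3, g4⟩ := h4 (a := p) (b := p') (c := x.1) (d := y.1) (a' := p) (b' := p')
      (c' := x'.1) (d' := y'.1)
      ⟨hp, x.2.1.symm, y.2.1.symm, x.2.2.symm, y.2.2.symm, fun e => ne (Subtype.ext e)⟩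
      ⟨hp, x'.2.1.symm, y'.2.1.symm, x'.2.2.symm, y'.2.2.symm, fun e => ne' (Subtype.ext e)⟩
      trivial trivial trivial trivial trivial trivial trivial trivial
    refine ⟨(MulAction.toPerm g).subtypePerm fun z => ?_,
      Equiv.ofBijective (fun l : Ln 𝔅 p p' => (⟨(g • ·) '' l.1, hG g _ l.2.1, ⟨p, l.2.2.1, g1⟩,
        ⟨p', l.2.2.2, g2⟩⟩ : Ln 𝔅 p p')) (Finite.injective_iff_bijective.1 fun l l' e => Subtype.ext
          ((MulAction.injective g).image_injective (congrArg Subtype.val e))),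
      fun z l => (MulAction.injective g).mem_set_image, Subtype.ext g3, Subtype.ext g4⟩
    conv_lhs => rw [← g1, ← g2]
    simp
  refine ⟨fun j => (k j).1, Subtype.val_injective.comp h1.1, fun j => (k j).2, fun x => ?_, fun i => ?_⟩
  · by_cases e : x = p
    · exact Or.inl e
    by_cases e' : x = p'
    · exact Or.inr (Or.inl e')
    obtain ⟨j, hj⟩ := h1.2 ⟨x, e, e'⟩
    exact Or.inr (Or.inr ⟨j, congrArg Subtype.val hj⟩)
  · obtain ⟨l, hl⟩ := h2 i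
    exact ⟨l.1, l.2.1, l.2.2.1, l.2.2.2, hl⟩

end Des

end CfsgH7.Q4M
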