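import Cfsg.Agent.H7.KronSmall

/-! An affine group whose element orders are `6`, `9`, `q - 1`, `(q + 1) / 2` and their divisors. -/

set_option autoImplicit false

namespace CfsgH7

open Matrix
open scoped MatrixGroups Kronecker

/-- The group generated by `-1` and the image of `SL(2,K)` on `W ⊗ W^(3)`. -/
noncomputable def negGrp (K : Type*) [Field K] [Fact (Nat.Prime 3)] [CharP K 3] :
    Subgroup (Matrix (Fin 2 × Fin 2) (Fin 2 × Fin 2) K)ˣ :=
  Subgroup.closure (insert (-1) (Set.range (rho2 K 3 1).toHomUnits))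

variable {K : Type*} [Field K] [Fintype K] [Fact (Nat.Prime 3)] [CharP K 3]

theorem negGrp_cases (h : (Matrix (Fin 2 × Fin 2) (Fin 2 × Fin 2) K)ˣ) (hh : h ∈ negGrp K) :
    ∃ g, h = (rho2 K 3 1).toHomUnits g ∨ h = -(rho2 K 3 1).toHomUnits g := by
  apply mem_of_mem_closure_of_closed _
    (fun h => ∃ g, h = (rho2 K 3 1).toHomUnits g ∨ h = -(rho2 K 3 1).toHomUnits g)
    ⟨1, Or.inl (by simp)⟩ _ h hh
  rintro s (rfl | ⟨g', rfl⟩) x ⟨g, rfl | rfl⟩
  · exact ⟨g, Or.inr (by simp)⟩
  · exact ⟨g, Or.inl (by simp)⟩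
  · exact ⟨g' * g, Or.inl (by simp)⟩
  · exact ⟨g' * g, Or.inr (by simp)⟩

omit [Fintype K] in
theorem rho2_pow_eq_one_iff (g : SL(2, K)) (k : ℕ) :
    (rho2 K 3 1).toHomUnits g ^ k = 1 ↔ (QuotientGroup.mk g : PSL(2, K)) ^ k = 1 := by
  rw [psl_pow_eq_one_iff, ← map_pow, Units.ext_iff]
  constructor
  · exact kron_twist_faithful 3 _ _
  · intro h
    rcases sl2_center_cases _ h with h | h <;> rw [h]
    · simp
    · exact rho2_neg_one 3 1

theorem spec_negGrp (r : ℕ) (hq : Fintype.card K = 24 * r + 3) :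
    Set.range (orderOf : Aff (negGrp K) (ColMod (Fin 2 × Fin 2) K) → ℕ) =
      {d | d ∣ 6 ∨ d ∣ 9 ∨ d ∣ 24 * r + 2 ∨ d ∣ 12 * r + 2} := by
  have hH : ∀ g, (rho2 K 3 1).toHomUnits g ∈ negGrp K := fun g =>
    Subgroup.subset_closure (Or.inr ⟨g, rfl⟩)
  have hN : -1 ∈ negGrp K := Subgroup.subset_closure (Or.inl rfl)
  have ho : ∀ g, orderOf ((rho2 K 3 1).toHomUnits g) = orderOf (QuotientGroup.mk g : PSL(2, K)) :=
    fun g => orderOf_eq_orderOf_iff.2 (rho2_pow_eq_one_iff g)
  have h1 : ∀ h ∈ negGrp K, ∃ x : Aff (negGrp K) (ColMod (Fin 2 × Fin 2) K), orderOf x = orderOf h :=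
    fun h hh => (exists_aff_orderOf_right (⟨h, hh⟩ : negGrp K)).imp fun x hx =>
      hx.trans (Subgroup.orderOf_mk h hh)
  have h2 : orderOf (-1 : (Matrix (Fin 2 × Fin 2) (Fin 2 × Fin 2) K)ˣ) = 2 := by
    apply orderOf_eq_prime (by simp)
    intro h
    have := congrArg (fun u : (Matrix (Fin 2 × Fin 2) (Fin 2 × Fin 2) K)ˣ => u.1 (0, 0) (0, 0)) h
    simp at this
    grind
  have h3 : ∀ g : PSL(2, K), ∃ x : Aff (negGrp K) (ColMod (Fin 2 × Fin 2) K), orderOf x = orderOf g := by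
    intro g
    obtain ⟨g, rfl⟩ := QuotientGroup.mk_surjective g
    exact ho g ▸ h1 _ (hH g)
  have h4 : ∀ g : PSL(2, K), Odd (orderOf g) →
      ∃ x : Aff (negGrp K) (ColMod (Fin 2 × Fin 2) K), orderOf x = 2 * orderOf g := by
    intro g hg
    obtain ⟨g, rfl⟩ := QuotientGroup.mk_surjective g
    rw [← ho] at hg ⊢
    have e := (Commute.neg_one_left ((rho2 K 3 1).toHomUnits g)).orderOf_mul_eq_mul_orderOf_of_coprime
      (by rw [h2]; exact hg.coprime_two_left)
    rw [h2] at e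
    rw [← e]
    exact h1 _ (mul_mem hN (hH g))
  have hgcd : Nat.gcd 2 (Fintype.card K - 1) = 2 := by
    rw [hq]; exact Nat.gcd_eq_left ⟨12 * r + 1, by omega⟩
  rw [spec_eq_of_five 6 9 (24 * r + 2) (12 * r + 2) 1]
  · ext d
    simp only [Set.mem_ofPred_eq, Nat.dvd_one]
    constructor
    · rintro (h | h | h | h | rfl) <;> simp [*]
    · tauto
  · intro x
    simp only [orderOf_dvd_iff_pow_eq_one]
    obtain ⟨g, hg⟩ := negGrp_cases x.right.1 x.right.2
    have key : ∀ k, Even k → (QuotientGroup.mk g : PSL(2, K)) ^ k = 1 → x.right ^ k = 1 := by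
      intro k hk h
      apply Subtype.ext
      rw [SubgroupClass.coe_pow]
      rcases hg with hg | hg <;> rw [hg]
      · exact (rho2_pow_eq_one_iff g k).2 h
      · rw [hk.neg_pow]; exact (rho2_pow_eq_one_iff g k).2 h
    by_cases ht : (g 0 0 + g 1 1) ^ 2 = 4
    · have h5 := (rho2_pow_eq_one_iff g 3).2
        ((psl_pow_eq_one_iff g 3).2 (sl2_pow_char_of_trace 3 g ht))
      rcases hg with hg | hg
      · refine Or.inr (Or.inl (aff_pow_mul_eq_one x 3 3 (Subtype.ext ?_) (colMod_char 3 _)))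
        rw [SubgroupClass.coe_pow, hg, h5]; rfl
      · have h6 : x.right.1 ^ 3 = -1 := by rw [hg, Odd.neg_pow (by decide), h5]
        refine Or.inl (aff_pow_eq_one_of_neg x 3 (fun v => ?_) (Subtype.ext ?_))
        · rw [colMod_smul, SubgroupClass.coe_pow, h6]
          exact (neg_mulVec _ _).trans (congrArg _ (one_mulVec _))
        · rw [SubgroupClass.coe_pow, pow_mul', h6]; simp
    · have h5 := sl2_trichotomy' g ht
      rw [hgcd, hq, show (24 * r + 3 - 1) / 2 = 12 * r + 1 by omega,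
        show (24 * r + 3 + 1) / 2 = 12 * r + 2 by omega, ← psl_pow_eq_one_iff,
        ← psl_pow_eq_one_iff] at h5
      by_cases hf : ∀ v : ColMod (Fin 2 × Fin 2) K, x.right • v = v → v = 0
      · rcases h5 with h5 | h5
        · exact Or.inr (Or.inr (Or.inl (aff_pow_eq_one x hf _ (key _ ⟨12 * r + 1, by ring⟩ (by
            rw [show 24 * r + 2 = (12 * r + 1) * 2 by ring, pow_mul, h5, one_pow])))))
        · exact Or.inr (Or.inr (Or.inr (Or.inl (aff_pow_eq_one x hf _
            (key _ ⟨6 * r + 1, by ring⟩ h5)))))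
      · push Not at hf
        obtain ⟨v, hv, hv0⟩ := hf
        have h6 : rho2 K 3 1 (g ^ 2) *ᵥ (v : Fin 2 × Fin 2 → K) = v := by
          have e : x.right ^ 2 • v = v := by rw [sq, mul_smul, hv, hv]
          rw [colMod_smul, SubgroupClass.coe_pow] at e
          rw [map_pow]
          rcases hg with hg | hg <;> rw [hg] at e
          · exact e
          · rw [neg_sq] at e; exact e
        have h7 : (QuotientGroup.mk g : PSL(2, K)) ^ 24 = 1 := by
          by_cases ht2 : ((g ^ 2) 0 0 + (g ^ 2) 1 1) ^ 2 = 4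
          · have := sl2_pow_char_of_trace 3 _ ht2
            rw [← pow_mul, ← psl_pow_eq_one_iff] at this
            rw [show 24 = 2 * 3 * 4 from rfl, pow_mul, this, one_pow]
          · rcases rho2_fixed 3 1 _ ht2 v hv0 h6 with h | h <;>
              rw [← pow_mul, ← psl_pow_eq_one_iff] at h
            · rw [show 24 = 2 * (3 ^ 1 + 1) * 3 from rfl, pow_mul, h, one_pow]
            · rw [show 24 = 2 * (3 ^ 1 - 1) * 6 from rfl, pow_mul, h, one_pow]
        have h8 : (QuotientGroup.mk g : PSL(2, K)) ^ 2 = 1 := by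
          simp only [← orderOf_dvd_iff_pow_eq_one] at h5 h7 ⊢
          rcases h5 with h5 | h5
          · refine (Nat.dvd_add_right (h7.mul_right r)).1 ?_
            exact h5.trans ⟨2, by ring⟩
          · refine (Nat.dvd_add_right (h7.mul_right (3 * r ^ 2 + r))).1 ?_
            exact h5.trans ⟨6 * r + 1, by ring⟩
        exact Or.inl (aff_pow_mul_eq_one x 2 3 (key 2 even_two h8) (colMod_char 3 _))
  · obtain ⟨g, hg⟩ := exists_psl2_orderOf_char (F := K) 3 Nat.prime_three
    exact (h4 g (by rw [hg]; decide)).imp fun x hx => by rw [hx, hg]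
  · apply exists_aff_orderOf_mul ⟨_, hH (sl2Unip K)⟩ 3 _ three_ne_zero
      ((Pi.single (1, 1) 1 : Fin 2 × Fin 2 → K) : ColMod _ K) 3 Nat.prime_three (colMod_char 3 _)
    · intro h
      have h' : (∑ i ∈ Finset.range 3, rho2 K 3 1 (sl2Unip K ^ i)) *ᵥ Pi.single (1, 1) 1 = 0 := by
        simp only [map_pow]
        exact (colMod_norm (⟨_, hH (sl2Unip K)⟩ : negGrp K) _ 3).symm.trans h
      simp only [rho2, kronHom_apply, twist_unip_pow] at h'
      have := congrFun h' (0, 0)
      simp [Finset.sum_range_succ] at this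
      grind
    · rw [Subgroup.orderOf_mk, ho]
      apply orderOf_eq_prime
      · exact (psl_pow_eq_one_iff _ 3).2 (sl2_pow_char_of_trace 3 _ (by simp [sl2Unip]; norm_num))
      · intro h
        exact sl2Unip_not_mem_center K ((QuotientGroup.eq_one_iff _).1 h)
  · obtain ⟨g, hg⟩ := exists_psl2_orderOf_of_dvd (F := K) (24 * r + 2) (by omega)
      (Or.inl (by rw [hq]; rfl))
    rw [Nat.gcd_eq_right ⟨12 * r + 1, by ring⟩, show (24 * r + 2) / 2 = 12 * r + 1 by omega] at hg
    exact (h4 g (by rw [hg]; exact ⟨6 * r, by ring⟩)).imp fun x hx => by rw [hx, hg]; ring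
  · obtain ⟨g, hg⟩ := exists_psl2_orderOf_of_dvd (F := K) (24 * r + 4) (by omega)
      (Or.inr (by rw [hq]))
    rw [Nat.gcd_eq_right ⟨12 * r + 2, by ring⟩, show (24 * r + 4) / 2 = 12 * r + 2 by omega] at hg
    exact hg ▸ h3 g
  · exact ⟨1, orderOf_one⟩

end CfsgH7
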