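import Cfsg.Agent.H7.ReeWord

/-! Diagonalisation of semisimple automorphisms of the cross product. -/

set_option autoImplicit false
set_option linter.unusedSimpArgs false
set_option linter.unnecessarySeqFocus false

namespace CfsgH7.Ree

open Matrix

variable {F : Type*} [Field F]

/-- The cross product as a bilinear map. -/
def crL (F : Type*) [Field F] : (Fin 7 → F) →ₗ[F] (Fin 7 → F) →ₗ[F] (Fin 7 → F) :=
  LinearMap.mk₂ F cr
    (fun x x' y => by ext i; fin_cases i <;> simp [cr] <;> ring)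
    (fun c x y => by ext i; fin_cases i <;> simp [cr] <;> ring)
    (fun x y y' => by ext i; fin_cases i <;> simp [cr] <;> ring)
    (fun c x y => by ext i; fin_cases i <;> simp [cr] <;> ring)

/-- The form as a bilinear map. -/
def bfL (F : Type*) [Field F] : (Fin 7 → F) →ₗ[F] (Fin 7 → F) →ₗ[F] F :=
  LinearMap.mk₂ F bf
    (fun x x' y => by simp [bf]; ring) (fun c x y => by simp [bf]; ring)
    (fun x y y' => by simp [bf]; ring) (fun c x y => by simp [bf]; ring)

theorem crL_apply (x y : Fin 7 → F) : crL F x y = cr x y := rfl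
theorem bfL_apply (x y : Fin 7 → F) : bfL F x y = bf x y := rfl

theorem crL_anti (x y : Fin 7 → F) : crL F y x = -crL F x y := by
  ext i; fin_cases i <;> simp [crL_apply, cr] <;> ring

theorem crL_self (x : Fin 7 → F) : crL F x x = 0 := by
  ext i; fin_cases i <;> simp [crL_apply, cr] <;> ring

theorem bfL_symm (x y : Fin 7 → F) : bfL F x y = bfL F y x := by
  simp [bfL_apply, bf]; ring

theorem bfL_nondeg (x : Fin 7 → F) (h : ∀ y, bfL F x y = 0) : x = 0 := by
  have h0 := h (Pi.single 0 1)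
  have h1 := h (Pi.single 1 1)
  have h2 := h (Pi.single 2 1)
  have h3 := h (Pi.single 3 1)
  have h4 := h (Pi.single 4 1)
  have h5 := h (Pi.single 5 1)
  have h6 := h (Pi.single 6 1)
  simp [bfL_apply, bf] at h0 h1 h2 h3 h4 h5 h6
  ext i; fin_cases i <;> simp [*]

theorem bfL_crL (x y z : Fin 7 → F) : bfL F (crL F x y) z = bfL F x (crL F y z) := by
  simp [bfL_apply, crL_apply, bf, cr]; ring

theorem eigen_induction [IsAlgClosed F] {n : Type*} [Fintype n] [DecidableEq n] (A : Matrix n n F)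
    (N : ℕ) (hN : (N : F) ≠ 0) (hA : A ^ N = 1) (p : (n → F) → Prop) (h0 : p 0)
    (hadd : ∀ x y, p x → p y → p (x + y)) (heig : ∀ (μ : F) x, A *ᵥ x = μ • x → p x) (x : n → F) :
    p x := by
  have h1 : Module.End.IsSemisimple (Matrix.toLin' A) := by
    apply Module.End.isSemisimple_of_squarefree_aeval_eq_zero
      (Polynomial.separable_X_pow_sub_C (1 : F) hN one_ne_zero).squarefree
    rw [map_sub, map_pow, Polynomial.aeval_X, ← Matrix.toLin'_pow, hA, Polynomial.aeval_C,
      Matrix.toLin'_one, map_one]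
    exact sub_self _
  have h2 : x ∈ ⨆ μ, Module.End.eigenspace (Matrix.toLin' A) μ := by
    rw [h1.iSup_eigenspace_eq_top]; trivial
  exact Submodule.iSup_induction _ (motive := p) h2 (fun μ y hy => heig μ y (Module.End.mem_eigenspace_iff.1 hy))
    h0 hadd

variable [CharP F 3]

theorem crL_crL (x y z : Fin 7 → F) : crL F x (crL F y z) + crL F y (crL F x z) =
    bfL F x z • y + bfL F y z • x + bfL F x y • z := by
  ext i; fin_cases i <;> simp [bfL_apply, crL_apply, bf, cr] <;> grind

theorem two_ne_zero3 : (2 : F) ≠ 0 := by grind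

section frame
variable {v : Fin 7 → F}

omit [CharP F 3] in
theorem bfL_skew (x y : Fin 7 → F) : bfL F (crL F v x) y = -bfL F x (crL F v y) := by
  rw [crL_anti x v, map_neg, LinearMap.neg_apply, bfL_crL]

omit [CharP F 3] in
theorem bfL_v_crL (x : Fin 7 → F) : bfL F v (crL F v x) = 0 := by
  rw [← bfL_crL, crL_self, map_zero, LinearMap.zero_apply]

theorem bfL_eq_zero_of_eigen {ε : F} (hε : ε ≠ 0) {x y : Fin 7 → F} (hx : crL F v x = ε • x)
    (hy : crL F v y = ε • y) : bfL F x y = 0 := by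
  have h := bfL_skew (v := v) x y
  rw [hx, hy] at h
  simp only [map_smul, LinearMap.smul_apply, smul_eq_mul] at h
  grind

omit [CharP F 3] in
theorem bfL_v_eq_zero_of_eigen {ε : F} (hε : ε ≠ 0) {x : Fin 7 → F} (hx : crL F v x = ε • x) :
    bfL F v x = 0 := by
  have h := bfL_v_crL (v := v) x
  rw [hx, map_smul, smul_eq_mul] at h
  exact (mul_eq_zero.1 h).resolve_left hε

theorem crL_pos_pos {x y : Fin 7 → F} (hx : crL F v x = (1 : F) • x) (hy : crL F v y = (1 : F) • y) :
    crL F v (crL F x y) = (-1 : F) • crL F x y := by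
  have h := crL_crL v x y
  rw [bfL_v_eq_zero_of_eigen one_ne_zero hx, bfL_v_eq_zero_of_eigen one_ne_zero hy,
    bfL_eq_zero_of_eigen one_ne_zero hx hy, hy] at h
  simp only [one_smul, zero_smul, add_zero] at h
  rw [neg_smul, one_smul]
  exact eq_neg_of_add_eq_zero_left h

theorem crL_pos_neg {x y : Fin 7 → F} (hx : crL F v x = (1 : F) • x)
    (hy : crL F v y = (-1 : F) • y) : crL F x y = -bfL F x y • v := by
  have h1 := crL_crL v x y
  have h2 := crL_crL v y x
  rw [bfL_v_eq_zero_of_eigen one_ne_zero hx, bfL_v_eq_zero_of_eigen (neg_ne_zero.2 one_ne_zero) hy]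
    at h1 h2
  rw [hy] at h1
  rw [hx, one_smul, crL_anti x y, bfL_symm y x] at h2
  simp only [zero_smul, add_zero, zero_add, map_neg, neg_smul, one_smul] at h1 h2
  funext i
  have a1 := congrFun h1 i
  have a2 := congrFun h2 i
  simp only [Pi.add_apply, Pi.neg_apply, Pi.smul_apply, smul_eq_mul] at a1 a2 ⊢
  have h3 : (3 : F) = 0 := by grind
  linear_combination a1 + a2 + (crL F x y i + bfL F x y * v i) * h3

variable (hv : bfL F v v = -1)
include hv

theorem crL_sq (x : Fin 7 → F) : crL F v (crL F v x) = x + bfL F v x • v := by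
  have h := crL_crL v v x
  rw [hv] at h
  funext i
  have a1 := congrFun h i
  simp only [Pi.add_apply, Pi.neg_apply, Pi.smul_apply, smul_eq_mul] at a1 ⊢
  grind

theorem proj_eigen (ε : F) (hε : ε * ε = 1) (x : Fin 7 → F) :
    crL F v (crL F v (crL F v x) + ε • crL F v x) = ε • (crL F v (crL F v x) + ε • crL F v x) := by
  rw [map_add, map_smul, crL_sq hv (crL F v x), bfL_v_crL, zero_smul, add_zero, smul_add, smul_smul,
    hε, one_smul, add_comm]

theorem proj_decomp (x : Fin 7 → F) : x = -(crL F v (crL F v x) + (1 : F) • crL F v x) -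
    (crL F v (crL F v x) + (-1 : F) • crL F v x) - bfL F v x • v := by
  rw [crL_sq hv]
  funext i
  simp only [Pi.add_apply, Pi.neg_apply, Pi.smul_apply, smul_eq_mul, Pi.sub_apply]
  grind

theorem eq_zero_of_orth {ε : F} (hε : ε = 1 ∨ ε = -1) {x : Fin 7 → F} (hx : crL F v x = ε • x)
    (h : ∀ y, crL F v y = (-ε) • y → bfL F x y = 0) : x = 0 := by
  have h0 : ε ≠ 0 := by rcases hε with rfl | rfl <;> simp
  apply bfL_nondeg
  intro y
  have h1 := proj_eigen hv 1 (by simp) y
  have h2 := proj_eigen hv (-1) (by simp) y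
  rw [proj_decomp hv y, map_sub, map_sub, map_neg, map_smul, bfL_symm x v,
    bfL_v_eq_zero_of_eigen h0 hx]
  rcases hε with rfl | rfl
  · rw [bfL_eq_zero_of_eigen h0 hx h1, h _ h2]; simp
  · rw [bfL_eq_zero_of_eigen h0 hx h2, h _ (by rwa [neg_neg])]; simp

theorem exists_triple : ∃ x y z : Fin 7 → F, crL F v x = (1 : F) • x ∧ crL F v y = (1 : F) • y ∧
    crL F v z = (1 : F) • z ∧ bfL F (crL F x y) z ≠ 0 := by
  by_contra hne
  push Not at hne
  have h1 : ∀ x y, crL F v x = (1 : F) • x → crL F v y = (1 : F) • y → crL F x y = 0 := by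
    intro x y hx hy
    exact eq_zero_of_orth hv (Or.inr rfl) (crL_pos_pos hx hy)
      fun z hz => hne x y z hx hy (by rwa [neg_neg] at hz)
  have h2 : ∀ x y z, crL F v x = (1 : F) • x → crL F v y = (1 : F) • y →
      crL F v z = (-1 : F) • z → bfL F x z • y = bfL F y z • x := by
    intro x y z hx hy hz
    have h := crL_crL z x y
    rw [h1 x y hx hy, crL_anti y z, crL_pos_neg hy hz, bfL_eq_zero_of_eigen one_ne_zero hx hy,
      bfL_symm z y, bfL_symm z x] at h
    simp only [map_neg, map_smul, crL_anti v x, hx, map_zero] at h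
    funext i
    have a1 := congrFun h i
    simp only [Pi.add_apply, Pi.neg_apply, Pi.smul_apply, smul_eq_mul, Pi.zero_apply] at a1 ⊢
    have h3 : (3 : F) = 0 := by grind
    linear_combination -a1 - (bfL F y z * x i) * h3
  have h3 : ∃ x z : Fin 7 → F, (∀ y, crL F v y = (1 : F) • y → ∃ c : F, y = c • x) ∧
      ∀ y, crL F v y = (-1 : F) • y → ∃ c : F, y = c • z := by
    by_cases h : ∃ x z, crL F v x = (1 : F) • x ∧ crL F v z = (-1 : F) • z ∧ bfL F x z ≠ 0
    · obtain ⟨x, z, hx, hz, hxz⟩ := h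
      have h4 : ∀ y, crL F v y = (1 : F) • y → ∃ c : F, y = c • x := fun y hy =>
        ⟨(bfL F x z)⁻¹ * bfL F y z, by
          rw [mul_smul, ← h2 x y z hx hy hz, smul_smul, inv_mul_cancel₀ hxz, one_smul]⟩
      refine ⟨x, z, h4, fun y hy => ⟨bfL F x y * (bfL F x z)⁻¹, ?_⟩⟩
      rw [← sub_eq_zero]
      apply eq_zero_of_orth hv (Or.inr rfl)
      · rw [map_sub, map_smul, hy, hz, smul_sub, smul_comm]
      · intro w hw
        obtain ⟨c, rfl⟩ := h4 w (by rwa [neg_neg] at hw)
        simp only [map_smul, map_sub, LinearMap.sub_apply, LinearMap.smul_apply, smul_eq_mul,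
          bfL_symm y x, bfL_symm z x]
        field_simp
        ring
    · push Not at h
      refine ⟨0, 0, fun y hy => ⟨0, ?_⟩, fun y hy => ⟨0, ?_⟩⟩
      · rw [smul_zero]
        exact eq_zero_of_orth hv (Or.inl rfl) hy fun z hz => h y z hy hz
      · rw [smul_zero]
        exact eq_zero_of_orth hv (Or.inr rfl) hy fun z hz => by
          rw [bfL_symm]; exact h z y (by rwa [neg_neg] at hz) hy
  obtain ⟨x, z, hx, hz⟩ := h3
  classical
  have h4 : Submodule.span F (({v, x, z} : Finset (Fin 7 → F)) : Set (Fin 7 → F)) = ⊤ := by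
    rw [eq_top_iff]
    intro y _
    obtain ⟨c, hc⟩ := hx _ (proj_eigen hv 1 (by simp) y)
    obtain ⟨d, hd⟩ := hz _ (proj_eigen hv (-1) (by simp) y)
    rw [proj_decomp hv y, hc, hd]
    refine sub_mem (sub_mem (neg_mem ?_) ?_) ?_ <;>
      exact Submodule.smul_mem _ _ (Submodule.subset_span (by simp))
  have h5 := finrank_span_finset_le_card (R := F) ({v, x, z} : Finset (Fin 7 → F))
  rw [Set.finrank, h4, finrank_top, Module.finrank_fin_fun] at h5
  have h6 : ({v, x, z} : Finset (Fin 7 → F)).card ≤ 3 := Finset.card_le_three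
  omega

end frame

/-- Automorphisms of the cross product. -/
structure IsAut (A : M7 F) : Prop where
  crs : ∀ x y, crL F (A *ᵥ x) (A *ᵥ y) = A *ᵥ crL F x y
  orth : ∀ x y, bfL F (A *ᵥ x) (A *ᵥ y) = bfL F x y
  orth' : Aᵀ * mG F * A = mG F
  det : A.det = 1

theorem IsAut.exists_fixed {A : M7 F} (h : IsAut A) : ∃ x, x ≠ 0 ∧ A *ᵥ x = x := by
  have h1 : (A - 1).det = 0 := by
    have e : Aᵀ * mG F * (A - 1) = -((A - 1)ᵀ * mG F) := by
      rw [mul_sub, h.orth', transpose_sub, transpose_one, sub_mul]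
      simp
    have h2 := congrArg Matrix.det e
    have h3 := congrArg Matrix.det (mG_mul_self (K := F))
    rw [det_mul, det_one] at h3
    rw [det_mul, det_mul, det_neg, det_mul, det_transpose, det_transpose, h.det] at h2
    simp only [Fintype.card_fin] at h2
    grind
  obtain ⟨x, hx, hx0⟩ := Matrix.exists_mulVec_eq_zero_iff.2 h1
  exact ⟨x, hx, by rwa [sub_mulVec, one_mulVec, sub_eq_zero] at hx0⟩

theorem IsAut.exists_fixed_nonsingular [IsAlgClosed F] {A : M7 F} (h : IsAut A) (N : ℕ)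
    (hN : (N : F) ≠ 0) (hA : A ^ N = 1) : ∃ v, bfL F v v = -1 ∧ A *ᵥ v = v := by
  have h1 : ∃ v, bfL F v v ≠ 0 ∧ A *ᵥ v = v := by
    by_contra hne
    push Not at hne
    have h2 : ∀ v, A *ᵥ v = v → bfL F v v = 0 := fun v hv => by
      by_contra h3; exact hne v h3 hv
    obtain ⟨x, hx0, hx⟩ := h.exists_fixed
    apply hx0
    apply bfL_nondeg
    apply eigen_induction A N hN hA (fun y => bfL F x y = 0) (map_zero _)
    · intro y z hy hz
      rw [map_add, hy, hz, add_zero]
    · intro μ y hy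
      by_cases hμ : μ = 1
      · rw [hμ, one_smul] at hy
        have h3 := h2 (x + y) (by rw [mulVec_add, hx, hy])
        simp only [map_add, LinearMap.add_apply, h2 x hx, h2 y hy, bfL_symm y x] at h3
        grind
      · have h3 := h.orth x y
        rw [hx, hy, map_smul, smul_eq_mul] at h3
        grind
  obtain ⟨v, hv, hAv⟩ := h1
  obtain ⟨c, hc⟩ := IsAlgClosed.exists_eq_mul_self (-(bfL F v v)⁻¹)
  refine ⟨c • v, ?_, by rw [mulVec_smul, hAv]⟩
  simp only [map_smul, LinearMap.smul_apply, smul_eq_mul]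
  rw [← mul_assoc, ← hc, neg_mul, inv_mul_cancel₀ hv]

theorem IsAut.exists_diag [IsAlgClosed F] {A : M7 F} (h : IsAut A) (N : ℕ)
    (hN : (N : F) ≠ 0) (hA : A ^ N = 1) : ∃ a b c : F, a * b * c = 1 ∧ ∃ P : M7 F, IsUnit P.det ∧
      A * P = P * diagonal ![1, a, b, c, a⁻¹, b⁻¹, c⁻¹] := by
  obtain ⟨v, hv, hAv⟩ := h.exists_fixed_nonsingular N hN hA
  let π : (Fin 7 → F) →ₗ[F] (Fin 7 → F) := crL F v ∘ₗ crL F v + (1 : F) • crL F v
  have hπ : ∀ x, π x = crL F v (crL F v x) + (1 : F) • crL F v x := fun x => rfl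
  have hπ1 : ∀ x, crL F v (π x) = (1 : F) • π x := fun x => proj_eigen hv 1 (by simp) x
  have hπ2 : ∀ x, crL F v x = (1 : F) • x → π x = -x := fun x hx => by
    rw [hπ, hx, one_smul, hx]
    funext i
    simp only [Pi.add_apply, Pi.neg_apply, Pi.smul_apply, smul_eq_mul]
    have h3 : (3 : F) = 0 := by grind
    linear_combination x i * h3
  have hπ3 : ∀ (μ : F) x, A *ᵥ x = μ • x → A *ᵥ π x = μ • π x := fun μ x hx => by
    have h1 : ∀ y, A *ᵥ crL F v y = crL F v (A *ᵥ y) := fun y => by rw [← h.crs, hAv]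
    rw [← map_smul, hπ, hπ, mulVec_add, mulVec_smul, h1, h1, hx]
  have h1 : ∃ (a b c : F) (x y z : Fin 7 → F), A *ᵥ x = a • x ∧ A *ᵥ y = b • y ∧ A *ᵥ z = c • z ∧
      bfL F (crL F (π x) (π y)) (π z) ≠ 0 := by
    by_contra hne
    push Not at hne
    obtain ⟨x, y, z, hx, hy, hz, hxyz⟩ := exists_triple hv
    apply hxyz
    have h2 : bfL F (crL F (π x) (π y)) (π z) = 0 := by
      refine eigen_induction A N hN hA (fun x => bfL F (crL F (π x) (π y)) (π z) = 0) (by simp)
        (fun _ _ h1 h2 => by simp only [map_add, LinearMap.add_apply, h1, h2, add_zero])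
        (fun a x hx => ?_) x
      refine eigen_induction A N hN hA (fun y => bfL F (crL F (π x) (π y)) (π z) = 0) (by simp)
        (fun _ _ h1 h2 => by simp only [map_add, LinearMap.add_apply, h1, h2, add_zero])
        (fun b y hy => ?_) y
      exact eigen_induction A N hN hA (fun z => bfL F (crL F (π x) (π y)) (π z) = 0) (by simp)
        (fun _ _ h1 h2 => by simp only [map_add, LinearMap.add_apply, h1, h2, add_zero])
        (fun c z hz => hne a b c x y z hx hy hz) z
    simpa [hπ2 x hx, hπ2 y hy, hπ2 z hz] using h2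
  obtain ⟨a, b, c, x0, y0, z0, hx0, hy0, hz0, hne⟩ := h1
  have hx := hπ3 _ _ hx0
  have hy := hπ3 _ _ hy0
  have hz := hπ3 _ _ hz0
  have ex := hπ1 x0
  have ey := hπ1 y0
  have ez := hπ1 z0
  generalize π x0 = x at *
  generalize π y0 = y at *
  generalize π z0 = z at *
  have habc : a * b * c = 1 := by
    have h2 := h.orth (crL F x y) z
    rw [← h.crs, hx, hy, hz] at h2
    simp only [map_smul, LinearMap.smul_apply, smul_eq_mul] at h2
    apply mul_right_cancel₀ hne
    linear_combination h2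
  have ha : a ≠ 0 := by rintro rfl; simp at habc
  have hb : b ≠ 0 := by rintro rfl; simp at habc
  have hc : c ≠ 0 := by rintro rfl; simp at habc
  let w : Fin 7 → Fin 7 → F := ![v, x, y, z, crL F y z, crL F z x, crL F x y]
  refine ⟨a, b, c, habc, (Matrix.of w)ᵀ, ?_, ?_⟩
  · rw [isUnit_iff_ne_zero, det_transpose]
    intro hdet
    obtain ⟨u, hu0, hu⟩ := Matrix.exists_vecMul_eq_zero_iff.2 hdet
    have hu' : u 0 • v + u 1 • x + u 2 • y + u 3 • z + u 4 • crL F y z + u 5 • crL F z x +
        u 6 • crL F x y = 0 := by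
      rw [← hu, Matrix.vecMul_eq_sum, Fin.sum_univ_seven]
      rfl
    have p1 : ∀ s t, crL F v s = (1 : F) • s → crL F v t = (1 : F) • t → bfL F s t = 0 :=
      fun s t hs ht => bfL_eq_zero_of_eigen one_ne_zero hs ht
    have p2 : ∀ s t, crL F v s = (-1 : F) • s → crL F v t = (-1 : F) • t → bfL F s t = 0 :=
      fun s t hs ht => bfL_eq_zero_of_eigen (neg_ne_zero.2 one_ne_zero) hs ht
    have p3 : ∀ s, crL F v s = (1 : F) • s → bfL F v s = 0 :=
      fun s hs => bfL_v_eq_zero_of_eigen one_ne_zero hs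
    have p4 : ∀ s, crL F v s = (-1 : F) • s → bfL F v s = 0 :=
      fun s hs => bfL_v_eq_zero_of_eigen (neg_ne_zero.2 one_ne_zero) hs
    have p5 : ∀ s t, bfL F (crL F s t) t = 0 := fun s t => by rw [bfL_crL, crL_self, map_zero]
    have p6 : ∀ s t, bfL F (crL F s t) s = 0 := fun s t => by
      rw [crL_anti t s, map_neg, LinearMap.neg_apply, p5, neg_zero]
    have p7 : bfL F (crL F y z) x = bfL F (crL F x y) z := by rw [bfL_symm, bfL_crL]
    have p8 : bfL F (crL F z x) y = bfL F (crL F x y) z := by rw [bfL_crL, bfL_symm]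
    have f1 := crL_pos_pos ey ez
    have f2 := crL_pos_pos ez ex
    have f3 := crL_pos_pos ex ey
    have g : ∀ t, u 0 * bfL F v t + u 1 * bfL F x t + u 2 * bfL F y t + u 3 * bfL F z t +
        u 4 * bfL F (crL F y z) t + u 5 * bfL F (crL F z x) t + u 6 * bfL F (crL F x y) t = 0 := by
      intro t
      simpa using congrArg (fun s => bfL F s t) hu'
    have g0 := g v
    have g1 := g x
    have g2 := g y
    have g3 := g z
    have g4 := g (crL F y z)
    have g5 := g (crL F z x)
    have g6 := g (crL F x y)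
    simp only [bfL_symm _ v, hv, p3 _ ex, p3 _ ey, p3 _ ez, p4 _ f1, p4 _ f2, p4 _ f3] at g0
    simp only [p3 _ ex, p3 _ ey, p3 _ ez, p1 _ _ ex ex, p1 _ _ ex ey, p1 _ _ ex ez, p1 _ _ ey ex,
      p1 _ _ ey ey, p1 _ _ ey ez, p1 _ _ ez ex, p1 _ _ ez ey, p1 _ _ ez ez, p5, p6, p7, p8,
      mul_zero, add_zero, zero_add, mul_eq_zero, hne, or_false] at g1 g2 g3
    simp only [g1, g2, g3, zero_mul, add_zero, p4 _ f1, p4 _ f2, p4 _ f3, bfL_symm x, bfL_symm y,
      bfL_symm z, p5, p6, p7, p8, mul_zero, zero_add, mul_eq_zero, hne, or_false] at g4 g5 g6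
    simp only [mul_zero, add_zero, mul_neg, mul_one, neg_eq_zero] at g0
    apply hu0
    funext i
    fin_cases i
    exacts [g0, g4, g5, g6, g1, g2, g3]
  · have e : ∀ i, A *ᵥ w i = ![1, a, b, c, a⁻¹, b⁻¹, c⁻¹] i • w i := by
      have k : ∀ (s t : Fin 7 → F) (α β γ : F), A *ᵥ s = α • s → A *ᵥ t = β • t → α * β = γ →
          A *ᵥ crL F s t = γ • crL F s t := by
        intro s t α β γ hs ht e
        rw [← h.crs, hs, ht, ← e]
        simp only [map_smul, LinearMap.smul_apply, smul_smul, mul_comm]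
      intro i
      fin_cases i
      · simpa [w] using hAv
      · exact hx
      · exact hy
      · exact hz
      · exact k _ _ _ _ a⁻¹ hy hz (by field_simp; linear_combination habc)
      · exact k _ _ _ _ b⁻¹ hz hx (by field_simp; linear_combination habc)
      · exact k _ _ _ _ c⁻¹ hx hy (by field_simp; linear_combination habc)
    ext i j
    rw [mul_diagonal, mul_comm]
    exact congrFun (e j) i

end CfsgH7.Ree
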