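import Cfsg.Agent.H7.ReeSet

/-! Explicit elements of the small Ree groups; the trace is surjective. -/

set_option autoImplicit false
set_option maxRecDepth 100000

namespace CfsgH7.Ree

open Matrix Cfsg.Lie CfsgH7.NM3

variable {K : Type*} [Field K]

/-- Seven by seven matrix of a table. -/
abbrev c7 (K : Type*) [Field K] (A : NM) : M7 K := cm K (Fin 7) (Fin 7) A

/-- Table of a root element with parameter one. -/
noncomputable def nY (r : ℕ) : NM := addN (addN oneN (nE r 1)) (nE r 2)

/-- Table of a root element with parameter minus one. -/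
noncomputable def nZ (r : ℕ) : NM := addN (addN oneN (addN (nE r 1) (nE r 1))) (nE r 2)

theorem Y_one (r : ℕ) : Y r (1 : K) = c7 K (nY r) := by
  simp only [Y, nY, ← cm_add, ← cm_one, one_smul, one_pow, mE]

variable [CharP K 3]

theorem Y_neg_one (r : ℕ) : Y r (-1 : K) = c7 K (nZ r) := by
  have h : (-1 : K) = 1 + 1 := by grind
  simp only [Y, nZ, ← cm_add, ← cm_one, mE, neg_one_sq, one_smul]
  rw [h, add_smul, one_smul]

theorem c7_ne_one (A : NM) (i j : Fin 7) (h : A i j % 3 ≠ oneN i j % 3) : c7 K A ≠ 1 := by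
  intro h1
  rw [cm_one] at h1
  exact h ((CharP.natCast_eq_natCast K 3).1 (congrFun (congrFun h1 i) j))

theorem trace_c7 (A : NM) (c : ℕ) (h : sumN 7 (fun i => A i i) % 3 = c) : (c7 K A).trace = c := by
  rw [← h, ← CharP.cast_eq_mod K 3, sumN_eq, Nat.cast_sum]
  exact Enc.sum_eq (ι := Fin 7) fun i => (A i i : K)

variable [Fintype K] {m : ℕ}

theorem exists_order_nine (hK : Fintype.card K = 3 ^ (2 * m + 1)) :
    ∃ A : M7 K, InR m A ∧ orderOf A = 9 := by
  refine ⟨_, inR_U hK 1 0 0, ?_⟩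
  have h0 : 3 ^ m ≠ 0 := by positivity
  have h1 : YU (3 ^ m) (1 : K) 0 0 = c7 K (cd 0x1000900190005012508951a05 7) := by
    simp only [YU, one_pow, zero_pow h0, add_zero, Y_zero, mul_one, Y_one, cm_mul]
    exact cm_eq (by decide +kernel)
  have h2 : YU (3 ^ m) (1 : K) 0 0 ^ 3 = c7 K (cd 0x1000100010041008108412441 7) := by
    simp only [h1, pow_succ, pow_zero, one_mul, cm_mul]
    exact cm_eq (by decide +kernel)
  apply orderOf_eq_prime_pow (p := 3) (n := 1)
  · rw [pow_one, h2]
    exact c7_ne_one _ 0 3 (by decide +kernel)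
  · rw [show 3 ^ (1 + 1) = 3 * 3 from rfl, pow_mul, h2]
    simp only [pow_succ, pow_zero, one_mul, cm_mul]
    rw [cm_one]
    exact cm_eq (by decide +kernel)

theorem exists_order_six (hK : Fintype.card K = 3 ^ (2 * m + 1)) :
    ∃ A : M7 K, InR m A ∧ orderOf A = 6 := by
  refine ⟨_, (inR_U hK 0 0 1).mul (inR_V hK 0 1 0), ?_⟩
  have h0 : 3 ^ m ≠ 0 := by positivity
  have h1 : YU (3 ^ m) (0 : K) 0 1 * YV (3 ^ m) (0 : K) 1 0 =
      c7 K (cd 0x1222112010185544594496952 7) := by
    simp only [YU, YV, one_pow, zero_pow h0, add_zero, Y_zero, mul_one, Y_one, pow_succ, mul_zero,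
      zero_add, neg_zero, one_mul, Y_neg_one, cm_mul]
    exact cm_eq (by decide +kernel)
  rw [h1]
  have h2 : c7 K (cd 0x1222112010185544594496952 7) ^ 3 = c7 K (cd 0x19aa425914661948114909495 7) := by
    simp only [pow_succ, pow_zero, one_mul, cm_mul]
    exact cm_eq (by decide +kernel)
  apply orderOf_eq_of_pow_and_pow_div_prime (by norm_num)
  · rw [show 6 = 3 * 2 from rfl, pow_mul, h2, sq, cm_mul, cm_one]
    exact cm_eq (by decide +kernel)
  · intro p hp hp6
    have h3 : p = 2 ∨ p = 3 := by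
      have := Nat.le_of_dvd (by norm_num) hp6
      interval_cases p <;> simp_all (config := {decide := true})
    rcases h3 with rfl | rfl
    · rw [show 6 / 2 = 3 from rfl, h2]
      exact c7_ne_one _ 0 1 (by decide +kernel)
    · rw [show 6 / 3 = 2 from rfl, sq, cm_mul]
      exact c7_ne_one _ 0 0 (by decide +kernel)

omit [Fintype K] in
theorem trace_gamma (A : NM) (c : ℕ) (h0 : sumN 7 (fun i => A i i) % 3 = 2)
    (h1 : sumN 7 (fun i => mulN 7 (nE 9 1) A i i) % 3 = 0)
    (h2 : sumN 7 (fun i => mulN 7 (nE 9 2) A i i) % 3 = c)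
    (h3 : sumN 7 (fun i => mulN 7 (nE 11 1) A i i) % 3 = 0) (a b : K) :
    (Y 9 a * Y 11 b * c7 K A).trace = 2 + c * a ^ 2 := by
  have e1 : mE K 11 2 = 0 := by rw [mE, cm_zero]; exact cm_eq (by decide +kernel)
  have e2 : mE K 9 1 * mE K 11 1 = 0 := by
    rw [mE, mE, cm_mul, cm_zero]; exact cm_eq (by decide +kernel)
  have e3 : mE K 9 2 * mE K 11 1 = 0 := by
    rw [mE, mE, cm_mul, cm_zero]; exact cm_eq (by decide +kernel)
  have t0 := trace_c7 (K := K) _ _ h0
  have t1 : (mE K 9 1 * c7 K A).trace = 0 := by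
    rw [mE, cm_mul]; exact (trace_c7 _ _ h1).trans Nat.cast_zero
  have t2 : (mE K 9 2 * c7 K A).trace = c := by rw [mE, cm_mul]; exact trace_c7 _ _ h2
  have t3 : (mE K 11 1 * c7 K A).trace = 0 := by
    rw [mE, cm_mul]; exact (trace_c7 _ _ h3).trans Nat.cast_zero
  simp only [Y, e1, smul_zero, add_zero, mul_add, add_mul, mul_one, one_mul, smul_mul_assoc,
    mul_smul_comm, e2, e3, trace_add, trace_smul, t0, t1, t2, t3, smul_eq_mul]
  push_cast
  ring

omit [CharP K 3] in
theorem isSquare_or_neg (hK : Fintype.card K = 3 ^ (2 * m + 1)) (x : K) :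
    IsSquare x ∨ IsSquare (-x) := by
  classical
  have h4 : Fintype.card K % 4 = 3 := by
    rw [hK, pow_succ, pow_mul, Nat.mul_mod, Nat.pow_mod]; simp
  have h1 : quadraticChar K (-1) = -1 :=
    quadraticChar_neg_one_iff_not_isSquare.2 fun h => FiniteField.isSquare_neg_one_iff.1 h h4
  by_cases hx : x = 0
  · left; rw [hx]; exact IsSquare.zero
  by_contra h
  push Not at h
  have a1 := quadraticChar_neg_one_iff_not_isSquare.2 h.1
  have a2 := quadraticChar_neg_one_iff_not_isSquare.2 h.2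
  rw [← neg_one_mul, map_mul, h1, a1] at a2
  norm_num at a2

theorem exists_trace_eq (hK : Fintype.card K = 3 ^ (2 * m + 1)) (τ : K) :
    ∃ A : M7 K, InR m A ∧ A.trace = τ := by
  have h0 : 3 ^ m ≠ 0 := by positivity
  have hodd : Odd (3 ^ m) := Odd.pow (by decide)
  have hγ : ∀ a : K, ∃ b, InR m (Y 9 a * Y 11 b) := by
    intro a
    refine ⟨iterateFrobenius K 3 (m + 1) a, ?_⟩
    have h := inR_U hK 0 0 (iterateFrobenius K 3 (m + 1) a)
    simp only [YU, zero_pow h0, Y_zero, mul_one, pow_succ, mul_zero, zero_add, one_mul, ← map_pow,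
      frob_pow hK] at h
    exact h
  have g0 : InR m (c7 K (cd 0x14291588161a1985485a0a655 7)) := by
    have h := (inR_U hK 0 0 1).mul (inR_V hK 1 0 0)
    have e : YV (3 ^ m) (1 : K) 0 0 = c7 K (cd 0x1429158816101400190018001 7) := by
      simp only [YV, one_pow, zero_pow h0, add_zero, Y_zero, mul_one, neg_zero, Y_neg_one, cm_mul]
      exact cm_eq (by decide +kernel)
    rw [e] at h
    convert h using 1
    simp only [YU, one_pow, zero_pow h0, add_zero, Y_zero, mul_one, Y_one, pow_succ, mul_zero,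
      zero_add, one_mul, cm_mul]
    exact cm_eq (by decide +kernel)
  have g1 : InR m (c7 K (cd 0x1112122121110111212212111 7)) := by
    have h := (inR_U hK 0 1 0).mul (inR_V hK 0 (-1) 0)
    convert h using 1
    simp only [YU, YV, one_pow, zero_pow h0, add_zero, Y_zero, mul_one, Y_one, pow_succ, mul_zero,
      zero_add, neg_zero, one_mul, hodd.neg_one_pow, neg_neg, cm_mul]
    exact cm_eq (by decide +kernel)
  rcases isSquare_or_neg hK (τ - 2) with ⟨a, ha⟩ | ⟨a, ha⟩
  · obtain ⟨b, hb⟩ := hγ a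
    refine ⟨_, hb.mul g1, ?_⟩
    rw [trace_gamma _ 1 (by decide +kernel) (by decide +kernel) (by decide +kernel)
      (by decide +kernel)]
    push_cast
    linear_combination -ha
  · obtain ⟨b, hb⟩ := hγ a
    refine ⟨_, hb.mul g0, ?_⟩
    rw [trace_gamma _ 2 (by decide +kernel) (by decide +kernel) (by decide +kernel)
      (by decide +kernel)]
    have h3 : (3 : K) = 0 := by grind
    push_cast
    linear_combination ha + a ^ 2 * h3

end CfsgH7.Ree
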