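import Cfsg.Agent.H7.ReeData

/-! The seven-dimensional module of `G₂` in characteristic three: invariants. -/

set_option autoImplicit false

namespace CfsgH7.Ree

open Matrix Cfsg.Lie CfsgH7.NM3
open scoped Kronecker

/-- Seven by seven matrices. -/
abbrev M7 (K : Type*) := Matrix (Fin 7) (Fin 7) K

/-- Index set of the tensor square. -/
abbrev F77 := Fin 7 × Fin 7

section defs
variable (K : Type*) [Field K]

/-- Coefficient matrices on the seven-dimensional module. -/
def mE (r k : ℕ) : M7 K := cm K (Fin 7) (Fin 7) (nE r k)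
/-- Coefficient matrices on the adjoint module. -/
def mC (r k : ℕ) : Matrix LI LI K := cm K LI LI (nC r k)
/-- The adjoint module inside the tensor square. -/
def mD : Matrix F77 LI K := cm K F77 LI nD
/-- The cross product. -/
def mB : Matrix (Fin 7) F77 K := cm K (Fin 7) F77 nB
/-- The inclusion. -/
def mI : Matrix LI (Fin 7) K := cm K LI (Fin 7) nI
/-- The projection. -/
def mQ : Matrix (Fin 7) LI K := cm K (Fin 7) LI nQ
/-- The Gram matrix. -/
def mG : M7 K := cm K (Fin 7) (Fin 7) nG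

variable {K}

/-- Root elements on the seven-dimensional module. -/
def Y (r : ℕ) (t : K) : M7 K := 1 + t • mE K r 1 + t ^ 2 • mE K r 2

/-- Root elements on the adjoint module. -/
def X (r : ℕ) (t : K) : Matrix LI LI K := chevG2.x K r t

/-- A matrix on the adjoint module with its actions on the ideal and on the quotient. -/
structure Good (g : Matrix LI LI K) (A Z : M7 K) : Prop where
  incl : g * mI K = mI K * A
  quot : mQ K * g = Z * mQ K
  adj : A ⊗ₖ A * mD K = mD K * g
  crs : mB K * A ⊗ₖ A = A * mB K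
  orth : Aᵀ * mG K * A = mG K
  det : A.det = 1

theorem Good.one : Good (1 : Matrix LI LI K) 1 1 :=
  ⟨by simp, by simp, by simp, by simp, by simp, by simp⟩

theorem Good.mul {g g' : Matrix LI LI K} {A A' Z Z' : M7 K} (h : Good g A Z) (h' : Good g' A' Z') :
    Good (g * g') (A * A') (Z * Z') := by
  refine ⟨?_, ?_, ?_, ?_, ?_, ?_⟩
  · rw [Matrix.mul_assoc, h'.incl, ← Matrix.mul_assoc, h.incl, Matrix.mul_assoc]
  · rw [← Matrix.mul_assoc, h.quot, Matrix.mul_assoc, h'.quot, Matrix.mul_assoc]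
  · rw [mul_kronecker_mul, Matrix.mul_assoc, h'.adj, ← Matrix.mul_assoc, h.adj, Matrix.mul_assoc]
  · rw [mul_kronecker_mul, ← Matrix.mul_assoc, h.crs, Matrix.mul_assoc, h'.crs, Matrix.mul_assoc]
  · rw [transpose_mul]
    calc A'ᵀ * Aᵀ * mG K * (A * A') = A'ᵀ * (Aᵀ * mG K * A) * A' := by simp only [Matrix.mul_assoc]
      _ = _ := by rw [h.orth, h'.orth]
  · rw [det_mul, h.det, h'.det, mul_one]

theorem Good.pow {g : Matrix LI LI K} {A Z : M7 K} (h : Good g A Z) (n : ℕ) :
    Good (g ^ n) (A ^ n) (Z ^ n) := by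
  induction n with
  | zero => simpa using Good.one
  | succ n ih => simpa only [pow_succ] using ih.mul h

theorem Y_map {L : Type*} [Field L] (φ : K →+* L) (r : ℕ) (t : K) : (Y r t).map φ = Y r (φ t) := by
  ext i j
  simp [Y, mE, cm_apply, Matrix.one_apply, apply_ite φ]

theorem Y_zero (r : ℕ) : Y r (0 : K) = 1 := by simp [Y]

theorem Y_kron (r : ℕ) (t : K) : Y r t ⊗ₖ Y r t = 1 + t • cm K F77 F77 (nK1 r) +
    t ^ 2 • cm K F77 F77 (nK2 r) + t ^ 3 • cm K F77 F77 (nK3 r) + t ^ 4 • cm K F77 F77 (nK4 r) := by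
  simp only [nK1, nK2, nK3, nK4, ← cm_add, ← cm_kron, ← cm_one, Y, mE, add_kronecker, kronecker_add,
    smul_kronecker, kronecker_smul, one_kronecker_one]
  module

end defs

variable {K : Type*} [Field K] [CharP K 3]

theorem X_eq (r : ℕ) (hr : r < 12) (t : K) :
    X r t = 1 + t • mC K r 1 + t ^ 2 • mC K r 2 + t ^ 3 • mC K r 3 := by
  have h0 : (1 : Matrix LI LI K) = mC K r 0 :=
    cm_one.trans (cm_eq (ι := LI) (κ := LI) (of_allN chk_C0 r hr)).symm
  have h1 : ∀ (k : Fin 4) (i j : LI), (CfsgH9.xc chevG2 ⟨r, hr⟩ k i j : K) = mC K r k i j := by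
    intro k i j
    rw [CharP.intCast_eq_intCast_mod K 3]
    erw [xc_eq ⟨r, hr⟩ k i j]
    rw [Int.cast_natCast]
    rfl
  ext i j
  have h2 : X r t i j = chevG2.xMat K ⟨r, hr⟩ t i j := by
    rw [X, ChevalleyDatum.x, dif_pos (show r < chevG2.nroots from hr)]
  refine h2.trans ((CfsgH9.xMat_eq chevG2 ⟨r, hr⟩ (chain_size _) t i j).trans ?_)
  rw [h0]
  have a0 : (CfsgH9.xc chevG2 ⟨r, hr⟩ 0 i j : K) = mC K r 0 i j := h1 0 i j
  have a1 : (CfsgH9.xc chevG2 ⟨r, hr⟩ 1 i j : K) = mC K r 1 i j := h1 1 i j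
  have a2 : (CfsgH9.xc chevG2 ⟨r, hr⟩ 2 i j : K) = mC K r 2 i j := h1 2 i j
  have a3 : (CfsgH9.xc chevG2 ⟨r, hr⟩ 3 i j : K) = mC K r 3 i j := h1 3 i j
  simp only [Matrix.add_apply, Matrix.smul_apply, smul_eq_mul]
  linear_combination a0 + t * a1 + t ^ 2 * a2 + t ^ 3 * a3

theorem mG_mul_self : mG K * mG K = 1 := by
  rw [mG, cm_mul, cm_one]
  exact cm_eq chk_const.2.2.2.2.2.2

theorem Y_add (r : ℕ) (hr : r < 12) (s t : K) : Y r s * Y r t = Y r (s + t) := by
  have h1 : mE K r 1 * mE K r 1 = mE K r 2 + mE K r 2 := by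
    rw [mE, mE, cm_mul, cm_add]; exact cm_eq (of_allN chk_E11 r hr)
  have h2 : mE K r 1 * mE K r 2 = 0 := by
    rw [mE, mE, cm_mul, cm_zero]; exact cm_eq (of_allN chk_E12 r hr)
  have h3 : mE K r 2 * mE K r 1 = 0 := by
    rw [mE, mE, cm_mul, cm_zero]; exact cm_eq (of_allN chk_E21 r hr)
  have h4 : mE K r 2 * mE K r 2 = 0 := by
    rw [mE, cm_mul, cm_zero]; exact cm_eq (of_allN chk_E22 r hr)
  simp only [Y, mul_add, add_mul, smul_mul_assoc, mul_smul_comm, h1, h2, h3, h4, mul_one, one_mul]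
  module

theorem Y_orth (r : ℕ) (hr : r < 12) (t : K) : (Y r t)ᵀ * mG K * Y r t = mG K := by
  have h1 : (mE K r 1)ᵀ * mG K + mG K * mE K r 1 = 0 := by
    simp only [mE, mG, cm_transpose, cm_mul, cm_add]
    rw [cm_zero]; exact cm_eq (of_allN chk_G1 r hr)
  have h2 : (mE K r 2)ᵀ * mG K + mG K * mE K r 2 + (mE K r 1)ᵀ * (mG K * mE K r 1) = 0 := by
    simp only [mE, mG, cm_transpose, cm_mul, cm_add]
    rw [cm_zero]; exact cm_eq (of_allN chk_G2 r hr)
  have h3 : (mE K r 2)ᵀ * (mG K * mE K r 1) + (mE K r 1)ᵀ * (mG K * mE K r 2) = 0 := by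
    simp only [mE, mG, cm_transpose, cm_mul, cm_add]
    rw [cm_zero]; exact cm_eq (of_allN chk_G3 r hr)
  have h4 : (mE K r 2)ᵀ * (mG K * mE K r 2) = 0 := by
    simp only [mE, mG, cm_transpose, cm_mul]
    rw [cm_zero]; exact cm_eq (of_allN chk_G4 r hr)
  simp only [Y, mul_add, add_mul, smul_mul_assoc, mul_smul_comm, mul_one, one_mul, transpose_add,
    transpose_smul, transpose_one, mul_assoc]
  linear_combination (norm := module) t • h1 + t ^ 2 • h2 + t ^ 3 • h3 + t ^ 4 • h4

theorem det_sq_of_orth {A : M7 K} (h : Aᵀ * mG K * A = mG K) : A.det * A.det = 1 := by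
  have h1 := congrArg det h
  have h2 := congrArg det (mG_mul_self (K := K))
  rw [det_mul, det_mul, det_transpose] at h1
  rw [det_mul, det_one] at h2
  linear_combination (mG K).det * h1 + (1 - A.det * A.det) * h2

theorem good_root (r : ℕ) (hr : r < 12) (t : K) (Z : M7 K) (hZ : mQ K * X r t = Z * mQ K) :
    Good (X r t) (Y r t) Z := by
  refine ⟨?_, hZ, ?_, ?_, Y_orth r hr t, ?_⟩
  · have h1 : mC K r 1 * mI K = mI K * mE K r 1 := by
      simp only [mC, mI, mE, cm_mul]; exact cm_eq (of_allN chk_I1 r hr)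
    have h2 : mC K r 2 * mI K = mI K * mE K r 2 := by
      simp only [mC, mI, mE, cm_mul]; exact cm_eq (of_allN chk_I2 r hr)
    have h3 : mC K r 3 * mI K = 0 := by
      simp only [mC, mI, cm_mul]; rw [cm_zero]; exact cm_eq (of_allN chk_I3 r hr)
    simp [X_eq r hr, Y, Matrix.add_mul, Matrix.mul_add, h1, h2, h3]
  · have h1 : cm K F77 F77 (nK1 r) * mD K = mD K * mC K r 1 := by
      simp only [mC, mD, cm_mul]; exact cm_eq (of_allN chk_D1 r hr)
    have h2 : cm K F77 F77 (nK2 r) * mD K = mD K * mC K r 2 := by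
      simp only [mC, mD, cm_mul]; exact cm_eq (of_allN chk_D2 r hr)
    have h3 : cm K F77 F77 (nK3 r) * mD K = mD K * mC K r 3 := by
      simp only [mC, mD, cm_mul]; exact cm_eq (of_allN chk_D3 r hr)
    have h4 : cm K F77 F77 (nK4 r) * mD K = 0 := by
      simp only [mD, cm_mul]; rw [cm_zero]; exact cm_eq (of_allN chk_D4 r hr)
    simp [X_eq r hr, Y_kron, Matrix.add_mul, Matrix.mul_add, h1, h2, h3, h4]
  · have h1 : mB K * cm K F77 F77 (nK1 r) = mE K r 1 * mB K := by
      apply transpose_injective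
      rw [transpose_mul, transpose_mul]
      simp only [mE, mB, cm_transpose, cm_mul]; exact cm_eq (of_allN chk_B1 r hr)
    have h2 : mB K * cm K F77 F77 (nK2 r) = mE K r 2 * mB K := by
      apply transpose_injective
      rw [transpose_mul, transpose_mul]
      simp only [mE, mB, cm_transpose, cm_mul]; exact cm_eq (of_allN chk_B2 r hr)
    have h3 : mB K * cm K F77 F77 (nK3 r) = 0 := by
      apply transpose_injective
      rw [transpose_mul, transpose_zero]
      simp only [mB, cm_transpose, cm_mul]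
      rw [cm_zero]; exact cm_eq (of_allN chk_B3 r hr)
    have h4 : mB K * cm K F77 F77 (nK4 r) = 0 := by
      apply transpose_injective
      rw [transpose_mul, transpose_zero]
      simp only [mB, cm_transpose, cm_mul]
      rw [cm_zero]; exact cm_eq (of_allN chk_B4 r hr)
    rw [Y_kron]
    simp [Y, Matrix.add_mul, Matrix.mul_add, h1, h2, h3, h4]
  · have h1 : -t + -t = t := by grind
    rw [← h1, ← Y_add r hr, det_mul]
    exact det_sq_of_orth (Y_orth r hr _)

theorem good_short (r : ℕ) (hr : r ∈ [2, 3, 4, 7, 8, 9]) (t : K) :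
    Good (X r t) (Y r t) (Y (bar r) (t ^ 3)) := by
  have hr' : r < 12 := by simp at hr; omega
  apply good_root r hr'
  obtain ⟨a1, a2, a3, a4⟩ := chk_Qs r hr
  have h1 : mQ K * mC K r 1 = 0 := by
    simp only [mC, mQ, cm_mul]; rw [cm_zero]; exact cm_eq a1
  have h2 : mQ K * mC K r 2 = 0 := by
    simp only [mC, mQ, cm_mul]; rw [cm_zero]; exact cm_eq a2
  have h3 : mQ K * mC K r 3 = mE K (bar r) 1 * mQ K := by
    simp only [mC, mQ, mE, cm_mul]; exact cm_eq a3
  have h4 : mE K (bar r) 2 = 0 := by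
    rw [mE, cm_zero]; exact cm_eq a4
  simp [X_eq r hr', Y, Matrix.add_mul, Matrix.mul_add, h1, h2, h3, h4]

theorem good_long (r : ℕ) (hr : r ∈ [0, 1, 5, 6, 10, 11]) (t : K) :
    Good (X r t) (Y r t) (Y (bar r) t) := by
  have hr' : r < 12 := by simp at hr; omega
  apply good_root r hr'
  obtain ⟨a1, a2, a3⟩ := chk_Ql r hr
  have h1 : mQ K * mC K r 1 = mE K (bar r) 1 * mQ K := by
    simp only [mC, mQ, mE, cm_mul]; exact cm_eq a1
  have h2 : mQ K * mC K r 2 = mE K (bar r) 2 * mQ K := by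
    simp only [mC, mQ, mE, cm_mul]; exact cm_eq a2
  have h3 : mQ K * mC K r 3 = 0 := by
    simp only [mC, mQ, cm_mul]; rw [cm_zero]; exact cm_eq a3
  simp [X_eq r hr', Y, Matrix.add_mul, Matrix.mul_add, h1, h2, h3]

theorem Good.eq_one {g : Matrix LI LI K} {Z : M7 K} (h : Good g 1 Z) : g = 1 := by
  have h1 : cm K LI F77 nP * mD K = 1 + 1 := by
    rw [mD, cm_mul, cm_one, cm_add]; exact cm_eq chk_const.1
  have h2 := congrArg (cm K LI F77 nP * ·) h.adj
  simp only [one_kronecker_one, Matrix.one_mul, ← Matrix.mul_assoc, h1, add_mul, one_mul] at h2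
  ext i j
  have h3 := congrFun (congrFun h2 i) j
  simp only [Matrix.add_apply] at h3
  grind

theorem Good.left_eq_one {A Z : M7 K} (h : Good 1 A Z) : A = 1 := by
  have h1 : (mI K)ᵀ * mI K = 1 := by
    rw [mI, cm_transpose, cm_mul, cm_one]; exact cm_eq chk_const.2.2.2.1
  have h2 := congrArg ((mI K)ᵀ * ·) h.incl
  simp only [Matrix.one_mul, ← Matrix.mul_assoc, h1] at h2
  exact h2.symm

theorem Good.pow_eq_one_iff {g : Matrix LI LI K} {A Z : M7 K} (h : Good g A Z) (n : ℕ) :
    g ^ n = 1 ↔ A ^ n = 1 := by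
  have h1 := h.pow n
  constructor
  · intro h2; rw [h2] at h1; exact h1.left_eq_one
  · intro h2; rw [h2] at h1; exact h1.eq_one

omit [CharP K 3] in
theorem trace_kron_swap (A : M7 K) : (A ⊗ₖ A * cm K F77 F77 nT).trace = (A * A).trace := by
  have h1 : ∀ i j : F77, cm K F77 F77 nT i j = if i = j.swap then 1 else 0 := by
    have h2 : ∀ i j : F77, nT (Enc.e i) (Enc.e j) = if i = j.swap then 1 else 0 := by
      decide +kernel
    intro i j
    rw [cm_apply, h2]
    split_ifs <;> simp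
  simp only [Matrix.trace, Matrix.diag, Matrix.mul_apply, h1, mul_ite, mul_one, mul_zero,
    Finset.sum_ite_eq', Finset.mem_univ, if_true]
  rw [Fintype.sum_prod_type]
  rfl

theorem Good.trace_eq {g : Matrix LI LI K} {A Z : M7 K} (h : Good g A Z) :
    Z.trace = A.trace + (A * A).trace - A.trace ^ 2 := by
  obtain ⟨a1, a2, a3, a4, a5, a6, -⟩ := chk_const
  have h1 : cm K LI F77 nP * mD K = 1 + 1 := by
    rw [mD, cm_mul, cm_one, cm_add]; exact cm_eq a1
  have h2 : mB K * cm K F77 (Fin 7) nS = 1 + 1 := by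
    rw [mB, cm_mul, cm_one, cm_add]; exact cm_eq a2
  have h3 : mD K * cm K LI F77 nP + cm K F77 (Fin 7) nS * mB K + cm K F77 F77 nT = 1 := by
    rw [mB, mD, cm_mul, cm_mul, cm_one, cm_add, cm_add]; exact cm_eq a3
  have h4 : (mI K)ᵀ * mI K = 1 := by
    rw [mI, cm_transpose, cm_mul, cm_one]; exact cm_eq a4
  have h5 : mQ K * (mQ K)ᵀ = 1 := by
    rw [mQ, cm_transpose, cm_mul, cm_one]; exact cm_eq a5
  have h6 : mI K * (mI K)ᵀ + (mQ K)ᵀ * mQ K = 1 := by
    rw [mI, mQ, cm_transpose, cm_transpose, cm_mul, cm_mul, cm_one, cm_add]; exact cm_eq a6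
  have e1 : g.trace = A.trace + Z.trace := by
    have := congrArg (fun M => (g * M).trace) h6
    simp only [Matrix.mul_add, trace_add, Matrix.mul_one] at this
    rw [← this, ← Matrix.mul_assoc, h.incl, trace_mul_comm, ← Matrix.mul_assoc, h4, Matrix.one_mul,
      ← Matrix.mul_assoc, trace_mul_comm, ← Matrix.mul_assoc, h.quot, Matrix.mul_assoc, h5,
      Matrix.mul_one]
  have e2 : g.trace + g.trace + (A.trace + A.trace) + (A * A).trace = A.trace * A.trace := by
    have := congrArg (fun M => (A ⊗ₖ A * M).trace) h3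
    simp only [Matrix.mul_add, trace_add, Matrix.mul_one, trace_kron_swap, trace_kronecker] at this
    rw [← this, ← Matrix.mul_assoc, h.adj, trace_mul_comm (mD K * g), ← Matrix.mul_assoc, h1,
      ← Matrix.mul_assoc, trace_mul_comm (_ * _) (mB K), ← Matrix.mul_assoc, h.crs, Matrix.mul_assoc,
      h2]
    simp [add_mul, mul_add]
  grind

end CfsgH7.Ree
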