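import Cfsg.Agent.H7.ReeWord
import Cfsg.Agent.H7.FrobAff

/-! The small Ree group on the seven-dimensional module. -/

set_option autoImplicit false
set_option maxRecDepth 100000

namespace CfsgH7.Ree

open Matrix Cfsg.Lie CfsgH7.NM3
open scoped Kronecker

variable {K : Type*} [Field K]

/-- The positive generators on the seven-dimensional module. -/
def YU (e : ℕ) (t u v : K) : M7 K :=
  Y 7 (t ^ e) * Y 6 t * Y 8 (t ^ (e + 1) + u ^ e) * Y 9 (t ^ (2 * e + 1) + v ^ e) * Y 10 u * Y 11 v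

/-- The negative generators on the seven-dimensional module. -/
def YV (e : ℕ) (t u v : K) : M7 K :=
  Y 4 (-t ^ e) * Y 5 (-t) * Y 3 (-(t ^ (e + 1) + u ^ e)) * Y 2 (-(t ^ (2 * e + 1) + v ^ e)) *
    Y 1 (-u) * Y 0 (-v)

theorem wordU_eq (e : ℕ) (t u v : K) : chevG2.wordMat K (reeWordU e t u v) =
    X 7 (t ^ e) * X 6 t * X 8 (t ^ (e + 1) + u ^ e) * X 9 (t ^ (2 * e + 1) + v ^ e) * X 10 u *
      X 11 v := by
  simp only [Matrix.mul_assoc]
  rw [← Matrix.mul_one (X 11 v)]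
  rfl

theorem wordV_eq (e : ℕ) (t u v : K) : chevG2.wordMat K (reeWordV e t u v) =
    X 4 (-t ^ e) * X 5 (-t) * X 3 (-(t ^ (e + 1) + u ^ e)) * X 2 (-(t ^ (2 * e + 1) + v ^ e)) *
      X 1 (-u) * X 0 (-v) := by
  simp only [Matrix.mul_assoc]
  rw [← Matrix.mul_one (X 0 (-v))]
  rfl

theorem Good.map {L : Type*} [Field L] (φ : K →+* L) {g : Matrix LI LI K} {A Z : M7 K}
    (h : Good g A Z) : Good (g.map φ) (A.map φ) (Z.map φ) := by
  have hk : (A ⊗ₖ A).map φ = A.map φ ⊗ₖ A.map φ := by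
    ext ⟨i, j⟩ ⟨k, l⟩; simp
  refine ⟨?_, ?_, ?_, ?_, ?_, ?_⟩
  · simpa only [Matrix.map_mul, mI, cm_map] using congrArg (·.map φ) h.incl
  · simpa only [Matrix.map_mul, mQ, cm_map] using congrArg (·.map φ) h.quot
  · simpa only [Matrix.map_mul, mD, cm_map, hk] using congrArg (·.map φ) h.adj
  · simpa only [Matrix.map_mul, mB, cm_map, hk] using congrArg (·.map φ) h.crs
  · simpa only [Matrix.map_mul, mG, cm_map, transpose_map] using congrArg (·.map φ) h.orth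
  · have := φ.map_det A
    rw [h.det, map_one] at this
    exact this.symm

variable [CharP K 3]

theorem Good.bf_eq {g : Matrix LI LI K} {A Z : M7 K} (h : Good g A Z) (x y : Fin 7 → K) :
    bf (A *ᵥ x) (A *ᵥ y) = bf x y := by
  rw [Ree.bf_eq, Ree.bf_eq, mulVec_mulVec, ← vecMul_transpose, ← dotProduct_mulVec, mulVec_mulVec,
    ← Matrix.mul_assoc, h.orth]

theorem Good.cr_eq {g : Matrix LI LI K} {A Z : M7 K} (h : Good g A Z) (x y : Fin 7 → K) :
    cr (A *ᵥ x) (A *ᵥ y) = A *ᵥ cr x y := by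
  rw [Ree.cr_eq, Ree.cr_eq, mulVec_mulVec, ← h.crs, ← mulVec_mulVec]
  congr 1
  ext ⟨i, j⟩
  simp only [Matrix.mulVec, dotProduct, Fintype.sum_prod_type, kroneckerMap_apply,
    Finset.sum_mul_sum]
  refine Finset.sum_congr rfl fun a _ => Finset.sum_congr rfl fun b _ => ?_
  ring

instance instFactPrimeThreeRee : Fact (Nat.Prime 3) := ⟨Nat.prime_three⟩

variable [Fintype K] {m : ℕ}

theorem frob_pow (hK : Fintype.card K = 3 ^ (2 * m + 1)) (t : K) :
    iterateFrobenius K 3 (m + 1) (t ^ 3 ^ m) = t := by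
  rw [iterateFrobenius_def, ← pow_mul, ← pow_add, show m + (m + 1) = 2 * m + 1 by ring, ← hK,
    FiniteField.pow_card]

omit [Fintype K] in
theorem frob_eq (t : K) : (t ^ 3 ^ m) ^ 3 = iterateFrobenius K 3 (m + 1) t := by
  rw [iterateFrobenius_def, ← pow_mul, ← pow_succ]

theorem frob_params (hK : Fintype.card K = 3 ^ (2 * m + 1)) (t u v : K) :
    iterateFrobenius K 3 (m + 1) (t ^ (3 ^ m + 1) + u ^ 3 ^ m) =
      t * iterateFrobenius K 3 (m + 1) t + u ∧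
    iterateFrobenius K 3 (m + 1) (t ^ (2 * 3 ^ m + 1) + v ^ 3 ^ m) =
      t ^ 2 * iterateFrobenius K 3 (m + 1) t + v ∧
    (t ^ (3 ^ m + 1) + u ^ 3 ^ m) ^ 3 =
      iterateFrobenius K 3 (m + 1) t * t ^ 3 + iterateFrobenius K 3 (m + 1) u ∧
    (t ^ (2 * 3 ^ m + 1) + v ^ 3 ^ m) ^ 3 =
      iterateFrobenius K 3 (m + 1) t ^ 2 * t ^ 3 + iterateFrobenius K 3 (m + 1) v := by
  have e1 : ∀ a b : K, (a * t + b) ^ 3 = a ^ 3 * t ^ 3 + b ^ 3 := fun a b => by grind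
  refine ⟨?_, ?_, ?_, ?_⟩
  · rw [pow_succ t, map_add, map_mul, frob_pow hK, frob_pow hK]
  · rw [pow_succ t, pow_mul', map_add, map_mul, map_pow, frob_pow hK, frob_pow hK]
  · rw [pow_succ t, e1, frob_eq, frob_eq]
  · rw [pow_succ t, pow_mul', e1, ← pow_mul _ 2 3, pow_mul', frob_eq, frob_eq]

theorem good_U (hK : Fintype.card K = 3 ^ (2 * m + 1)) (t u v : K) :
    Good (chevG2.wordMat K (reeWordU (3 ^ m) t u v)) (YU (3 ^ m) t u v)
      ((YU (3 ^ m) t u v).map (iterateFrobenius K 3 (m + 1))) := by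
  have h := (((((good_short 7 (by simp) (t ^ 3 ^ m)).mul (good_long 6 (by simp) t)).mul
    (good_short 8 (by simp) (t ^ (3 ^ m + 1) + u ^ 3 ^ m))).mul
    (good_short 9 (by simp) (t ^ (2 * 3 ^ m + 1) + v ^ 3 ^ m))).mul
    (good_long 10 (by simp) u)).mul (good_long 11 (by simp) v)
  obtain ⟨e1, e2, e3, e4⟩ := frob_params hK t u v
  rw [e3, e4, frob_eq t] at h
  rw [wordU_eq, YU]
  simp only [Matrix.map_mul, Y_map, frob_pow hK, e1, e2]
  rw [← word_U]
  exact h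

theorem good_V (hK : Fintype.card K = 3 ^ (2 * m + 1)) (t u v : K) :
    Good (chevG2.wordMat K (reeWordV (3 ^ m) t u v)) (YV (3 ^ m) t u v)
      ((YV (3 ^ m) t u v).map (iterateFrobenius K 3 (m + 1))) := by
  have h := (((((good_short 4 (by simp) (-t ^ 3 ^ m)).mul (good_long 5 (by simp) (-t))).mul
    (good_short 3 (by simp) (-(t ^ (3 ^ m + 1) + u ^ 3 ^ m)))).mul
    (good_short 2 (by simp) (-(t ^ (2 * 3 ^ m + 1) + v ^ 3 ^ m)))).mul
    (good_long 1 (by simp) (-u))).mul (good_long 0 (by simp) (-v))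
  obtain ⟨e1, e2, e3, e4⟩ := frob_params hK t u v
  have e5 : ∀ a : K, (-a) ^ 3 = -a ^ 3 := fun a => by ring
  rw [e5, e5, e5, e3, e4, frob_eq t] at h
  rw [wordV_eq, YV]
  simp only [Matrix.map_mul, Y_map, map_neg, frob_pow hK, e1, e2]
  rw [← word_V]
  exact h

/-- The matrices induced by the Ree group on the seven-dimensional module. -/
def InR (m : ℕ) (A : M7 K) : Prop :=
  ∃ g ∈ twistedG2 K (3 ^ m), Good g.1 A (A.map (iterateFrobenius K 3 (m + 1)))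

omit [Fintype K] in
theorem InR.one : InR m (1 : M7 K) :=
  ⟨1, one_mem _, by rw [Matrix.map_one _ (map_zero _) (map_one _)]; exact Good.one⟩

omit [Fintype K] in
theorem InR.mul {A A' : M7 K} (h : InR m A) (h' : InR m A') : InR m (A * A') := by
  obtain ⟨g, hg, h1⟩ := h
  obtain ⟨g', hg', h2⟩ := h'
  exact ⟨g * g', mul_mem hg hg', by rw [Matrix.map_mul]; exact h1.mul h2⟩

omit [Fintype K] in
theorem InR.pow {A : M7 K} (h : InR m A) (n : ℕ) : InR m (A ^ n) := by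
  induction n with
  | zero => rw [pow_zero]; exact InR.one
  | succ n ih => rw [pow_succ]; exact ih.mul h

omit [CharP K 3] in
theorem Good.exists_pow {g : Matrix LI LI K} {A Z : M7 K} (h : Good g A Z) :
    ∃ k, k ≠ 0 ∧ A ^ k = 1 := by
  obtain ⟨a, ha⟩ : IsUnit A := (Matrix.isUnit_iff_isUnit_det A).2 (by rw [h.det]; exact isUnit_one)
  refine ⟨orderOf a, (orderOf_pos a).ne', ?_⟩
  rw [← ha, ← Units.val_pow_eq_pow_val, pow_orderOf_eq_one, Units.val_one]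

theorem inR_of_word {w : List (ℕ × K)} (hw : w ∈ g2Words K (3 ^ m)) {A : M7 K}
    (h : Good (chevG2.wordMat K w) A (A.map (iterateFrobenius K 3 (m + 1)))) : InR m A := by
  obtain ⟨k, hk, hA⟩ := h.exists_pow
  obtain ⟨g, hg⟩ : IsUnit (chevG2.wordMat K w) :=
    IsUnit.of_pow_eq_one ((h.pow_eq_one_iff k).2 hA) hk
  exact ⟨g, Subgroup.subset_closure ⟨w, hw, hg⟩, hg ▸ h⟩

theorem inR_U (hK : Fintype.card K = 3 ^ (2 * m + 1)) (t u v : K) : InR m (YU (3 ^ m) t u v) :=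
  inR_of_word ⟨t, u, v, Or.inl rfl⟩ (good_U hK t u v)

theorem inR_V (hK : Fintype.card K = 3 ^ (2 * m + 1)) (t u v : K) : InR m (YV (3 ^ m) t u v) :=
  inR_of_word ⟨t, u, v, Or.inr rfl⟩ (good_V hK t u v)

theorem exists_good (hK : Fintype.card K = 3 ^ (2 * m + 1)) (g : GL chevG2.Idx K)
    (hg : g ∈ twistedG2 K (3 ^ m)) : ∃ A, Good g.1 A (A.map (iterateFrobenius K 3 (m + 1))) := by
  apply mem_of_mem_closure_of_closed _
    (fun g : GL chevG2.Idx K => ∃ A, Good g.1 A (A.map (iterateFrobenius K 3 (m + 1))))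
    ⟨1, by rw [Matrix.map_one _ (map_zero _) (map_one _)]; exact Good.one⟩ _ g hg
  rintro s ⟨w, ⟨t, u, v, rfl | rfl⟩, hs⟩ x ⟨A, hA⟩
  · exact ⟨YU (3 ^ m) t u v * A, by
      rw [Matrix.map_mul, Units.val_mul, hs]; exact (good_U hK t u v).mul hA⟩
  · exact ⟨YV (3 ^ m) t u v * A, by
      rw [Matrix.map_mul, Units.val_mul, hs]; exact (good_V hK t u v).mul hA⟩

theorem spec_ree_eq (hK : Fintype.card K = 3 ^ (2 * m + 1)) :
    Set.range (orderOf : twistedG2 K (3 ^ m) → ℕ) = {n | ∃ A : M7 K, InR m A ∧ orderOf A = n} := by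
  have key : ∀ (g : twistedG2 K (3 ^ m)) (A Z : M7 K), Good g.1.1 A Z → orderOf g = orderOf A := by
    intro g A Z h
    rw [orderOf_eq_orderOf_iff]
    intro n
    rw [← h.pow_eq_one_iff, Subtype.ext_iff, Units.ext_iff, SubgroupClass.coe_pow,
      Units.val_pow_eq_pow_val]
    rfl
  ext n
  constructor
  · rintro ⟨g, rfl⟩
    obtain ⟨A, hA⟩ := exists_good hK g.1 g.2
    exact ⟨A, ⟨g.1, g.2, hA⟩, (key g _ _ hA).symm⟩
  · rintro ⟨A, ⟨g, hg, hA⟩, rfl⟩
    exact ⟨⟨g, hg⟩, key ⟨g, hg⟩ _ _ hA⟩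

end CfsgH7.Ree
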