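import Mathlib

/-! Arithmetic of the maximal tori of the small Ree groups. -/

set_option autoImplicit false

namespace CfsgH7.Ree

section group
variable {M : Type*} [AddCommGroup M]

theorem torus_bound (h3 : ∀ x : M, (3 : ℤ) • x = 0 → x = 0) (θ q k ε : ℤ) (hθ : θ ^ 2 = 3 * q)
    (hk : θ = 2 * k + 1) (r : ℤ) (hr : q + 1 = 2 * r) (hε : ε = 1 ∨ ε = -1) (α β γ : M)
    (h0 : α + β + γ = 0)
    (h : (θ • α = ε • (β - γ) ∧ θ • β = ε • (γ - α) ∧ θ • γ = ε • (α - β)) ∨
      (θ • α = ε • (β - γ) ∧ θ • β = ε • (α - β) ∧ θ • γ = ε • (γ - α)) ∨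
      (θ • α = ε • (γ - α) ∧ θ • β = ε • (β - γ) ∧ θ • γ = ε • (α - β)) ∨
      (θ • α = ε • (γ - α) ∧ θ • β = ε • (α - β) ∧ θ • γ = ε • (β - γ)) ∨
      (θ • α = ε • (α - β) ∧ θ • β = ε • (β - γ) ∧ θ • γ = ε • (γ - α)) ∨
      (θ • α = ε • (α - β) ∧ θ • β = ε • (γ - α) ∧ θ • γ = ε • (β - γ))) :
    ∃ n, (n = q - 1 ∨ n = r ∨ n = q + θ + 1 ∨ n = q - θ + 1) ∧ n • α = 0 ∧ n • β = 0 := by
  have hγ : γ = -α - β := by rw [← sub_eq_zero, ← h0]; abel
  subst hγ
  have key : ∀ (n c : ℤ) (x : M), c = 3 * n → c • x = 0 → n • x = 0 := fun n c x hc hx =>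
    h3 _ (by rw [smul_smul, ← hc, hx])
  have e1 : θ ^ 2 - 3 = 3 * (q - 1) := by linarith
  have e2 : 2 * k ^ 2 + 2 * k + 2 = 3 * r := by subst hk; nlinarith
  have e3 : θ ^ 2 + 3 * θ + 3 = 3 * (q + θ + 1) := by linarith
  have e4 : θ ^ 2 - 3 * θ + 3 = 3 * (q - θ + 1) := by linarith
  rcases hε with rfl | rfl <;> rcases h with ⟨a, b, -⟩ | ⟨a, b, -⟩ | ⟨a, b, -⟩ | ⟨a, b, -⟩ |
    ⟨a, b, -⟩ | ⟨a, b, -⟩
  · subst hk
    exact ⟨r, by simp, key _ _ _ e2 (by linear_combination (norm := module) (k + 1) • a + b),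
      key _ _ _ e2 (by linear_combination (norm := module) k • b - a)⟩
  · exact ⟨q - 1, by simp, key _ _ _ e1 (by linear_combination (norm := module) (θ + 1) • a + 2 • b),
      key _ _ _ e1 (by linear_combination (norm := module) (θ - 1) • b + a)⟩
  · exact ⟨q - 1, by simp, key _ _ _ e1 (by linear_combination (norm := module) (θ - 2) • a - b),
      key _ _ _ e1 (by linear_combination (norm := module) (θ + 2) • b + a)⟩
  · exact ⟨q + θ + 1, by simp, key _ _ _ e3 (by linear_combination (norm := module) (θ + 1) • a - b),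
      key _ _ _ e3 (by linear_combination (norm := module) (θ + 2) • b + a)⟩
  · exact ⟨q - θ + 1, by simp, key _ _ _ e4 (by linear_combination (norm := module) (θ - 2) • a - b),
      key _ _ _ e4 (by linear_combination (norm := module) (θ - 1) • b + a)⟩
  · exact ⟨q - 1, by simp, key _ _ _ e1 (by linear_combination (norm := module) (θ + 1) • a - b),
      key _ _ _ e1 (by linear_combination (norm := module) (θ - 1) • b - 2 • a)⟩
  · subst hk
    exact ⟨r, by simp, key _ _ _ e2 (by linear_combination (norm := module) k • a - b),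
      key _ _ _ e2 (by linear_combination (norm := module) (k + 1) • b + a)⟩
  · exact ⟨q - 1, by simp, key _ _ _ e1 (by linear_combination (norm := module) (θ - 1) • a - 2 • b),
      key _ _ _ e1 (by linear_combination (norm := module) (θ + 1) • b - a)⟩
  · exact ⟨q - 1, by simp, key _ _ _ e1 (by linear_combination (norm := module) (θ + 2) • a + b),
      key _ _ _ e1 (by linear_combination (norm := module) (θ - 2) • b - a)⟩
  · exact ⟨q - θ + 1, by simp, key _ _ _ e4 (by linear_combination (norm := module) (θ - 1) • a + b),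
      key _ _ _ e4 (by linear_combination (norm := module) (θ - 2) • b - a)⟩
  · exact ⟨q + θ + 1, by simp, key _ _ _ e3 (by linear_combination (norm := module) (θ + 2) • a + b),
      key _ _ _ e3 (by linear_combination (norm := module) (θ + 1) • b - a)⟩
  · exact ⟨q - 1, by simp, key _ _ _ e1 (by linear_combination (norm := module) (θ - 1) • a + b),
      key _ _ _ e1 (by linear_combination (norm := module) (θ + 1) • b + 2 • a)⟩

theorem two_smul_of_root (θ k ε : ℤ) (hk : θ = 2 * k + 1) (hε : ε = 1 ∨ ε = -1) (α β γ : M)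
    (h0 : α + β + γ = 0) (h : θ • α = ε • (β - γ) ∨ θ • α = ε • (γ - α) ∨ θ • α = ε • (α - β))
    (h2 : (2 : ℤ) • α = 0) : (2 : ℤ) • β = 0 ∧ (2 : ℤ) • γ = 0 := by
  have h1 : (2 : ℤ) • β = 0 := by
    subst hk
    rcases hε with rfl | rfl <;> rcases h with h | h | h
    · linear_combination (norm := module) h0 - h + k • h2
    · linear_combination (norm := module) 2 • h0 + 2 • h - (2 * k + 3) • h2
    · linear_combination (norm := module) 2 • h - (2 * k) • h2
    · linear_combination (norm := module) h0 + h - (k + 1) • h2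
    · linear_combination (norm := module) 2 • h0 - 2 • h + (2 * k - 1) • h2
    · linear_combination (norm := module) (2 * k + 2) • h2 - 2 • h
  exact ⟨h1, by linear_combination (norm := module) 2 • h0 - h1 - h2⟩

theorem sign_match {α β γ α' β' γ' : M} (h0 : α + β + γ = 0) (h0' : α' + β' + γ' = 0)
    (h1 : α = α' ∨ α = -α') (h2 : β = β' ∨ β = -β') (h3 : γ = γ' ∨ γ = -γ') :
    ∃ ε : ℤ, (ε = 1 ∨ ε = -1) ∧ α = ε • α' ∧ β = ε • β' ∧ γ = ε • γ' := by
  rcases h1 with h1 | h1 <;> rcases h2 with h2 | h2 <;> rcases h3 with h3 | h3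
  · exact ⟨1, by simp, by simp [h1], by simp [h2], by simp [h3]⟩
  · exact ⟨1, by simp, by simp [h1], by simp [h2],
      by linear_combination (norm := module) h0 - h0' - h1 - h2⟩
  · exact ⟨1, by simp, by simp [h1], by linear_combination (norm := module) h0 - h0' - h1 - h3,
      by simp [h3]⟩
  · exact ⟨-1, by simp, by linear_combination (norm := module) h0 + h0' - h2 - h3, by simp [h2],
      by simp [h3]⟩
  · exact ⟨1, by simp, by linear_combination (norm := module) h0 - h0' - h2 - h3, by simp [h2],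
      by simp [h3]⟩
  · exact ⟨-1, by simp, by simp [h1], by linear_combination (norm := module) h0 + h0' - h1 - h3,
      by simp [h3]⟩
  · exact ⟨-1, by simp, by simp [h1], by simp [h2],
      by linear_combination (norm := module) h0 + h0' - h1 - h2⟩
  · exact ⟨-1, by simp, by simp [h1], by simp [h2], by simp [h3]⟩

end group

variable {F : Type*} [Field F]

theorem perm_two {y z y' z' : F} (h1 : y + z = y' + z') (h2 : y * z = y' * z') :
    (y = y' ∧ z = z') ∨ (y = z' ∧ z = y') := by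
  have h : (y - y') * (y - z') = 0 := by linear_combination y * h1 - h2
  rcases mul_eq_zero.1 h with h | h
  · exact Or.inl ⟨sub_eq_zero.1 h, by linear_combination h1 - h⟩
  · exact Or.inr ⟨sub_eq_zero.1 h, by linear_combination h1 - h⟩

theorem perm_three {x y z x' y' z' : F} (h1 : x + y + z = x' + y' + z')
    (h2 : x * y + y * z + z * x = x' * y' + y' * z' + z' * x') (h3 : x * y * z = x' * y' * z') :
    (x = x' ∧ y = y' ∧ z = z') ∨ (x = x' ∧ y = z' ∧ z = y') ∨ (x = y' ∧ y = x' ∧ z = z') ∨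
      (x = y' ∧ y = z' ∧ z = x') ∨ (x = z' ∧ y = x' ∧ z = y') ∨ (x = z' ∧ y = y' ∧ z = x') := by
  have h : (x - x') * (x - y') * (x - z') = 0 := by
    linear_combination x ^ 2 * h1 - x * h2 + h3
  rcases mul_eq_zero.1 h with h | h
  · rcases mul_eq_zero.1 h with h | h
    · obtain rfl := sub_eq_zero.1 h
      have := perm_two (y := y) (z := z) (y' := y') (z' := z') (by linear_combination h1)
        (by linear_combination h2 - x * h1)
      rcases this with h | h
      · exact Or.inl ⟨rfl, h⟩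
      · exact Or.inr (Or.inl ⟨rfl, h⟩)
    · obtain rfl := sub_eq_zero.1 h
      have := perm_two (y := y) (z := z) (y' := x') (z' := z') (by linear_combination h1)
        (by linear_combination h2 - x * h1)
      rcases this with h | h
      · exact Or.inr (Or.inr (Or.inl ⟨rfl, h⟩))
      · exact Or.inr (Or.inr (Or.inr (Or.inl ⟨rfl, h⟩)))
  · obtain rfl := sub_eq_zero.1 h
    have := perm_two (y := y) (z := z) (y' := x') (z' := y') (by linear_combination h1)
      (by linear_combination h2 - x * h1)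
    rcases this with h | h
    · exact Or.inr (Or.inr (Or.inr (Or.inr (Or.inl ⟨rfl, h⟩))))
    · exact Or.inr (Or.inr (Or.inr (Or.inr (Or.inr ⟨rfl, h⟩))))

/-- The value of an additively written unit. -/
def ex (α : Additive Fˣ) : F := (α.toMul : Fˣ)

theorem ex_ne_zero (α : Additive Fˣ) : ex α ≠ 0 := Units.ne_zero _
theorem ex_zero : ex (0 : Additive Fˣ) = 1 := rfl
theorem ex_add (α β : Additive Fˣ) : ex (α + β) = ex α * ex β := rfl
theorem ex_neg (α : Additive Fˣ) : ex (-α) = (ex α)⁻¹ := by simp [ex]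
theorem ex_nsmul (α : Additive Fˣ) (n : ℕ) : ex (n • α) = ex α ^ n := by simp [ex]
theorem ex_injective : Function.Injective (ex : Additive Fˣ → F) := fun _ _ h =>
  Additive.toMul.injective (Units.ext h)
theorem ex_eq_one {α : Additive Fˣ} : ex α = 1 ↔ α = 0 := by
  rw [← ex_zero, ex_injective.eq_iff]
theorem exists_ex {a : F} (ha : a ≠ 0) : ∃ α, ex α = a := ⟨Additive.ofMul (Units.mk0 a ha), rfl⟩

/-- The trace of a diagonal element of `SL₂`. -/
def dk (α : Additive Fˣ) : F := ex α + (ex α)⁻¹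

theorem dk_neg (α : Additive Fˣ) : dk (-α) = dk α := by rw [dk, dk, ex_neg, inv_inv, add_comm]

theorem dk_sign (ε : ℤ) (hε : ε = 1 ∨ ε = -1) (α : Additive Fˣ) : dk (ε • α) = dk α := by
  rcases hε with rfl | rfl
  · rw [one_smul]
  · rw [neg_smul, one_smul, dk_neg]

theorem of_dk_eq {α β : Additive Fˣ} (h : dk α = dk β) : α = β ∨ α = -β := by
  have ha := ex_ne_zero α
  have hb := ex_ne_zero β
  have h1 : (ex α - ex β) * (ex α - (ex β)⁻¹) = 0 := by
    rw [dk, dk] at h
    field_simp at h ⊢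
    linear_combination h
  rw [← ex_neg] at h1
  exact (mul_eq_zero.1 h1).imp (fun h => ex_injective (sub_eq_zero.1 h))
    fun h => ex_injective (sub_eq_zero.1 h)

theorem dk_mul (α β : Additive Fˣ) : dk α * dk β = dk (α + β) + dk (α - β) := by
  have ha := ex_ne_zero α
  have hb := ex_ne_zero β
  simp only [dk, sub_eq_add_neg, ex_add, ex_neg]
  field_simp
  ring

theorem dk_two (α : Additive Fˣ) : dk (2 • α) = dk α ^ 2 - 2 := by
  have ha := ex_ne_zero α
  simp only [dk, ex_nsmul]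
  field_simp
  ring

theorem dk_rel {α β γ : Additive Fˣ} (h : α + β + γ = 0) :
    dk α * dk β * dk γ = dk α ^ 2 + dk β ^ 2 + dk γ ^ 2 - 4 := by
  have hγ : γ = -(α + β) := by rw [← sub_eq_zero, ← h]; abel
  have ha := ex_ne_zero α
  have hb := ex_ne_zero β
  simp only [hγ, dk, ex_add, ex_neg]
  field_simp
  ring

theorem dk_long {α β γ : Additive Fˣ} (h : α + β + γ = 0) :
    dk (β - γ) + dk (γ - α) + dk (α - β) =
      dk α * dk β + dk β * dk γ + dk γ * dk α - (dk α + dk β + dk γ) := by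
  have h1 : α + β = -γ := by rw [← sub_eq_zero, ← h]; abel
  have h2 : β + γ = -α := by rw [← sub_eq_zero, ← h]; abel
  have h3 : γ + α = -β := by rw [← sub_eq_zero, ← h]; abel
  rw [dk_mul, dk_mul, dk_mul, h1, h2, h3, dk_neg, dk_neg, dk_neg]
  ring

theorem dk_match {α β γ α' β' γ' : Additive Fˣ} (h0 : α + β + γ = 0) (h0' : α' + β' + γ' = 0)
    (h1 : dk α + dk β + dk γ = dk α' + dk β' + dk γ')
    (h2 : dk α * dk β + dk β * dk γ + dk γ * dk α = dk α' * dk β' + dk β' * dk γ' + dk γ' * dk α') :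
    ∃ ε : ℤ, (ε = 1 ∨ ε = -1) ∧ ((α = ε • α' ∧ β = ε • β' ∧ γ = ε • γ') ∨
      (α = ε • α' ∧ β = ε • γ' ∧ γ = ε • β') ∨ (α = ε • β' ∧ β = ε • α' ∧ γ = ε • γ') ∨
      (α = ε • β' ∧ β = ε • γ' ∧ γ = ε • α') ∨ (α = ε • γ' ∧ β = ε • α' ∧ γ = ε • β') ∨
      (α = ε • γ' ∧ β = ε • β' ∧ γ = ε • α')) := by
  have h3 : dk α * dk β * dk γ = dk α' * dk β' * dk γ' := by
    rw [dk_rel h0, dk_rel h0']
    linear_combination (dk α + dk β + dk γ + (dk α' + dk β' + dk γ')) * h1 - 2 * h2
  rcases perm_three h1 h2 h3 with ⟨a, b, c⟩ | ⟨a, b, c⟩ | ⟨a, b, c⟩ | ⟨a, b, c⟩ | ⟨a, b, c⟩ | ⟨a, b, c⟩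
  all_goals
    obtain ⟨ε, hε, h⟩ := sign_match h0 (by rw [← h0']; try abel) (of_dk_eq a) (of_dk_eq b) (of_dk_eq c)
    refine ⟨ε, hε, ?_⟩
    simp only [h, and_self, true_or, or_true]

variable [CharP F 3]

theorem dk_frob (α : Additive Fˣ) (k : ℕ) : dk (3 ^ k • α) = dk α ^ 3 ^ k := by
  have : Fact (Nat.Prime 3) := ⟨Nat.prime_three⟩
  rw [dk, dk, ex_nsmul, add_pow_char_pow, inv_pow]

theorem eq_zero_of_pow_three_smul (α : Additive Fˣ) (k : ℕ) (h : 3 ^ k • α = 0) : α = 0 := by
  have : Fact (Nat.Prime 3) := ⟨Nat.prime_three⟩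
  rw [← ex_eq_one, ex_nsmul] at h
  rw [← ex_eq_one, ← sub_eq_zero]
  apply pow_eq_zero_iff (pow_ne_zero k three_ne_zero) |>.1
  rw [sub_pow_char_pow, h, one_pow, sub_self]

theorem eq_zero_of_three_smul (α : Additive Fˣ) (h : (3 : ℤ) • α = 0) : α = 0 :=
  eq_zero_of_pow_three_smul α 1 (by exact_mod_cast h)

end CfsgH7.Ree
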