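import Cfsg.Agent.H7.ReeDiag

/-! Unipotent elements commuting with a diagonalisable matrix. -/

set_option autoImplicit false

namespace CfsgH7.Ree

open Matrix

variable {F : Type*} [Field F]

theorem pow_apply_eq_zero_of_finrank {V : Type*} [AddCommGroup V] [Module F V] [FiniteDimensional F V]
    (N : Module.End F V) (hN : IsNilpotent N) (W : Submodule F V) (hW : ∀ x ∈ W, N x ∈ W) (k : ℕ)
    (hk : Module.finrank F W ≤ k) (y : V) (hy : y ∈ W) : (N ^ k) y = 0 := by
  have h1 : IsNilpotent (N.restrict hW) := Module.End.isNilpotent.restrict hW hN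
  have h2 := LinearMap.aeval_self_charpoly (N.restrict hW)
  rw [h1.charpoly_eq_X_pow_finrank, map_pow, Polynomial.aeval_X] at h2
  have h3 : (N.restrict hW) ^ k = 0 := pow_eq_zero_of_le hk h2
  rw [Module.End.pow_restrict] at h3
  exact congrArg Subtype.val (LinearMap.congr_fun h3 ⟨y, hy⟩)

theorem form_cube_eq_zero {V : Type*} [AddCommGroup V] [Module F V] [FiniteDimensional F V]
    (B : V →ₗ[F] V →ₗ[F] F) (hB : ∀ x y, B x y = B y x) (h2 : (2 : F) ≠ 0)
    (N : Module.End F V) (hN : IsNilpotent N) (W : Submodule F V) (hW : ∀ x ∈ W, N x ∈ W)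
    (hk : Module.finrank F W ≤ 4)
    (hiso : ∀ x y, B (x + (N ^ 3) x) (y + (N ^ 3) y) = B x y) (y z : V) (hy : y ∈ W) (hz : z ∈ W) :
    B ((N ^ 3) y) z = 0 := by
  have hWp : ∀ k, ∀ x ∈ W, (N ^ k) x ∈ W := fun k x hx =>
    Module.End.pow_apply_mem_of_forall_mem k hW x hx
  have h4 : ∀ x ∈ W, (N ^ 3) (N x) = 0 := fun x hx => by
    have := pow_apply_eq_zero_of_finrank N hN W hW 4 hk x hx
    rwa [pow_succ, Module.End.mul_apply] at this
  have h6 : ∀ x ∈ W, (N ^ 3) ((N ^ 3) x) = 0 := fun x hx => by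
    have := h4 _ (hWp 2 x hx)
    rwa [← Module.End.mul_apply N, ← pow_succ'] at this
  have hskew : ∀ x, ∀ w ∈ W, B ((N ^ 3) x) w = -B x ((N ^ 3) w) := by
    intro x w hw
    have a1 := hiso x w
    have a2 := hiso x ((N ^ 3) w)
    rw [h6 w hw] at a2
    simp only [map_add, LinearMap.add_apply, add_zero] at a1 a2
    linear_combination a1 - a2
  have hself : ∀ x ∈ W, B ((N ^ 3) x) x = 0 := fun x hx => by
    have a1 := hskew x x hx
    rw [hB x] at a1
    apply mul_left_cancel₀ h2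
    linear_combination a1
  by_contra hne
  have s1 : W.map N < W.map N ⊔ F ∙ y := by
    refine lt_of_le_of_ne le_sup_left fun h => hne ?_
    have : y ∈ W.map N := h ▸ Submodule.mem_sup_right (Submodule.mem_span_singleton_self y)
    obtain ⟨w, hw, rfl⟩ := this
    rw [h4 w hw, map_zero, LinearMap.zero_apply]
  have s2 : W.map N ⊔ F ∙ y < W := by
    refine lt_of_le_of_ne (sup_le ?_ ?_) fun h => hne ?_
    · rintro _ ⟨w, hw, rfl⟩; exact hW w hw
    · rwa [Submodule.span_singleton_le_iff_mem]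
    · rw [← h] at hz
      obtain ⟨_, ⟨w, hw, rfl⟩, _, hc, rfl⟩ := Submodule.mem_sup.1 hz
      obtain ⟨c, rfl⟩ := Submodule.mem_span_singleton.1 hc
      rw [map_add, map_smul, hself y hy, hskew y _ (hW w hw), h4 w hw]
      simp
  have d1 := Submodule.finrank_lt_finrank_of_lt s1
  have d2 := Submodule.finrank_lt_finrank_of_lt s2
  apply hne
  have := pow_apply_eq_zero_of_finrank N hN (W.map N) (by
    rintro _ ⟨w, hw, rfl⟩; exact ⟨N w, hW w hw, rfl⟩) 2 (by omega) (N y) ⟨y, hy, rfl⟩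
  rw [← Module.End.mul_apply, ← pow_succ] at this
  rw [this, map_zero, LinearMap.zero_apply]

section diag
variable {n : Type*} [Fintype n] [DecidableEq n] {s P : Matrix n n F} {d : n → F}

theorem eq_conj_diag (hP : IsUnit P.det) (h : s * P = P * diagonal d) : s = P * diagonal d * P⁻¹ := by
  rw [← h, Matrix.mul_nonsing_inv_cancel_right _ _ hP]

theorem pow_mul_diag (h : s * P = P * diagonal d) (k : ℕ) : s ^ k * P = P * diagonal (d ^ k) := by
  induction k with
  | zero => simp
  | succ k ih =>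
    rw [pow_succ', Matrix.mul_assoc, ih, ← Matrix.mul_assoc, h, Matrix.mul_assoc,
      diagonal_mul_diagonal, pow_succ']
    rfl

theorem pow_eq_one_iff_diag (hP : IsUnit P.det) (h : s * P = P * diagonal d) (k : ℕ) :
    s ^ k = 1 ↔ ∀ i, d i ^ k = 1 := by
  have h1 := pow_mul_diag h k
  constructor
  · intro hk i
    rw [hk, Matrix.one_mul] at h1
    have h2 := congrArg (P⁻¹ * ·) h1
    simp only [Matrix.nonsing_inv_mul_cancel_left _ _ hP, Matrix.nonsing_inv_mul _ hP] at h2
    simpa using (congrFun (congrFun h2 i) i).symm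
  · intro hk
    rw [eq_conj_diag hP h1, show d ^ k = fun _ => 1 from funext hk, diagonal_one, Matrix.mul_one,
      Matrix.mul_nonsing_inv _ hP]

theorem trace_eq_diag (hP : IsUnit P.det) (h : s * P = P * diagonal d) : s.trace = ∑ i, d i := by
  rw [eq_conj_diag hP h, trace_mul_comm, Matrix.nonsing_inv_mul_cancel_left _ _ hP, trace_diagonal]

theorem finrank_eigenspace_le (hP : IsUnit P.det) (h : s * P = P * diagonal d) (μ : F) (T : Finset n)
    (hT : ∀ i ∉ T, d i ≠ μ) :
    Module.finrank F (Module.End.eigenspace (Matrix.toLin' s) μ) ≤ T.card := by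
  classical
  refine le_trans (Submodule.finrank_mono (t := Submodule.span F (T.image Pᵀ : Set (n → F))) ?_)
    ((finrank_span_finset_le_card _).trans Finset.card_image_le)
  intro x hx
  rw [Module.End.mem_eigenspace_iff, Matrix.toLin'_apply] at hx
  have h1 : P *ᵥ (P⁻¹ *ᵥ x) = x := by
    rw [mulVec_mulVec, Matrix.mul_nonsing_inv _ hP, one_mulVec]
  generalize P⁻¹ *ᵥ x = y at h1
  subst h1
  rw [mulVec_mulVec, h, ← mulVec_mulVec, ← mulVec_smul] at hx
  have h2 := Matrix.mulVec_injective_of_det_ne_zero hP.ne_zero hx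
  rw [Matrix.mulVec_eq_sum]
  refine Submodule.sum_mem _ fun i _ => ?_
  by_cases hi : i ∈ T
  · rw [op_smul_eq_smul]
    exact Submodule.smul_mem _ _ (Submodule.subset_span (Finset.mem_coe.2 (Finset.mem_image_of_mem _ hi)))
  · have h3 := congrFun h2 i
    rw [mulVec_diagonal, Pi.smul_apply, smul_eq_mul] at h3
    have h4 : y i = 0 := by
      by_contra h5
      exact hT i hi (mul_right_cancel₀ h5 h3)
    simp [h4]

theorem eq_one_of_commute_diag (p : ℕ) [Fact p.Prime] [CharP F p] (hP : IsUnit P.det)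
    (h : s * P = P * diagonal d) (hd : Function.Injective d) (u : Matrix n n F) (hu : u * s = s * u)
    (j : ℕ) (hj : u ^ p ^ j = 1) : u = 1 := by
  have h1 : P⁻¹ * u * P * diagonal d = diagonal d * (P⁻¹ * u * P) := by
    have e : diagonal d = P⁻¹ * s * P := by
      rw [Matrix.mul_assoc, h, Matrix.nonsing_inv_mul_cancel_left _ _ hP]
    rw [e]
    simp only [Matrix.mul_assoc, Matrix.mul_nonsing_inv_cancel_left _ _ hP]
    rw [← Matrix.mul_assoc u, hu, Matrix.mul_assoc]
  have h2 : u * P = P * diagonal (fun i => (P⁻¹ * u * P) i i) := by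
    have e : diagonal (fun i => (P⁻¹ * u * P) i i) = P⁻¹ * u * P := by
      ext i k
      by_cases hik : i = k
      · rw [hik, diagonal_apply_eq]
      · rw [diagonal_apply_ne _ hik]
        have h3 := congrFun (congrFun h1 i) k
        rw [mul_diagonal, diagonal_mul, mul_comm] at h3
        by_contra h4
        exact hik (hd (mul_right_cancel₀ (Ne.symm h4) h3).symm)
    rw [e, Matrix.mul_assoc, Matrix.mul_nonsing_inv_cancel_left _ _ hP]
  rw [← pow_one u, pow_eq_one_iff_diag hP h2]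
  intro i
  have h3 := (pow_eq_one_iff_diag hP h2 _).1 hj i
  rw [pow_one, ← sub_eq_zero]
  apply pow_eq_zero_iff (pow_ne_zero j (Fact.out : p.Prime).ne_zero) |>.1
  rw [sub_pow_char_pow, h3, one_pow, sub_self]

end diag

variable [CharP F 3]

theorem sub_one_pow (u : M7 F) (j : ℕ) : (u - 1) ^ 3 ^ j = u ^ 3 ^ j - 1 := by
  have : Fact (Nat.Prime 3) := ⟨Nat.prime_three⟩
  have : CharP (M7 F) 3 := Matrix.charP 3
  rw [sub_pow_char_pow_of_commute _ _ (Commute.one_right u), one_pow]

theorem nilp_of_unip (u : M7 F) (j : ℕ) (hj : u ^ 3 ^ j = 1) : IsNilpotent (Matrix.toLin' (u - 1)) :=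
  ⟨3 ^ j, by rw [← Matrix.toLin'_pow, sub_one_pow, hj, sub_self, map_zero]⟩

theorem pow_nine_of_unip (u : M7 F) (j : ℕ) (hj : u ^ 3 ^ j = 1) : u ^ 9 = 1 := by
  rw [← sub_eq_zero, show 9 = 3 ^ 2 from rfl, ← sub_one_pow, Matrix.ext_iff_mulVec]
  intro y
  have := pow_apply_eq_zero_of_finrank _ (nilp_of_unip u j hj) ⊤ (fun _ _ => trivial) (3 ^ 2)
    (by simp) y trivial
  rw [← Matrix.toLin'_pow] at this
  rw [zero_mulVec]
  exact this

theorem cube_eq_one_of_invol {s u : M7 F} (hs : s * s = 1)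
    (hsB : ∀ x y, bfL F (s *ᵥ x) (s *ᵥ y) = bfL F x y)
    (huB : ∀ x y, bfL F (u *ᵥ x) (u *ᵥ y) = bfL F x y) (hu : u * s = s * u) (j : ℕ)
    (hj : u ^ 3 ^ j = 1) (h1 : Module.finrank F (Module.End.eigenspace (Matrix.toLin' s) 1) ≤ 3)
    (h2 : Module.finrank F (Module.End.eigenspace (Matrix.toLin' s) (-1)) ≤ 4) : u ^ 3 = 1 := by
  have hN := nilp_of_unip u j hj
  set N := Matrix.toLin' (u - 1) with hNdef
  have hN3 : ∀ x, (N ^ 3) x = u ^ 3 *ᵥ x - x := fun x => by
    have := sub_one_pow u 1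
    rw [pow_one] at this
    rw [hNdef, ← Matrix.toLin'_pow, this, Matrix.toLin'_apply, sub_mulVec, one_mulVec]
  have hW : ∀ μ : F, ∀ x ∈ Module.End.eigenspace (Matrix.toLin' s) μ,
      N x ∈ Module.End.eigenspace (Matrix.toLin' s) μ := by
    intro μ x hx
    rw [Module.End.mem_eigenspace_iff, Matrix.toLin'_apply] at hx ⊢
    rw [hNdef, Matrix.toLin'_apply, mulVec_mulVec, mul_sub, ← hu, mul_one, sub_mulVec, sub_mulVec,
      ← mulVec_mulVec, hx, mulVec_smul, one_mulVec, smul_sub]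
  have hp : ∀ x, x + s *ᵥ x ∈ Module.End.eigenspace (Matrix.toLin' s) 1 := fun x => by
    rw [Module.End.mem_eigenspace_iff, Matrix.toLin'_apply, mulVec_add, mulVec_mulVec, hs, one_mulVec,
      one_smul, add_comm]
  have hm : ∀ x, x - s *ᵥ x ∈ Module.End.eigenspace (Matrix.toLin' s) (-1) := fun x => by
    rw [Module.End.mem_eigenspace_iff, Matrix.toLin'_apply, mulVec_sub, mulVec_mulVec, hs, one_mulVec,
      neg_smul, one_smul, neg_sub]
  have hdec : ∀ x : Fin 7 → F, x = -(x + s *ᵥ x) - (x - s *ᵥ x) := fun x => by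
    funext i
    simp only [Pi.add_apply, Pi.neg_apply, Pi.sub_apply]
    have h3 : (3 : F) = 0 := by grind
    linear_combination x i * h3
  have h3 : ∀ x ∈ Module.End.eigenspace (Matrix.toLin' s) (-1), (N ^ 3) x = 0 := by
    intro x hx
    apply bfL_nondeg
    intro y
    have a1 := form_cube_eq_zero (bfL F) bfL_symm two_ne_zero3 N hN _ (hW (-1)) h2 (fun x y => by
      rw [hN3, hN3]
      simp only [add_sub_cancel, pow_succ, pow_zero, Matrix.one_mul, ← mulVec_mulVec, huB])
      x _ hx (hm y)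
    have a2 := Module.End.pow_apply_mem_of_forall_mem 3 (hW (-1)) x hx
    have a3 := hp y
    have a4 := hsB ((N ^ 3) x) (y + s *ᵥ y)
    rw [Module.End.mem_eigenspace_iff, Matrix.toLin'_apply] at a2 a3
    rw [a2, a3, neg_smul, one_smul, one_smul, map_neg, LinearMap.neg_apply] at a4
    have a5 : bfL F ((N ^ 3) x) (y + s *ᵥ y) = 0 := by
      apply mul_left_cancel₀ (two_ne_zero3 (F := F))
      linear_combination -a4
    rw [hdec y, map_sub, map_neg, a1, a5]
    simp
  rw [Matrix.ext_iff_mulVec]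
  intro x
  rw [one_mulVec, ← sub_eq_zero, ← hN3, hdec x, map_sub, map_neg, h3 _ (hm x),
    pow_apply_eq_zero_of_finrank N hN _ (hW 1) 3 h1 _ (hp x)]
  simp

end CfsgH7.Ree
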