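import Cfsg.Agent.H7.ReeElem
import Cfsg.Agent.H7.ReeUnip
import Cfsg.Agent.H7.ReeTorus
import Cfsg.Agent.H7.PSL2Spec
import Cfsg.Agent.H7.SpecAlt10

/-! The set of element orders of the small Ree groups. -/

set_option autoImplicit false

namespace CfsgH7.Ree

open Matrix Cfsg.Lie

section diag
variable {F : Type*} [Field F]

/-- Diagonal form of a semisimple element. -/
def Diag (A : M7 F) (α β γ : Additive Fˣ) : Prop :=
  α + β + γ = 0 ∧ ∃ P : M7 F, IsUnit P.det ∧ A * P = P * diagonal (ex ∘ ![0, α, β, γ, -α, -β, -γ])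

variable {A : M7 F} {α β γ : Additive Fˣ}

theorem Diag.pow (h : Diag A α β γ) (k : ℕ) : Diag (A ^ k) (k • α) (k • β) (k • γ) := by
  obtain ⟨h0, P, hP, h⟩ := h
  refine ⟨by rw [← nsmul_add, ← nsmul_add, h0, nsmul_zero], P, hP, ?_⟩
  rw [pow_mul_diag h k]
  congr 2
  funext i
  fin_cases i <;> simp [ex_nsmul, ex_neg, ex_zero]

theorem Diag.trace (h : Diag A α β γ) : A.trace = 1 + (dk α + dk β + dk γ) := by
  obtain ⟨-, P, hP, h⟩ := h
  rw [trace_eq_diag hP h, Fin.sum_univ_seven]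
  simp [dk, ex_neg, ex_zero]
  ring

theorem Diag.pow_eq_one_iff (h : Diag A α β γ) (k : ℕ) :
    A ^ k = 1 ↔ k • α = 0 ∧ k • β = 0 ∧ k • γ = 0 := by
  obtain ⟨-, P, hP, h⟩ := h
  rw [pow_eq_one_iff_diag hP h]
  simp [Fin.forall_fin_succ, ← ex_nsmul, ex_eq_one]
  tauto

variable [CharP F 3]

theorem IsAut.exists_diag' [IsAlgClosed F] (h : IsAut A) (N : ℕ) (hN : ¬3 ∣ N) (hA : A ^ N = 1) :
    ∃ α β γ, Diag A α β γ := by
  obtain ⟨a, b, c, habc, P, hP, h⟩ := h.exists_diag N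
    (fun h => hN ((CharP.cast_eq_zero_iff F 3 N).1 h)) hA
  obtain ⟨α, rfl⟩ := exists_ex (a := a) (by rintro rfl; simp at habc)
  obtain ⟨β, rfl⟩ := exists_ex (a := b) (by rintro rfl; simp at habc)
  obtain ⟨γ, rfl⟩ := exists_ex (a := c) (by rintro rfl; simp at habc)
  refine ⟨α, β, γ, ex_eq_one.1 habc, P, hP, ?_⟩
  rw [h]
  congr 2
  funext i
  fin_cases i <;> simp [ex_neg, ex_zero]

theorem Diag.cube_eq_one (h : Diag A α β γ) (hA : IsAut A) (h2 : A ^ 2 = 1) (h1 : A ≠ 1) {u : M7 F}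
    (hu : IsAut u) (hc : u * A = A * u) (j : ℕ) (hj : u ^ 3 ^ j = 1) : u ^ 3 = 1 := by
  obtain ⟨ha, hb, -⟩ := (h.pow_eq_one_iff 2).1 h2
  rw [← pow_one A, Ne, h.pow_eq_one_iff] at h1
  obtain ⟨h0, P, hP, h⟩ := h
  rw [← ex_eq_one, ex_nsmul, sq_eq_one_iff] at ha hb
  have habc : ex α * ex β * ex γ = 1 := ex_eq_one.2 h0
  simp only [one_nsmul, ← ex_eq_one] at h1
  have n1 : (-1 : F) ≠ 1 := by grind
  have key : ∀ T T' : Finset (Fin 7), T.card = 3 → T'.card = 4 →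
      (∀ i ∉ T, (ex ∘ ![0, α, β, γ, -α, -β, -γ]) i ≠ 1) →
      (∀ i ∉ T', (ex ∘ ![0, α, β, γ, -α, -β, -γ]) i ≠ -1) → u ^ 3 = 1 := fun T T' a1 a2 a3 a4 =>
    cube_eq_one_of_invol (by rw [← sq, h2]) hA.orth hu.orth hc j hj
      (a1 ▸ finrank_eigenspace_le hP h 1 T a3) (a2 ▸ finrank_eigenspace_le hP h (-1) T' a4)
  rcases ha with ha | ha <;> rcases hb with hb | hb <;> rw [ha, hb] at habc
  · exact absurd ⟨ha, hb, by simpa using habc⟩ h1
  · have hc : ex γ = -1 := by linear_combination -habc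
    apply key {0, 1, 4} {2, 3, 5, 6} rfl rfl <;> intro i <;> fin_cases i <;>
      simp [ex_neg, ex_zero, ha, hb, hc, n1, n1.symm]
  · have hc : ex γ = -1 := by linear_combination -habc
    apply key {0, 2, 5} {1, 3, 4, 6} rfl rfl <;> intro i <;> fin_cases i <;>
      simp [ex_neg, ex_zero, ha, hb, hc, n1, n1.symm]
  · have hc : ex γ = 1 := by linear_combination habc
    apply key {0, 3, 6} {1, 2, 4, 5} rfl rfl <;> intro i <;> fin_cases i <;>
      simp [ex_neg, ex_zero, ha, hb, hc, n1, n1.symm]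

omit [CharP F 3] in
theorem injective_weights {M : Type*} [AddCommGroup M] {α β γ : M} (h0 : α + β + γ = 0)
    (ha : (2 : ℤ) • α ≠ 0) (hb : (2 : ℤ) • β ≠ 0) (hc : (2 : ℤ) • γ ≠ 0) (h1 : β - γ ≠ 0)
    (h2 : γ - α ≠ 0) (h3 : α - β ≠ 0) : Function.Injective ![0, α, β, γ, -α, -β, -γ] := by
  have n0 : ∀ x : M, (2 : ℤ) • x ≠ 0 → x ≠ 0 := fun x hx h => hx (by rw [h, smul_zero])
  have n1 : ∀ x : M, (2 : ℤ) • x ≠ 0 → x ≠ -x := fun x hx h =>
    hx (by rw [two_smul, ← eq_neg_iff_add_eq_zero, ← h])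
  have n2 : ∀ x y z : M, x + y + z = 0 → z ≠ 0 → x ≠ -y ∧ y ≠ -x := fun x y z h hz =>
    ⟨fun e => hz (by rw [← h, e]; abel), fun e => hz (by rw [← h, e]; abel)⟩
  have a1 := n2 α β γ h0 (n0 _ hc)
  have a2 := n2 β γ α (by rw [← h0]; abel) (n0 _ ha)
  have a3 := n2 γ α β (by rw [← h0]; abel) (n0 _ hb)
  rw [sub_ne_zero] at h1 h2 h3
  rw [← List.nodup_ofFn]
  simp [List.ofFn_succ, a1, a2, a3, h1, h2.symm, h3, n1 _ ha, n1 _ hb, n1 _ hc, n0 _ ha, n0 _ hb,
    n0 _ hc, (n0 _ ha).symm, (n0 _ hb).symm, (n0 _ hc).symm]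

end diag

variable {K : Type*} [Field K] [CharP K 3] {m : ℕ}

theorem InR.isAut {L : Type*} [Field L] [CharP L 3] (ι : K →+* L) {A : M7 K} (h : InR m A) :
    IsAut (A.map ι) := by
  obtain ⟨g, -, h⟩ := h
  have h1 := h.map ι
  exact ⟨h1.cr_eq, h1.bf_eq, h1.orth, h1.det⟩

omit [CharP K 3] in
theorem map_pow_eq_one_iff {L : Type*} [Field L] (ι : K →+* L) (A : M7 K) (k : ℕ) :
    (A.map ι) ^ k = 1 ↔ A ^ k = 1 := by
  rw [← Matrix.map_pow, ← Matrix.map_one ι (map_zero ι) (map_one ι),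
    (Matrix.map_injective ι.injective).eq_iff]

theorem InR.long_eq {L : Type*} [Field L] [CharP L 3] (ι : K →+* L) {A : M7 K} (h : InR m A)
    {α β γ : Additive Lˣ} (hd : Diag (A.map ι) α β γ) :
    dk (3 ^ (m + 1) • α) + dk (3 ^ (m + 1) • β) + dk (3 ^ (m + 1) • γ) =
      dk (β - γ) + dk (γ - α) + dk (α - β) := by
  obtain ⟨g, -, h⟩ := h
  have h1 := congrArg ι h.trace_eq
  have h2 := hd.trace
  have h3 := (hd.pow 2).trace
  rw [← AddMonoidHom.map_trace] at h1 h2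
  rw [← Matrix.map_pow, ← AddMonoidHom.map_trace, sq, dk_two, dk_two, dk_two] at h3
  rw [iterateFrobenius_def, map_pow, map_sub, map_add, map_pow, h2, h3, add_pow_char_pow,
    add_pow_char_pow, add_pow_char_pow, one_pow] at h1
  rw [dk_frob, dk_frob, dk_frob, dk_long hd.1]
  grind

theorem InR.match {L : Type*} [Field L] [CharP L 3] (ι : K →+* L) {A : M7 K} (h : InR m A)
    {α β γ : Additive Lˣ} (hd : Diag (A.map ι) α β γ) (θ : ℤ) (hθ : θ = 3 ^ (m + 1)) :
    ∃ ε : ℤ, (ε = 1 ∨ ε = -1) ∧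
      ((θ • α = ε • (β - γ) ∧ θ • β = ε • (γ - α) ∧ θ • γ = ε • (α - β)) ∨
      (θ • α = ε • (β - γ) ∧ θ • β = ε • (α - β) ∧ θ • γ = ε • (γ - α)) ∨
      (θ • α = ε • (γ - α) ∧ θ • β = ε • (β - γ) ∧ θ • γ = ε • (α - β)) ∨
      (θ • α = ε • (γ - α) ∧ θ • β = ε • (α - β) ∧ θ • γ = ε • (β - γ)) ∨
      (θ • α = ε • (α - β) ∧ θ • β = ε • (β - γ) ∧ θ • γ = ε • (γ - α)) ∨
      (θ • α = ε • (α - β) ∧ θ • β = ε • (γ - α) ∧ θ • γ = ε • (β - γ))) := by
  have h1 := h.long_eq ι hd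
  have h2 := (h.pow 2).long_eq ι (by rw [Matrix.map_pow]; exact hd.pow 2)
  simp only [nsmul_left_comm _ 2, ← nsmul_sub, dk_two] at h2
  have e : ∀ x : Additive Lˣ, θ • x = 3 ^ (m + 1) • x := fun x => by
    rw [hθ, ← natCast_zsmul]; simp
  simp only [e]
  apply dk_match (hd.pow _).1 (by abel) h1
  grind

theorem InR.torus {L : Type*} [Field L] [CharP L 3] (ι : K →+* L) {A : M7 K} (h : InR m A)
    {α β γ : Additive Lˣ} (hd : Diag (A.map ι) α β γ) :
    A ^ (3 ^ (2 * m + 1) - 1) = 1 ∨ A ^ ((3 ^ (2 * m + 1) + 1) / 2) = 1 ∨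
      A ^ (3 ^ (2 * m + 1) + 3 ^ (m + 1) + 1) = 1 ∨ A ^ (3 ^ (2 * m + 1) + 1 - 3 ^ (m + 1)) = 1 := by
  obtain ⟨ε, hε, h1⟩ := h.match ι hd _ rfl
  obtain ⟨k, hk⟩ : Odd ((3 : ℤ) ^ (m + 1)) := Odd.pow (by decide)
  obtain ⟨r, hr⟩ : Even (3 ^ (2 * m + 1) + 1) := (Odd.pow (by decide)).add_one
  have h2 : 3 ^ (m + 1) ≤ 3 ^ (2 * m + 1) := Nat.pow_le_pow_right (by norm_num) (by omega)
  have h3 : 1 ≤ 3 ^ (2 * m + 1) := Nat.one_le_pow _ _ (by norm_num)
  obtain ⟨n, hn, ha, hb⟩ := torus_bound eq_zero_of_three_smul _ (3 ^ (2 * m + 1)) k ε (by ring) hk r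
    (by exact_mod_cast hr.trans (two_mul r).symm) hε α β γ hd.1 h1
  have key : ∀ j : ℕ, n = j → A ^ j = 1 := by
    rintro j rfl
    rw [natCast_zsmul] at ha hb
    rw [← map_pow_eq_one_iff ι, hd.pow_eq_one_iff]
    have := (hd.pow j).1
    rw [ha, hb, zero_add, zero_add] at this
    exact ⟨ha, hb, this⟩
  rcases hn with hn | hn | hn | hn
  · exact Or.inl (key _ (by rw [hn]; push_cast [h3]; rfl))
  · exact Or.inr (Or.inl (key _ (by rw [hn, hr]; congr 1; omega)))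
  · exact Or.inr (Or.inr (Or.inl (key _ (by rw [hn]; push_cast; rfl))))
  · exact Or.inr (Or.inr (Or.inr (key _ (by
      rw [hn, Nat.cast_sub (by omega)]; push_cast; ring))))

theorem InR.regular {L : Type*} [Field L] [CharP L 3] (ι : K →+* L) {A : M7 K} (h : InR m A)
    {α β γ : Additive Lˣ} (hd : Diag (A.map ι) α β γ) (h2 : A ^ 2 ≠ 1) :
    Function.Injective ![0, α, β, γ, -α, -β, -γ] := by
  obtain ⟨ε, hε, h1⟩ := h.match ι hd _ rfl
  obtain ⟨k, hk⟩ : Odd ((3 : ℤ) ^ (m + 1)) := Odd.pow (by decide)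
  have h0 := hd.1
  rw [Ne, ← map_pow_eq_one_iff ι, hd.pow_eq_one_iff] at h2
  simp only [← natCast_zsmul, Nat.cast_ofNat] at h2
  have ha : (2 : ℤ) • α ≠ 0 := fun ha => h2 ⟨ha, two_smul_of_root _ k ε hk hε α β γ h0 (by
    rcases h1 with h | h | h | h | h | h <;> simp only [h.1, true_or, or_true]) ha⟩
  have hb : (2 : ℤ) • β ≠ 0 := fun hb => ha (two_smul_of_root _ k ε hk hε β γ α (by
    rw [← h0]; abel) (by
    rcases h1 with h | h | h | h | h | h <;> simp only [h.2.1, true_or, or_true]) hb).2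
  have hc : (2 : ℤ) • γ ≠ 0 := fun hc => ha (two_smul_of_root _ k ε hk hε γ α β (by
    rw [← h0]; abel) (by
    rcases h1 with h | h | h | h | h | h <;> simp only [h.2.2, true_or, or_true]) hc).1
  have key : ∀ x y : Additive Lˣ, (2 : ℤ) • x ≠ 0 → (3 : ℤ) ^ (m + 1) • x = ε • y → y ≠ 0 := by
    rintro x _ hx h rfl
    rw [smul_zero] at h
    rw [eq_zero_of_pow_three_smul x (m + 1) (by exact_mod_cast h), smul_zero] at hx
    exact hx rfl
  rcases h1 with h | h | h | h | h | h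
  all_goals
    have a1 := key _ _ ha h.1
    have a2 := key _ _ hb h.2.1
    have a3 := key _ _ hc h.2.2
    exact injective_weights h0 ha hb hc (by assumption) (by assumption) (by assumption)

variable [Fintype K]

theorem InR.pow_eq_one {A : M7 K} (h : InR m A) : A ^ 6 = 1 ∨ A ^ 9 = 1 ∨
    A ^ (3 ^ (2 * m + 1) - 1) = 1 ∨ A ^ ((3 ^ (2 * m + 1) + 1) / 2) = 1 ∨
      A ^ (3 ^ (2 * m + 1) + 3 ^ (m + 1) + 1) = 1 ∨ A ^ (3 ^ (2 * m + 1) + 1 - 3 ^ (m + 1)) = 1 := by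
  let ι := algebraMap K (AlgebraicClosure K)
  have : CharP (AlgebraicClosure K) 3 := charP_of_injective_algebraMap ι.injective 3
  obtain ⟨n, hn0, hn⟩ := h.choose_spec.2.exists_pow
  obtain ⟨j, N, hN, rfl⟩ := Nat.exists_eq_pow_mul_and_not_dvd hn0 3 (by norm_num)
  have hcop : Nat.Coprime (3 ^ j) N :=
    Nat.Coprime.pow_left _ ((Nat.Prime.coprime_iff_not_dvd Nat.prime_three).2 hN)
  have key : ∀ k, (A ^ 3 ^ j) ^ k = 1 → (A ^ N) ^ k = 1 → A ^ k = 1 := by
    intro k h1 h2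
    rw [← pow_mul, ← orderOf_dvd_iff_pow_eq_one] at h1 h2
    rw [← orderOf_dvd_iff_pow_eq_one]
    have := Nat.dvd_gcd h1 h2
    rwa [Nat.gcd_mul_right, hcop, one_mul] at this
  have hs := h.pow (3 ^ j)
  have hu := h.pow N
  have hsN : (A ^ 3 ^ j) ^ N = 1 := by rw [← pow_mul, hn]
  have huj : (A ^ N) ^ 3 ^ j = 1 := by rw [← pow_mul, mul_comm, hn]
  have hc : (A ^ N).map ι * (A ^ 3 ^ j).map ι = (A ^ 3 ^ j).map ι * (A ^ N).map ι := by
    rw [← Matrix.map_mul, ← Matrix.map_mul, pow_mul_comm]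
  obtain ⟨α, β, γ, hd⟩ := (hs.isAut ι).exists_diag' N hN ((map_pow_eq_one_iff ι _ _).2 hsN)
  by_cases h2 : (A ^ 3 ^ j) ^ 2 = 1
  · by_cases h1 : A ^ 3 ^ j = 1
    · exact Or.inr (Or.inl (key 9 (by rw [h1, one_pow]) (pow_nine_of_unip _ j huj)))
    · have h3 := hd.cube_eq_one (hs.isAut ι) ((map_pow_eq_one_iff ι _ _).2 h2)
        (fun e => h1 (by rwa [← pow_one (Matrix.map _ _), map_pow_eq_one_iff, pow_one] at e))
        (hu.isAut ι) hc j ((map_pow_eq_one_iff ι _ _).2 huj)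
      rw [map_pow_eq_one_iff] at h3
      exact Or.inl (key 6 (by rw [show 6 = 2 * 3 from rfl, pow_mul, h2, one_pow])
        (by rw [show 6 = 3 * 2 from rfl, pow_mul, h3, one_pow]))
  · have h3 := hs.regular ι hd h2
    have h4 := hs.torus ι hd
    obtain ⟨-, P, hP, hd⟩ := hd
    have h5 := eq_one_of_commute_diag 3 hP hd (ex_injective.comp h3) _ hc j
      ((map_pow_eq_one_iff ι _ _).2 huj)
    rw [← pow_one (Matrix.map _ _), map_pow_eq_one_iff, pow_one] at h5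
    refine Or.inr (Or.inr (h4.imp ?_ (Or.imp ?_ (Or.imp ?_ ?_)))) <;>
      exact fun e => key _ e (by rw [h5, one_pow])

theorem exists_semisimple (hK : Fintype.card K = 3 ^ (2 * m + 1)) (τ : K) :
    ∃ (A : M7 K) (N : ℕ), InR m A ∧ A.trace = τ ∧ ¬3 ∣ N ∧ A ^ N = 1 := by
  obtain ⟨A, h, rfl⟩ := exists_trace_eq hK τ
  obtain ⟨n, hn0, hn⟩ := h.choose_spec.2.exists_pow
  obtain ⟨j, N, hN, rfl⟩ := Nat.exists_eq_pow_mul_and_not_dvd hn0 3 (by norm_num)
  refine ⟨A ^ Fintype.card K ^ j, N, h.pow _, ?_, hN, ?_⟩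
  · clear hn hn0
    induction j with
    | zero => simp
    | succ j ih => rw [pow_succ, pow_mul, FiniteField.trace_pow_card, ih, FiniteField.pow_card]
  · rw [← pow_mul, hK, ← pow_mul, show (2 * m + 1) * j = j + 2 * m * j by ring, pow_add,
      mul_right_comm, pow_mul, hn, one_pow]

theorem exists_of_torus (hK : Fintype.card K = 3 ^ (2 * m + 1))
    (α β γ : Additive (AlgebraicClosure K)ˣ) (h0 : α + β + γ = 0) (θ q : ℤ) (hθ : θ = 3 ^ (m + 1))
    (hq : q = 3 ^ (2 * m + 1))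
    (h1 : dk (θ • α) + dk (θ • β) + dk (θ • γ) = dk (β - γ) + dk (γ - α) + dk (α - β))
    (h2 : dk (q • α) + dk (q • β) + dk (q • γ) = dk α + dk β + dk γ) :
    ∃ A : M7 K, InR m A ∧ ∀ k : ℕ, A ^ k = 1 ↔ k • α = 0 ∧ k • β = 0 ∧ k • γ = 0 := by
  let ι := algebraMap K (AlgebraicClosure K)
  have : CharP (AlgebraicClosure K) 3 := charP_of_injective_algebraMap ι.injective 3
  have e : ∀ (k : ℕ) (x : Additive (AlgebraicClosure K)ˣ), (3 : ℤ) ^ k • x = 3 ^ k • x :=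
    fun k x => by rw [← natCast_zsmul]; simp
  simp only [hθ, hq, e, dk_frob] at h1 h2
  obtain ⟨τ, hτ⟩ := mem_range_of_pow_card_eq (F := K) (1 + (dk α + dk β + dk γ)) (by
    rw [hK, add_pow_char_pow, add_pow_char_pow, add_pow_char_pow, h2, one_pow])
  obtain ⟨A, N, hA, rfl, hN, hAN⟩ := exists_semisimple hK τ
  obtain ⟨α', β', γ', hd⟩ := (hA.isAut ι).exists_diag' N hN ((map_pow_eq_one_iff ι _ _).2 hAN)
  refine ⟨A, hA, fun k => ?_⟩
  have h3 := hd.trace
  rw [← AddMonoidHom.map_trace, hτ, add_right_inj] at h3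
  have h4 := hA.long_eq ι hd
  simp only [dk_frob] at h4
  rw [← add_pow_char_pow, ← add_pow_char_pow, dk_long h0] at h1
  rw [← add_pow_char_pow, ← add_pow_char_pow, dk_long hd.1, ← h3, h1, sub_left_inj] at h4
  obtain ⟨ε, hε, h5⟩ := dk_match h0 hd.1 h3 h4
  have e2 : ∀ x : Additive (AlgebraicClosure K)ˣ, k • ε • x = 0 ↔ k • x = 0 := fun x => by
    rcases hε with rfl | rfl <;> simp
  rw [← map_pow_eq_one_iff ι, hd.pow_eq_one_iff]
  rcases h5 with h | h | h | h | h | h <;> simp only [h, e2] <;> tauto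

theorem exists_orderOf_of_torus (hK : Fintype.card K = 3 ^ (2 * m + 1)) (n : ℕ) (hn : ¬3 ∣ n)
    (θ q : ℤ) (hθ : θ = 3 ^ (m + 1)) (hq : q = 3 ^ (2 * m + 1)) (b c : ℤ) (h0 : 1 + b + c = 0)
    (h : ∀ α : Additive (AlgebraicClosure K)ˣ, (n : ℤ) • α = 0 →
      dk (θ • α) + dk (θ • b • α) + dk (θ • c • α) =
        dk (b • α - c • α) + dk (c • α - α) + dk (α - b • α) ∧
      dk (q • α) + dk (q • b • α) + dk (q • c • α) = dk α + dk (b • α) + dk (c • α)) :
    ∃ A : M7 K, InR m A ∧ orderOf A = n := by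
  have : CharP (AlgebraicClosure K) 3 :=
    charP_of_injective_algebraMap (algebraMap K _).injective 3
  have : NeZero (n : AlgebraicClosure K) := ⟨fun h => hn ((CharP.cast_eq_zero_iff _ 3 n).1 h)⟩
  have : NeZero n := ⟨by rintro rfl; simp at hn⟩
  obtain ⟨z, hz⟩ := HasEnoughRootsOfUnity.exists_primitiveRoot (AlgebraicClosure K) n
  obtain ⟨α, rfl⟩ := exists_ex (hz.ne_zero (NeZero.ne n))
  have h1 : ∀ k : ℕ, k • α = 0 ↔ n ∣ k := fun k => by
    rw [← ex_eq_one, ex_nsmul, hz.pow_eq_one_iff_dvd]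
  obtain ⟨h2, h3⟩ := h α (by rw [natCast_zsmul, h1])
  obtain ⟨A, hA, h4⟩ := exists_of_torus hK α (b • α) (c • α) (by
    linear_combination (norm := module) h0 • α) θ q hθ hq h2 h3
  refine ⟨A, hA, Nat.dvd_right_iff_eq.1 fun k => ?_⟩
  rw [orderOf_dvd_iff_pow_eq_one, h4, ← h1]
  refine ⟨fun h => h.1, fun h => ⟨h, ?_, ?_⟩⟩ <;> rw [← natCast_zsmul] at h ⊢
  · linear_combination (norm := module) b • h
  · linear_combination (norm := module) c • h

theorem spec_ree (hK : Fintype.card K = 3 ^ (2 * m + 1)) :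
    Set.range (orderOf : twistedG2 K (3 ^ m) → ℕ) = {d | d ∣ 6 ∨ d ∣ 9 ∨ d ∣ 3 ^ (2 * m + 1) - 1 ∨
      d ∣ (3 ^ (2 * m + 1) + 1) / 2 ∨ d ∣ 3 ^ (2 * m + 1) + 3 ^ (m + 1) + 1 ∨
      d ∣ 3 ^ (2 * m + 1) + 1 - 3 ^ (m + 1)} := by
  have key : ∀ n, (∃ A : M7 K, InR m A ∧ orderOf A = n) → ∃ g : twistedG2 K (3 ^ m), orderOf g = n :=
    fun n h => (spec_ree_eq hK).symm.subset h
  obtain ⟨k, hk⟩ : Odd ((3 : ℤ) ^ (m + 1)) := Odd.pow (by decide)
  obtain ⟨r, hr⟩ : Even (3 ^ (2 * m + 1) + 1) := (Odd.pow (by decide)).add_one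
  have h2 : 3 ^ (m + 1) ≤ 3 ^ (2 * m + 1) := Nat.pow_le_pow_right (by norm_num) (by omega)
  have h3 : 1 ≤ 3 ^ (2 * m + 1) := Nat.one_le_pow _ _ (by norm_num)
  have h4 : 3 ∣ 3 ^ (2 * m + 1) := dvd_pow_self 3 (by omega)
  have h5 : 3 ∣ 3 ^ (m + 1) := dvd_pow_self 3 (by omega)
  have hθq : ((3 : ℤ) ^ (m + 1)) ^ 2 = 3 * 3 ^ (2 * m + 1) := by ring
  have dks : ∀ x y : Additive (AlgebraicClosure K)ˣ, x = -y → dk x = dk y := by
    rintro _ y rfl; exact dk_neg y
  apply spec_eq_of_six _ _ _ _ _ _ _ (key _ (exists_order_six hK)) (key _ (exists_order_nine hK))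
  · refine key _ (exists_orderOf_of_torus hK _ (by omega) _ _ rfl rfl (3 ^ (m + 1) + 1)
      (-(3 ^ (m + 1) + 2)) (by ring) fun α hα => ?_)
    rw [Nat.cast_sub h3, Nat.cast_pow] at hα
    simp only [Nat.cast_ofNat, Nat.cast_one] at hα
    generalize (3 : ℤ) ^ (m + 1) = θ at *
    generalize (3 : ℤ) ^ (2 * m + 1) = q at *
    have e : ∀ c : ℤ, q • c • α = c • α := fun c => by
      linear_combination (norm := module) c • hα
    constructor
    · rw [dks (θ • α) (α - (θ + 1) • α) (by module),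
        dks (θ • (θ + 1) • α) (-(θ + 2) • α - α)
          (by linear_combination (norm := module) hθq • α + 3 • hα),
        dks (θ • -(θ + 2) • α) ((θ + 1) • α - -(θ + 2) • α)
          (by linear_combination (norm := module) -hθq • α - 3 • hα)]
      ring
    · rw [e, e, show q • α = α by linear_combination (norm := module) hα]
  · refine key _ (exists_orderOf_of_torus hK _ (by omega) _ _ rfl rfl k (-(k + 1)) (by ring)
      fun α hα => ?_)
    rw [hr, show (r + r) / 2 = r by omega] at hα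
    have hr' : (3 : ℤ) ^ (2 * m + 1) = 2 * r - 1 := by
      have : (3 : ℤ) ^ (2 * m + 1) + 1 = r + r := by exact_mod_cast hr
      linarith
    rw [hk, hr'] at hθq
    have h6 : 2 * k ^ 2 + 2 * k + 2 = 3 * r := by nlinarith
    rw [hk, hr']
    have e : ∀ c : ℤ, (2 * r - 1 : ℤ) • c • α = -(c • α) := fun c => by
      linear_combination (norm := module) (2 * c) • hα
    constructor
    · rw [show (2 * k + 1) • α = k • α - -(k + 1) • α by module,
        show (2 * k + 1) • k • α = -(k + 1) • α - α by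
          linear_combination (norm := module) h6 • α + 3 • hα,
        show (2 * k + 1) • -(k + 1) • α = α - k • α by
          linear_combination (norm := module) -h6 • α - 3 • hα]
    · rw [dks _ _ (e _), dks _ _ (e _), dks _ α (by linear_combination (norm := module) 2 • hα)]
  · refine key _ (exists_orderOf_of_torus hK _ (by omega) _ _ rfl rfl (-(3 ^ (m + 1) + 2))
      (3 ^ (m + 1) + 1) (by ring) fun α hα => ?_)
    push_cast at hα
    generalize (3 : ℤ) ^ (m + 1) = θ at *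
    generalize (3 : ℤ) ^ (2 * m + 1) = q at *
    constructor
    · rw [show θ • α = (θ + 1) • α - α by module,
        show θ • -(θ + 2) • α = α - -(θ + 2) • α by
          linear_combination (norm := module) -hθq • α - 3 • hα,
        show θ • (θ + 1) • α = -(θ + 2) • α - (θ + 1) • α by
          linear_combination (norm := module) hθq • α + 3 • hα]
      ring
    · rw [dks (q • α) ((θ + 1) • α) (by linear_combination (norm := module) hα),
        dks (q • -(θ + 2) • α) α (by linear_combination (norm := module) hθq • α + (1 - θ) • hα),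
        dks (q • (θ + 1) • α) (-(θ + 2) • α)
          (by linear_combination (norm := module) -hθq • α + (θ - 2) • hα)]
      ring
  · refine key _ (exists_orderOf_of_torus hK _ (by omega) _ _ rfl rfl (3 ^ (m + 1) - 2)
      (1 - 3 ^ (m + 1)) (by ring) fun α hα => ?_)
    rw [Nat.cast_sub (by omega)] at hα
    push_cast at hα
    generalize (3 : ℤ) ^ (m + 1) = θ at *
    generalize (3 : ℤ) ^ (2 * m + 1) = q at *
    constructor
    · rw [dks (θ • α) ((1 - θ) • α - α) (by module),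
        dks (θ • (θ - 2) • α) (α - (θ - 2) • α)
          (by linear_combination (norm := module) hθq • α + 3 • hα),
        dks (θ • (1 - θ) • α) ((θ - 2) • α - (1 - θ) • α)
          (by linear_combination (norm := module) -hθq • α - 3 • hα)]
      ring
    · rw [dks (q • α) ((1 - θ) • α) (by linear_combination (norm := module) hα),
        dks (q • (θ - 2) • α) α (by linear_combination (norm := module) hθq • α + (1 + θ) • hα),
        dks (q • (1 - θ) • α) ((θ - 2) • α)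
          (by linear_combination (norm := module) -hθq • α + (-θ - 2) • hα)]
      ring
  · intro g
    obtain ⟨A, hA, hg⟩ := (spec_ree_eq hK).subset ⟨g, rfl⟩
    simp only [← hg, orderOf_dvd_iff_pow_eq_one]
    exact hA.pow_eq_one

end CfsgH7.Ree
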