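import Cfsg.Agent.SZ.SIG_c
import Cfsg.Agent.FT.Main
import Cfsg.Prelude.Def_CaseTheorems

set_option autoImplicit false
set_option linter.unusedSectionVars false

/-! From solvable involution centralisers and a normal elementary subgroup of order at least 8 in a
Sylow 2-subgroup to a strongly embedded subgroup (helper for S3332). -/

namespace CfsgH7SE

open Subgroup CfsgH5 CfsgH6 CfsgFT CfsgSZ
open scoped commutatorElement

universe u

variable {G : Type u} [Group G] [Finite G]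

/-- `a`, `b` generate a four-group. -/
structure Four (a b : G) : Prop where
  aa : a * a = 1
  bb : b * b = 1
  a1 : a ≠ 1
  b1 : b ≠ 1
  ne : a ≠ b
  cm : a * b = b * a

/-- the signalizer of a four-group. -/
def Wf (a b : G) : Subgroup G := Opc 2 (C1 a) ⊔ Opc 2 (C1 b) ⊔ Opc 2 (C1 (a * b))

theorem Four.symm {a b : G} (h : Four a b) : Four b a :=
  ⟨h.bb, h.aa, h.b1, h.a1, h.ne.symm, h.cm.symm⟩

theorem Four.cjj {a b : G} (h : Four a b) (g : G) : Four (g * a * g⁻¹) (g * b * g⁻¹) where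
  aa := by rw [conj_mul, h.aa]; simp
  bb := by rw [conj_mul, h.bb]; simp
  a1 := fun e => h.a1 (conj_eq_one_iff.1 e)
  b1 := fun e => h.b1 (conj_eq_one_iff.1 e)
  ne := fun e => h.ne (by simpa using e)
  cm := by rw [conj_mul, conj_mul, h.cm]

theorem Four.mul {a b : G} (h : Four a b) : Four a (a * b) where
  aa := h.aa
  bb := by
    calc a * b * (a * b) = a * (b * a) * b := by group
      _ = (a * a) * (b * b) := by rw [← h.cm]; group
      _ = 1 := by rw [h.aa, h.bb, mul_one]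
  a1 := h.a1
  b1 := fun e => h.ne (mul_left_cancel (h.aa.trans e.symm))
  ne := fun e => h.b1 (by simpa using e.symm)
  cm := by rw [mul_assoc, ← h.cm]

theorem Four.of_ln {E : Subgroup G} (hE : ElAb 2 E) {a b : G} (h : Ln E a b) : Four a b :=
  ⟨sq_of_elAb hE h.l, sq_of_elAb hE h.r, h.l1, h.r1, h.ne, hE.1 a h.l b h.r⟩

theorem Four.ln {a b : G} (h : Four a b) {E : Subgroup G} (ha : a ∈ E) (hb : b ∈ E) : Ln E a b :=
  ⟨ha, hb, h.a1, h.b1, h.ne⟩

theorem elAb_zp {a : G} (h : a * a = 1) : ElAb 2 (zpowers a) := by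
  constructor
  · intro x hx y hy
    rcases (mem_zpowers_invol h).1 hx with rfl | rfl <;>
      rcases (mem_zpowers_invol h).1 hy with rfl | rfl <;> simp
  · intro x hx
    rcases (mem_zpowers_invol h).1 hx with rfl | rfl
    · simp
    · rw [pow_two, h]

theorem elAb_sup_zp {V : Subgroup G} (hV : ElAb 2 V) {x : G} (h : x * x = 1)
    (hc : ∀ v ∈ V, v * x = x * v) : ElAb 2 (V ⊔ zpowers x) :=
  hV.sup (elAb_zp h) fun a ha b hb => by
    rcases (mem_zpowers_invol h).1 hb with rfl | rfl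
    · simp
    · exact hc a ha

theorem Four.elAb {a b : G} (h : Four a b) : ElAb 2 (zpowers a ⊔ zpowers b) :=
  elAb_sup_zp (elAb_zp h.aa) h.bb fun v hv => by
    rcases (mem_zpowers_invol h.aa).1 hv with rfl | rfl
    · simp
    · exact h.cm

theorem Wf_symm {a b : G} (h : a * b = b * a) : Wf a b = Wf b a := by
  unfold Wf; rw [h, sup_comm (Opc 2 (C1 a))]

theorem Wf_mul {a b : G} (h : a * a = 1) : Wf a (a * b) = Wf a b := by
  unfold Wf; rw [← mul_assoc, h, one_mul, sup_right_comm]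

theorem cj_Wf (g a b : G) : cj g (Wf a b) = Wf (g * a * g⁻¹) (g * b * g⁻¹) := by
  unfold Wf; simp only [cj_sup, cj_Opi, cj_C1, conj_mul]

theorem odd_Opc' (X : Subgroup G) : Odd (Nat.card (Opc 2 X)) :=
  Nat.not_even_iff_odd.1 fun e => not_dvd_card_Opc Nat.prime_two X (even_iff_two_dvd.1 e)

theorem le_Opc' {A X : Subgroup G} (h1 : A ≤ X) (h2 : Nrm X A) (h3 : Odd (Nat.card A)) :
    A ≤ Opc 2 X :=
  le_Opi h1 h2 ((piG_compl_single Nat.prime_two).2 fun e =>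
    Nat.not_even_iff_odd.2 h3 (even_iff_two_dvd.2 e))

theorem eight_le {V : Subgroup G} (hV : ElAb 2 V) {c d x : G} (h : Ln V c d) (hx : x ∉ V) :
    8 ≤ Nat.card ↥(V ⊔ zpowers x) := by
  classical
  have h4 : 4 ≤ Nat.card V := by
    have f := Four.of_ln hV h
    have : ({1, c, d, c * d} : Finset G).card = 4 := by
      rw [Finset.card_eq_four]
      exact ⟨1, c, d, c * d, f.a1.symm, f.b1.symm, f.mul.b1.symm, f.ne, f.mul.ne,
        fun e => f.a1 (by simpa using e.symm), rfl⟩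
    rw [← this, ← Set.ncard_coe_finset]
    refine Set.ncard_le_ncard (t := (V : Set G)) ?_
    intro y hy
    simp only [Finset.coe_insert, Finset.coe_singleton, Set.mem_insert_iff,
      Set.mem_singleton_iff] at hy
    rcases hy with rfl | rfl | rfl | rfl
    exacts [V.one_mem, h.l, h.r, h.m]
  have h1 : V < V ⊔ zpowers x := lt_of_le_of_ne le_sup_left fun e =>
    hx (e ▸ (le_sup_right : zpowers x ≤ V ⊔ zpowers x) (mem_zpowers x))
  have h2 := card_lt_of_lt h1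
  obtain ⟨k, hk⟩ := card_dvd_of_le h1.le
  rcases k with _ | _ | k
  · omega
  · omega
  · rw [hk]; nlinarith

section
variable (hsol : ∀ t : G, t * t = 1 → t ≠ 1 → Group.IsSolvable (C1 t))
include hsol

theorem bal {a b : G} (ha : a * a = 1) (hb : b * b = 1) (b1 : b ≠ 1) (hc : a * b = b * a) :
    Opc 2 (C1 a) ⊓ C1 b ≤ Opc 2 (C1 b) := by
  have h1 := Opc_inf_C_le Nat.prime_two (hsol b hb b1) (R := zpowers a)
    (zpowers_le.2 (mem_C1.2 hc)) (elAb_zp ha).isPGroup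
  rw [C_zpowers] at h1
  refine le_trans (le_Opc' (le_inf inf_le_right (inf_le_left.trans (Opi_le _ _))) ?_
    (odd_of_le (odd_Opc' _) inf_le_left)) h1
  exact ((nrm_Opi _ _).mono inf_le_right).inf ((Nrm.self _).mono inf_le_left)

theorem sig {E : Subgroup G} (hE : ElAb 2 E) (h8 : 8 ≤ Nat.card E) :
    ∃ W : Subgroup G, Odd (Nat.card W) ∧ ∀ a b, Ln E a b → Wf a b = W := by
  obtain ⟨W, h1, -, h3, h4⟩ := SIG_holds.sig (A := E) (θ := fun a => Opc 2 (C1 a))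
    { elAb := hE
      rk := h8
      le := fun a _ _ => Opi_le _ _
      nrm := fun a ha _ => (nrm_Opi _ _).mono fun b hb => mem_C1.2 (hE.1 b hb a ha)
      solv := fun a _ _ => feit_thompson _ (odd_Opc' _)
      odd := fun a _ _ => odd_Opc' _
      bal := fun a ha _ b hb b1 =>
        bal hsol (sq_of_elAb hE ha) (sq_of_elAb hE hb) b1 (hE.1 a ha b hb) }
  refine ⟨W, h3, fun a b h => le_antisymm ?_ ?_⟩
  · refine sup_le (sup_le ?_ ?_) ?_
    · rw [← h4 a h.l h.l1]; exact inf_le_left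
    · rw [← h4 b h.r h.r1]; exact inf_le_left
    · rw [← h4 _ h.m (h.m1 hE)]; exact inf_le_left
  · refine h.gen hE h1 h3 ?_ ?_ ?_
    · rw [h4 a h.l h.l1]; exact le_sup_left.trans le_sup_left
    · rw [h4 b h.r h.r1]; exact le_sup_right.trans le_sup_left
    · rw [h4 _ h.m (h.m1 hE)]; exact le_sup_right

theorem Wf_eq {E : Subgroup G} (hE : ElAb 2 E) (h8 : 8 ≤ Nat.card E) {a b c d : G}
    (h1 : Ln E a b) (h2 : Ln E c d) : Wf a b = Wf c d := by
  obtain ⟨W, -, h⟩ := sig hsol hE h8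
  rw [h a b h1, h c d h2]

end

/-- an involution normalising an elementary abelian group of order at least 8 centralises a line. -/
theorem exists_ln_C1 {E : Subgroup G} (hE : ElAb 2 E) (h8 : 8 ≤ Nat.card E) {x : G}
    (hx : x * x = 1) (hn : ∀ e ∈ E, x * e * x⁻¹ ∈ E) {z : G} (hz : z ∈ E) (z1 : z ≠ 1)
    (hzx : z * x = x * z) : ∃ c, Ln (E ⊓ C1 x) z c := by
  classical
  by_contra hc
  have xi : x⁻¹ = x := inv_eq_of_mul_eq_one_right hx
  have h1 : ∀ c ∈ E, c * x = x * c → c = 1 ∨ c = z := fun c h1 h2 => by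
    by_contra h3
    push Not at h3
    exact hc ⟨c, ⟨hz, mem_C1.2 hzx⟩, ⟨h1, mem_C1.2 h2⟩, z1, h3.1, h3.2.symm⟩
  have h2 : ∀ e ∈ E, x * e * x⁻¹ = e ∨ x * e * x⁻¹ = e * z := fun e he => by
    have a1 := hE.1 e he _ (hn e he)
    have a2 := sq_of_elAb hE he
    rcases h1 (e * (x * e * x⁻¹)) (E.mul_mem he (hn e he)) (by
      calc e * (x * e * x⁻¹) * x = x * (x * e * x⁻¹ * e) := by
            rw [xi]
            calc e * (x * e * x) * x = e * x * e * (x * x) := by group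
              _ = (x * x) * e * x * e := by rw [hx]; group
              _ = _ := by group
        _ = _ := by rw [← a1]) with h | h
    · left
      exact mul_left_cancel (h.trans a2.symm)
    · right
      calc x * e * x⁻¹ = (e * e) * (x * e * x⁻¹) := by rw [a2, one_mul]
        _ = e * z := by rw [mul_assoc, h]
  obtain ⟨y, w, hl, hw, w1, wz, wy, wzy⟩ := exists_basis h8 hz z1
  have fix : ∀ e ∈ E, x * e * x⁻¹ = e → e = 1 ∨ e = z := fun e he h =>
    h1 e he (by rw [← mul_inv_eq_iff_eq_mul.1 h])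
  have hy : x * y * x⁻¹ = y * z := (h2 y hl.r).resolve_left fun h => by
    rcases fix y hl.r h with e | e
    exacts [hl.r1 e, hl.ne e.symm]
  have hw' : x * w * x⁻¹ = w * z := (h2 w hw).resolve_left fun h => by
    rcases fix w hw h with e | e
    exacts [w1 e, wz e]
  have zz := sq_of_elAb hE hz
  have yy := sq_of_elAb hE hl.r
  have : x * (y * w) * x⁻¹ = y * w := by
    rw [← conj_mul, hy, hw']
    calc y * z * (w * z) = y * (z * w) * z := by group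
      _ = y * w * (z * z) := by rw [hE.1 z hz w hw]; group
      _ = _ := by rw [zz, mul_one]
  rcases fix _ (E.mul_mem hl.r hw) this with e | e
  · exact wy (mul_left_cancel (e.trans yy.symm))
  · apply wzy
    calc w = (y * y) * w := by rw [yy, one_mul]
      _ = y * z := by rw [mul_assoc, e]
      _ = _ := hE.1 y hl.r z hz

/-- the solvable centraliser of `t` lies in `H`. -/
theorem le_of_solv {H : Subgroup G} {t e1 e2 : G} (ht : t ∈ H) (h1 : e1 ∈ H) (h2 : e2 ∈ H)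
    (f : Four e1 e2) (f1 : Four t e1) (f2 : Four t e2) (f3 : Four t (e1 * e2))
    (hK : ∀ a ∈ H, ∀ b ∈ H, Four a b → ∀ g, g * a * g⁻¹ ∈ H → g * b * g⁻¹ ∈ H → g ∈ H)
    {M : Subgroup G} : Group.IsSolvable M → M ≤ C1 t → Nrm (zpowers e1 ⊔ zpowers e2) M → M ≤ H := by
  induction hn : Nat.card M using Nat.strong_induction_on generalizing M with | _ n ih => ?_
  subst hn
  intro hs hM hN
  by_cases h0 : M = ⊥
  · rw [h0]; exact bot_le
  have hD := ih _ (card_lt_of_lt (D_lt_of_solvable hs h0)) rfl (solvable_of_le hs (D_le M))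
    ((D_le M).trans hM) hN.D
  have R : ∀ e ∈ H, Four t e → ∀ y ∈ M, y * e * y⁻¹ ∈ H → y ∈ H := fun e he fe y hy h =>
    hK t ht e he fe y (by rw [mem_C1_iff_conj.1 (hM hy)]; exact ht) h
  have F : ∀ e ∈ H, Four t e → e ∈ zpowers e1 ⊔ zpowers e2 → ∀ g ∈ M, g * (e * g * e⁻¹) ∈ H :=
    fun e he fe hm g hg => by
      have a1 := hN e hm g hg
      refine R e he fe _ (M.mul_mem hg a1) ?_
      have ei : e⁻¹ = e := inv_eq_of_mul_eq_one_right fe.bb
      have : g * (e * g * e⁻¹) * e * (g * (e * g * e⁻¹))⁻¹ = ⁅g, e * g * e⁻¹⁆ * e := by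
        rw [commutatorElement_def]
        calc g * (e * g * e⁻¹) * e * (g * (e * g * e⁻¹))⁻¹
            = g * (e * g * e⁻¹) * (e * e) * g⁻¹ * e⁻¹ * g⁻¹ := by group
          _ = g * (e * g * e⁻¹) * g⁻¹ * (e * g⁻¹ * e⁻¹) * e := by
            rw [fe.bb]
            calc g * (e * g * e⁻¹) * 1 * g⁻¹ * e⁻¹ * g⁻¹ = g * (e * g * e⁻¹) * g⁻¹ * e⁻¹ * g⁻¹ := by
                  group
              _ = g * (e * g * e⁻¹) * g⁻¹ * e * g⁻¹ := by congr 2
              _ = _ := by group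
          _ = _ := by group
      rw [this]
      exact H.mul_mem (hD (commutator_mem_commutator hg a1)) he
  intro g hg
  have m1 : e1 ∈ zpowers e1 ⊔ zpowers e2 := mem_sup_left (mem_zpowers _)
  have m2 : e2 ∈ zpowers e1 ⊔ zpowers e2 := mem_sup_right (mem_zpowers _)
  have u3 := F _ (H.mul_mem h1 h2) f3 (mul_mem m1 m2) g hg
  have u1 := F _ h1 f1 m1 _ (hN e2 m2 g hg)
  refine R e2 h2 f2 g hg ?_
  have : g * e2 * g⁻¹ = g * (e1 * e2 * g * (e1 * e2)⁻¹) *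
      (e2 * g * e2⁻¹ * (e1 * (e2 * g * e2⁻¹) * e1⁻¹))⁻¹ * e2 := by group
  rw [this]
  exact H.mul_mem (H.mul_mem u3 (H.inv_mem u1)) h2

/-- what the signalizer functor gives. -/
structure Front (H : Subgroup G) : Prop where
  ne_top : H ≠ ⊤
  se : ∀ t ∈ H, t * t = 1 → t ≠ 1 → ∀ g, g * t * g⁻¹ ∈ H → g ∈ H
  core : Opc 2 H ≠ ⊥
  core_le : ∀ t ∈ H, t * t = 1 → t ≠ 1 → Opc 2 (C1 t) ≤ Opc 2 H
  syl : ∃ S, SylIn 2 S ⊤ ∧ S ≤ H ∧ ∃ E ≤ S, ElAb 2 E ∧ 8 ≤ Nat.card E ∧ Nrm S E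

theorem exists_front (hsol : ∀ t : G, t * t = 1 → t ≠ 1 → Group.IsSolvable (C1 t))
    (hO : Opc 2 (⊤ : Subgroup G) = ⊥) {S E : Subgroup G} (hS : SylIn 2 S ⊤) (hES : E ≤ S)
    (hE : ElAb 2 E) (h8 : 8 ≤ Nat.card E) (hn : Nrm S E) {t0 : G} (h0 : t0 * t0 = 1) (h0' : t0 ≠ 1)
    (hne : Opc 2 (C1 t0) ≠ ⊥) : ∃ H : Subgroup G, Front H := by
  haveI : Fact (Nat.Prime 2) := ⟨Nat.prime_two⟩
  obtain ⟨W, hW, hW'⟩ := sig hsol hE h8
  have E0 : E ≠ ⊥ := fun e => by rw [e, card_bot] at h8; omega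
  have P : ∀ x ∈ S, ∀ z ∈ E, Four x z → Wf x z = W := fun x hx z hz f => by
    by_cases hxE : x ∈ E
    · exact hW' _ _ (f.ln hxE hz)
    obtain ⟨c, hc⟩ := exists_ln_C1 hE h8 f.aa (hn x hx) hz f.b1 f.cm.symm
    have a1 : ElAb 2 (E ⊓ C1 x) := hE.mono inf_le_left
    have a2 := elAb_sup_zp a1 f.aa fun v hv => mem_C1.1 hv.2
    have a3 := eight_le a1 hc (x := x) fun h => hxE h.1
    rw [Wf_eq hsol a2 a3 (f.ln (mem_sup_right (mem_zpowers x)) (mem_sup_left hc.l))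
      ((Four.of_ln a1 hc).ln (mem_sup_left hc.l) (mem_sup_left hc.r))]
    exact hW' _ _ ((Four.of_ln a1 hc).ln hz hc.r.1)
  have cz : ∀ X ≤ S, ∃ z ∈ E, z ≠ 1 ∧ z ∈ C X := fun X hX => by
    have := inf_C_ne_bot_of_isPGroup Nat.prime_two hE.isPGroup (hS.isPGroup.to_le hX)
      (hn.mono hX) E0
    obtain ⟨⟨z, hz⟩, z1⟩ := ne_bot_iff_exists_ne_one.1 this
    exact ⟨z, hz.1, fun e => z1 (Subtype.ext e), hz.2⟩
  have Q : ∀ a ∈ S, ∀ b ∈ S, Four a b → Wf a b = W := fun a ha b hb f => by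
    obtain ⟨z, hz, z1, hc⟩ := cz (zpowers a ⊔ zpowers b)
      (sup_le (zpowers_le.2 ha) (zpowers_le.2 hb))
    have ma : a ∈ zpowers a ⊔ zpowers b := mem_sup_left (mem_zpowers _)
    have mb : b ∈ zpowers a ⊔ zpowers b := mem_sup_right (mem_zpowers _)
    have zz := sq_of_elAb hE hz
    by_cases hm : z ∈ zpowers a ⊔ zpowers b
    · rcases (f.ln ma mb).mem_four f.elAb hm with e | e | e | e
      · exact absurd e z1
      · rw [Wf_symm f.cm]; exact P b hb a (e ▸ hz) f.symm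
      · exact P a ha b (e ▸ hz) f
      · rw [← Wf_mul f.aa]; exact P a ha _ (e ▸ hz) f.mul
    have a2 := elAb_sup_zp f.elAb zz fun v hv => mem_C.1 hc v hv
    have fz : Four a z := ⟨f.aa, zz, f.a1, z1, fun e => hm (e ▸ ma), mem_C.1 hc a ma⟩
    rw [Wf_eq hsol a2 (eight_le f.elAb (f.ln ma mb) hm) (f.ln (mem_sup_left ma) (mem_sup_left mb))
      (fz.ln (mem_sup_left ma) (mem_sup_right (mem_zpowers z)))]
    exact P a ha z hz fz
  obtain ⟨z0, hz0, z01⟩ := exists_ne_one_of_rk h8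
  obtain ⟨c0, -, l0, -⟩ := exists_basis h8 hz0 z01
  have f0 := Four.of_ln hE l0
  have SH : S ≤ N W := fun s hs => mem_N.2 (by
    rw [← hW' _ _ l0, cj_Wf, hW' _ _ l0]
    exact hW' _ _ ((f0.cjj s).ln (hn s hs _ l0.l) (hn s hs _ l0.r)))
  have toS : ∀ {K X : Subgroup G}, S ≤ K → X ≤ K → ElAb 2 X → ∃ g ∈ K, ∀ x ∈ X, g * x * g⁻¹ ∈ S :=
    fun {K X} h1 h2 h3 => by
      obtain ⟨g, hg, h⟩ := (hS.of_le h1 le_top).exists_le_cj h2 h3.isPGroup
      exact ⟨g⁻¹, K.inv_mem hg, fun x hx => by simpa using mem_cj.1 (h hx)⟩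
  have K1 : ∀ a ∈ N W, ∀ b ∈ N W, Four a b → Wf a b = W := fun a ha b hb f => by
    obtain ⟨g, hg, h⟩ := toS SH (sup_le (zpowers_le.2 ha) (zpowers_le.2 hb)) f.elAb
    have := Q _ (h a (mem_sup_left (mem_zpowers _))) _ (h b (mem_sup_right (mem_zpowers _)))
      (f.cjj g)
    rw [← cj_Wf] at this
    exact cj_injective g (this.trans (mem_N.1 hg).symm)
  have K2 : ∀ a ∈ N W, ∀ b ∈ N W, Four a b → ∀ g, g * a * g⁻¹ ∈ N W → g * b * g⁻¹ ∈ N W →
      g ∈ N W := fun a ha b hb f g h1 h2 => mem_N.2 (by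
    have := K1 _ h1 _ h2 (f.cjj g)
    rwa [← cj_Wf, K1 a ha b hb f] at this)
  have T : ∀ t ∈ S, t * t = 1 → t ≠ 1 → ∃ e1 ∈ S, ∃ e2 ∈ S, Four e1 e2 ∧ Four t e1 ∧ Four t e2 ∧
      Four t (e1 * e2) := fun t ht t2 t1 => by
    by_cases htE : t ∈ E
    · obtain ⟨y, z, l, a1, a2, a3⟩ := exists_ln_avoid hE h8 htE t1
      have f := Four.of_ln hE l
      exact ⟨y, hES l.l, z, hES l.r, f, ⟨t2, f.aa, t1, f.a1, a1.symm, hE.1 _ htE _ l.l⟩,
        ⟨t2, f.bb, t1, f.b1, a2.symm, hE.1 _ htE _ l.r⟩,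
        ⟨t2, f.mul.bb, t1, f.mul.b1, a3.symm, hE.1 _ htE _ l.m⟩⟩
    obtain ⟨z, hz, z1, hc⟩ := cz (zpowers t) (zpowers_le.2 ht)
    obtain ⟨c, l⟩ := exists_ln_C1 hE h8 t2 (hn t ht) hz z1 (mem_C.1 hc t (mem_zpowers t)).symm
    have f := Four.of_ln (hE.mono inf_le_left) l
    exact ⟨z, hES hz, c, hES l.r.1, f,
      ⟨t2, f.aa, t1, f.a1, fun e => htE (e ▸ hz), (mem_C1.1 l.l.2).symm⟩,
      ⟨t2, f.bb, t1, f.b1, fun e => htE (e ▸ l.r.1), (mem_C1.1 l.r.2).symm⟩,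
      ⟨t2, f.mul.bb, t1, f.mul.b1, fun e => htE (e ▸ l.m.1), (mem_C1.1 l.m.2).symm⟩⟩
  have CS : ∀ t ∈ S, t * t = 1 → t ≠ 1 → C1 t ≤ N W := fun t ht t2 t1 => by
    obtain ⟨e1, h1, e2, h2, f, f1, f2, f3⟩ := T t ht t2 t1
    exact le_of_solv (SH ht) (SH h1) (SH h2) f f1 f2 f3 K2 (hsol t t2 t1) le_rfl
      (Nrm.of_le (sup_le (zpowers_le.2 (mem_C1.2 f1.cm.symm)) (zpowers_le.2 (mem_C1.2 f2.cm.symm))))
  have CH : ∀ t ∈ N W, t * t = 1 → t ≠ 1 → C1 t ≤ N W ∧ ∃ e ∈ N W, Four t e := fun t ht t2 t1 => by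
    obtain ⟨g, hg, h⟩ := toS SH (zpowers_le.2 ht) (elAb_zp t2)
    have a1 := h t (mem_zpowers t)
    have a2 : g * t * g⁻¹ * (g * t * g⁻¹) = 1 := by rw [conj_mul, t2]; simp
    have a3 : g * t * g⁻¹ ≠ 1 := fun e => t1 (conj_eq_one_iff.1 e)
    have a4 := CS _ a1 a2 a3
    rw [← cj_C1, ← cj_self hg, cj_le_cj] at a4
    obtain ⟨e1, h1, -, -, -, f1, -⟩ := T _ a1 a2 a3
    have f := f1.cjj g⁻¹
    rw [show g⁻¹ * (g * t * g⁻¹) * g⁻¹⁻¹ = t by group] at f
    exact ⟨a4, _, a4 (mem_C1.2 f.cm.symm), f⟩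
  have cl : ∀ t ∈ N W, t * t = 1 → t ≠ 1 → Opc 2 (C1 t) ≤ W := fun t ht t2 t1 => by
    obtain ⟨-, e, he, f⟩ := CH t ht t2 t1
    rw [← K1 t ht e he f]; exact le_sup_left.trans le_sup_left
  have W0 : W ≠ ⊥ := fun e => by
    obtain ⟨g, -, h⟩ := toS le_top (le_top : zpowers t0 ≤ ⊤) (elAb_zp h0)
    have := cl _ (SH (h t0 (mem_zpowers _))) (by rw [conj_mul, h0]; simp)
      fun e => h0' (conj_eq_one_iff.1 e)
    rw [e, ← cj_C1, ← cj_Opc, le_bot_iff, cj_eq_bot] at this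
    exact hne this
  have WO : W ≤ Opc 2 (N W) := le_Opc' (le_N W) (nrm_of_le_N le_rfl) hW
  refine ⟨N W, fun e => W0 ?_, fun t ht t2 t1 g hg => ?_, fun e => W0 (eq_bot_iff.2 (e ▸ WO)),
    fun t ht t2 t1 => (cl t ht t2 t1).trans WO, S, hS, SH, E, hES, hE, h8, hn⟩
  · rw [eq_bot_iff, ← hO, ← e]; exact WO
  · obtain ⟨-, e, he, f⟩ := CH t ht t2 t1
    have f' := f.cjj g
    exact K2 t ht e he f g hg ((CH _ hg f'.aa f'.a1).1 (mem_C1.2 f'.cm.symm))

theorem Front.C1_le {H : Subgroup G} (h : Front H) {t : G} (ht : t ∈ H) (t2 : t * t = 1)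
    (t1 : t ≠ 1) : C1 t ≤ H := fun g hg => h.se t ht t2 t1 g (by rwa [mem_C1_iff_conj.1 hg])

theorem Front.exists_elAb {H : Subgroup G} (h : Front H) {k : ℕ} (hr : ¬ Cfsg.PRankLE 2 k G) :
    ∃ B ≤ H, ElAb 2 B ∧ 2 ^ (k + 1) ≤ Nat.card B := by
  haveI : Fact (Nat.Prime 2) := ⟨Nat.prime_two⟩
  obtain ⟨S, hS, SH, -⟩ := h.syl
  unfold Cfsg.PRankLE at hr
  push Not at hr
  obtain ⟨B, h1, h2, h3⟩ := hr
  have hB : ElAb 2 B := ⟨fun a ha b hb => congrArg Subtype.val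
    (h1.is_comm.comm (⟨a, ha⟩ : B) ⟨b, hb⟩), h2⟩
  obtain ⟨g, -, hg⟩ := hS.exists_le_cj le_top hB.isPGroup
  refine ⟨cj g⁻¹ B, (cj_le_iff.2 (by rwa [inv_inv])).trans SH, hB.map _, ?_⟩
  rw [card_cj]
  obtain ⟨n, hn⟩ := IsPGroup.iff_card.1 hB.isPGroup
  rw [hn] at h3 ⊢
  exact Nat.pow_le_pow_right two_pos ((Nat.pow_lt_pow_iff_right one_lt_two).1 h3)

/-- S3332 follows as soon as no `Front` subgroup with an elementary subgroup of order 16 exists. -/
theorem reduce (hrank : ¬ Cfsg.PRankLE 2 3 G) (hO : Cfsg.oddCore G = ⊥) (S : Sylow 2 G)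
    (A : Subgroup G) (hAS : A ≤ S) (hAn : (A.subgroupOf S).Normal) (hAc : IsMulCommutative A)
    (hA3 : ¬ Cfsg.PRankLE 2 2 A)
    (hsol : ∀ t : G, orderOf t = 2 → Group.IsSolvable (Subgroup.centralizer ({t} : Set G)))
    (BE : (∀ t : G, t * t = 1 → t ≠ 1 → Group.IsSolvable (C1 t)) → Opc 2 (⊤ : Subgroup G) = ⊥ →
      ∀ H : Subgroup G, Front H → (∃ B ≤ H, ElAb 2 B ∧ 16 ≤ Nat.card B) → False) :
    ∀ t : G, orderOf t = 2 → Cfsg.oddCore (Subgroup.centralizer ({t} : Set G)) = ⊥ := by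
  haveI : Fact (Nat.Prime 2) := ⟨Nat.prime_two⟩
  have hs : ∀ t : G, t * t = 1 → t ≠ 1 → Group.IsSolvable (C1 t) := fun t t2 t1 =>
    hsol t (orderOf_eq_prime (by rwa [pow_two]) t1)
  have hO' : Opc 2 (⊤ : Subgroup G) = ⊥ := by
    rw [eq_bot_iff, ← hO]
    exact le_sSup ⟨nrm_top_iff.1 (nrm_Opi _ ⊤),
      ((Nat.Prime.coprime_iff_not_dvd Nat.prime_two).2 (not_dvd_card_Opc Nat.prime_two _)).symm⟩
  have hA : Ab A := fun a ha => mem_C.2 fun b hb => congrArg Subtype.val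
    (hAc.is_comm.comm (⟨b, hb⟩ : A) ⟨a, ha⟩)
  have h8 : 8 ≤ Nat.card (Om1 2 A) := by
    unfold Cfsg.PRankLE at hA3
    push Not at hA3
    obtain ⟨B, -, h2, h3⟩ := hA3
    have h4 : B.map A.subtype ≤ Om1 2 A := le_Om1_of_pow (map_subtype_le _) (by
      rintro _ ⟨b, hb, rfl⟩
      exact congrArg Subtype.val (h2 b hb))
    have h5 := card_le_of_le h4
    rw [card_map_of_injective A.subtype_injective] at h5
    obtain ⟨n, hn⟩ := IsPGroup.iff_card.1 (elAb_Om1_of_ab (p := 2) hA).isPGroup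
    rw [hn] at h5 ⊢
    exact Nat.pow_le_pow_right two_pos (show 3 ≤ n from
      (Nat.pow_lt_pow_iff_right one_lt_two).1 (h3.trans_le h5))
  intro t ht
  have t2 : t * t = 1 := by rw [← pow_two, ← ht, pow_orderOf_eq_one]
  have t1 : t ≠ 1 := fun e => by rw [e, orderOf_one] at ht; omega
  have h0 : Opc 2 (C1 t) = ⊥ := by
    by_contra hne
    obtain ⟨H, hH⟩ := exists_front hs hO' (sylIn_top_of_sylow S) ((Om1_le 2 A).trans hAS)
      (elAb_Om1_of_ab hA) h8 ((Nrm.of_normal_subgroupOf hAS hAn).Om1 2) t2 t1 hne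
    exact BE hs hO' H hH (hH.exists_elAb hrank)
  refine eq_bot_iff.2 (sSup_le fun X hX => ?_)
  haveI := hX.1
  have : X.map (C1 t).subtype ≤ Opc 2 (C1 t) := le_Opi (map_subtype_le _) (Nrm.map_subtype X)
    ((piG_compl_single Nat.prime_two).2 (by
      rw [card_map_of_injective (C1 t).subtype_injective]
      exact (Nat.Prime.coprime_iff_not_dvd Nat.prime_two).1 hX.2.symm))
  rw [h0, le_bot_iff, map_eq_bot_iff_of_injective _ (C1 t).subtype_injective] at this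
  exact this.le

end CfsgH7SE
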