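import Cfsg.Agent.H7.T3P1
import Cfsg.Agent.H2.T3Def

set_option autoImplicit false
set_option maxRecDepth 100000

/-! The relators of the `3`-local presentation of `D₄(2)` hold in the frame. -/

namespace CfsgH2.T3P

open CfsgH3.TC CfsgH9 CfsgH8 Subgroup CfsgFT CfsgH2.T3 Matrix

/-- coordinates of the letters in the normalizer of `J` -/
def lc : ℕ → V4 × M4
  | 2 => (![1, 0, 0, 0], 1)
  | 3 => (![-1, 0, 0, 0], 1)
  | 4 => (![0, 1, 0, 0], 1)
  | 5 => (![0, -1, 0, 0], 1)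
  | 6 => (![0, 0, 1, 0], 1)
  | 7 => (![0, 0, -1, 0], 1)
  | 8 => (![0, 0, 0, 1], 1)
  | 9 => (![0, 0, 0, -1], 1)
  | 10 => (0, mX)
  | 11 => (0, mXᵀ)
  | 12 => (0, mT)
  | 13 => (0, mT)
  | 14 => (0, mU)
  | 15 => (0, mU)
  | 16 => (0, -1)
  | 17 => (0, -1)
  | 20 => (0, mY)
  | 21 => (0, mY)
  | _ => (0, 1)

/-- coordinates of a word -/
def wc : List ℕ → V4 × M4
  | [] => (0, 1)
  | l :: w => ((lc l).1 + (lc l).2 *ᵥ (wc w).1, (lc l).2 * (wc w).2)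

/-- the letters in the normalizer -/
def okL (l : ℕ) : Prop := 2 ≤ l ∧ l ≤ 21 ∧ l ≠ 18 ∧ l ≠ 19

instance : DecidablePred okL := fun l => inferInstanceAs (Decidable (2 ≤ l ∧ l ≤ 21 ∧ l ≠ 18 ∧ l ≠ 19))

theorem chkN : ∀ w ∈ r4 ++ r8 ++ r10.take 13, (∀ l ∈ w, okL l) ∧ wc w = (0, 1) := by
  decide +kernel

universe u
variable {G : Type u} [Group G] {f : FD G}

/-- `g` has coordinates `p` -/
def Rep (f : FD G) (g : G) (p : V4 × M4) : Prop := ∃ c ∈ C1 f.ν, f.Act c p.2 ∧ g = f.jv p.1 * c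

theorem repJ (v : V4) : Rep f (f.jv v) (v, 1) := ⟨1, one_mem _, FD.Act.one, by simp⟩

theorem repC {c : G} {A : M4} (h1 : c ∈ C1 f.ν) (h2 : f.Act c A) : Rep f c (0, A) :=
  ⟨c, h1, h2, by simp [FD.jv_zero]⟩

theorem repI (h : FrN f) {v v' : V4} (e : v' = -v) : Rep f (f.jv v)⁻¹ (v', 1) :=
  e ▸ h.neg v ▸ repJ _

theorem rep_l (h : FrN f) {l : ℕ} (hl : okL l) : Rep f (sval f.val l) (lc l) := by
  obtain ⟨h1, h2, h3, h4⟩ := hl
  have hν : f.ν ∈ C1 f.ν := self_mem_C1 _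
  interval_cases l
  · exact (show Rep f f.a (_, 1) from f.jv_a ▸ repJ _)
  · exact (show Rep f f.a⁻¹ _ from f.jv_a ▸ repI h (by decide))
  · exact (show Rep f f.b (_, 1) from f.jv_b ▸ repJ _)
  · exact (show Rep f f.b⁻¹ _ from f.jv_b ▸ repI h (by decide))
  · exact (show Rep f f.c (_, 1) from f.jv_c ▸ repJ _)
  · exact (show Rep f f.c⁻¹ _ from f.jv_c ▸ repI h (by decide))
  · exact (show Rep f f.d (_, 1) from f.jv_d ▸ repJ _)
  · exact (show Rep f f.d⁻¹ _ from f.jv_d ▸ repI h (by decide))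
  · exact repC h.νx h.ax
  · exact repC (inv_mem h.νx) (h.ax.inv (by decide +kernel))
  · exact repC h.νt h.at'
  · exact repC (inv_mem h.νt) (h.at'.inv (B := mT) (by decide +kernel))
  · exact repC h.νu h.au
  · exact repC (inv_mem h.νu) (h.au.inv (B := mU) (by decide +kernel))
  · exact repC hν h.aν
  · exact repC (inv_mem hν) (h.aν.inv (B := -1) (by decide +kernel))
  · exact absurd rfl h3
  · exact absurd rfl h4
  · exact repC h.νy h.ay
  · exact repC (inv_mem h.νy) (h.ay.inv (B := mY) (by decide +kernel))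

theorem rep_w (h : FrN f) {w : List ℕ} (hw : ∀ l ∈ w, okL l) : Rep f (wval f.val w) (wc w) := by
  induction w with
  | nil => exact repC (one_mem _) FD.Act.one
  | cons l w ih =>
    obtain ⟨c, h1, h2, e⟩ := rep_l h (hw l (by simp))
    obtain ⟨c', h1', h2', e'⟩ := ih fun l hl => hw l (by simp [hl])
    refine ⟨c * c', mul_mem h1 h1', h2.mul h2', ?_⟩
    rw [wval_cons, e, e', wc, h.add, ← h2]
    group

theorem rep_eq (h : FrN f) {g g' : G} {p : V4 × M4} (h1 : Rep f g p) (h2 : Rep f g' p) :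
    g = g' := by
  obtain ⟨c, a1, a2, rfl⟩ := h1
  obtain ⟨c', b1, b2, rfl⟩ := h2
  rw [h.eq_of_act a2 b2 a1 b1]

theorem τu (h : FrN f) : f.τ * f.u * f.τ⁻¹ = wval f.val [10, 20, 11, 12] :=
  rep_eq h (repC (mul_mem (mul_mem h.ντ h.νu) (inv_mem h.ντ))
    ((h.aτ.mul h.au).mul (h.aτ.inv (B := mRᵀ) (by decide +kernel))))
    ((by decide +kernel : wc [10, 20, 11, 12] = (0, mR * mU * mRᵀ)) ▸ rep_w h (by decide))

theorem τu2 (h : FrN f) :
    f.τ * wval f.val [10, 20, 11, 12] * f.τ⁻¹ = wval f.val [11, 20, 14, 11, 20] := by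
  rw [← τu h]
  exact rep_eq h (repC (mul_mem (mul_mem h.ντ (mul_mem (mul_mem h.ντ h.νu) (inv_mem h.ντ)))
    (inv_mem h.ντ)) ((h.aτ.mul ((h.aτ.mul h.au).mul (h.aτ.inv (B := mRᵀ) (by decide +kernel)))).mul
      (h.aτ.inv (B := mRᵀ) (by decide +kernel))))
    ((by decide +kernel : wc [11, 20, 14, 11, 20] = (0, mR * (mR * mU * mRᵀ) * mRᵀ)) ▸
      rep_w h (by decide))

theorem sat_all [Finite G] (h : Fr f) (h4 : (f.w * f.u) ^ 4 = 1) :
    Sat f.val (((r4 ++ r8) ++ r9) ++ r10) := by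
  have hN : ∀ w ∈ r4 ++ r8 ++ r10.take 13, wval f.val w = 1 := fun w hw =>
    rep_eq h.toFrN ((chkN w hw).2 ▸ rep_w h.toFrN (chkN w hw).1) (repC (one_mem _) FD.Act.one)
  have c4 : ∀ {g : G}, (f.w * g) ^ 4 = 1 → (f.w * (f.τ * g * f.τ⁻¹)) ^ 4 = 1 := fun {g} e => by
    conv_lhs => rw [← h.τw]
    rw [show f.τ * f.w * f.τ⁻¹ * (f.τ * g * f.τ⁻¹) = f.τ * (f.w * g) * f.τ⁻¹ by group, conj_pow, e]
    simp
  have h5 := c4 h4
  rw [τu h.toFrN] at h5
  have h6 := c4 h5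
  rw [τu2 h.toFrN] at h6
  have p4 : ∀ w : List ℕ, (f.w * wval f.val w) ^ 4 = 1 →
      wval f.val ((18 :: w) ++ (18 :: w) ++ (18 :: w) ++ (18 :: w)) = 1 := fun w e => by
    rw [wval_append, wval_append, wval_append, wval_cons, ← e, pow_succ, pow_succ, pow_two]
    rfl
  refine ⟨rfl, fun w hw => ?_⟩
  rw [← List.take_append_drop 13 r10] at hw
  simp only [List.mem_append] at hw hN
  rcases hw with ((hw | hw) | hw) | hw | hw
  · exact hN w (Or.inl (Or.inl hw))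
  · exact hN w (Or.inl (Or.inr hw))
  · simp only [r9, List.mem_cons, List.not_mem_nil, or_false] at hw
    rcases hw with rfl | rfl | rfl | rfl | rfl | rfl | rfl
    · change f.w * (f.w * (f.t⁻¹ * 1)) = 1
      rw [← h.ww]; group
    · change f.w * (f.a * (f.b * (f.c * (f.w⁻¹ * (f.c⁻¹ * (f.b⁻¹ * (f.a⁻¹ * 1))))))) = 1
      calc _ = f.w * (f.a * f.b * f.c) * f.w⁻¹ * (f.a * f.b * f.c)⁻¹ := by group
        _ = 1 := by rw [← FD.z, h.wz, mul_inv_cancel]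
    · change f.w * (f.b⁻¹ * (f.c * (f.w⁻¹ * (f.x⁻¹ * 1)))) = 1
      rw [← h.we, FD.e]; group
    · change f.w * (f.a * (f.w * (f.a * (f.w * (f.a * 1))))) = 1
      calc _ = (f.w * f.a) ^ 3 := by rw [pow_succ, pow_two]; group
        _ = 1 := h.wa
    · change f.w * (f.d * (f.w⁻¹ * (f.d⁻¹ * 1))) = 1
      calc _ = f.w * f.d * f.w⁻¹ * f.d⁻¹ := by group
        _ = 1 := by rw [h.wd, mul_inv_cancel]
    · change f.ν * (f.w * (f.ν⁻¹ * (f.w * 1))) = 1
      calc _ = f.ν * f.w * f.ν⁻¹ * f.w := by group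
        _ = 1 := by rw [h.νw, inv_mul_cancel]
    · exact p4 [14] (by rw [← h4]; congr 2; exact mul_one _)
  · exact hN w (Or.inr hw)
  · change w ∈ [_, _] at hw
    simp only [List.mem_cons, List.not_mem_nil, or_false] at hw
    rcases hw with rfl | rfl
    exacts [p4 _ h5, p4 _ h6]

end CfsgH2.T3P
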