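import Cfsg.Agent.H7.T3P4
import Cfsg.Agent.H7.T3P5

set_option autoImplicit false

/-! The subgroup `H` of the `3`-local frame is `Ω⁺(8,2)`. -/

namespace CfsgH2.T3

open CfsgH3.TC CfsgH8 Subgroup CfsgH2.O8 CfsgH2.T3P

universe u

theorem Fr.exists_phi {G : Type u} [Group G] [Finite G] {f : FD G} (h : Fr f)
    (h4 : (f.w * f.u) ^ 4 = 1) :
    ∃ φ : CfsgH2.O8.Om →* G, Function.Injective φ ∧ φ.range = f.H ∧ φ z0 = f.t ∧
      f.τ * φ (vH 1) * f.τ⁻¹ = φ (vH 2) ∧ f.τ * φ (vH 2) * f.τ⁻¹ = φ (vH 3) := by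
  obtain ⟨φ, h1, h2⟩ := exists_hom (v := f.val) (sat_all h h4)
  have ez : φ z0 = f.t := by
    rw [z0_eq, h2 _ (by decide)]
    exact mul_one _
  have τt : f.τ * sval f.val 12 * f.τ⁻¹ = sval f.val 12 := by
    change f.τ * f.t * f.τ⁻¹ = f.t
    rw [← h.ww]
    conv_rhs => rw [← h.τw]
    group
  refine ⟨φ, (MonoidHom.ker_eq_bot_iff φ).1 (normal_bot (MonoidHom.normal_ker φ) fun hz => ?_),
    h1, ez, ?_, ?_⟩
  · have e : f.t = 1 := ez.symm.trans hz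
    exact absurd (h.act_uniq (e ▸ h.at') FD.Act.one) (by decide +kernel)
  · rw [vH1_eq, vH2_eq, h2 _ (by decide), h2 _ (by decide), wval_cons, wval_cons _ 12,
      ← τu h.toFrN]
    conv_rhs => rw [← τt]
    change f.τ * (_ * (f.u * 1)) * f.τ⁻¹ = _
    group
  · rw [vH2_eq, vH3_eq, h2 _ (by decide), h2 _ (by decide), wval_cons, wval_cons _ 12,
      ← τu2 h.toFrN]
    conv_rhs => rw [← τt]
    group

end CfsgH2.T3
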