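import Cfsg.Agent.H7.T3P2
import Cfsg.Agent.H7.T3P3

set_option autoImplicit false
set_option maxRecDepth 100000
set_option linter.style.haveILetI false

/-! The `3`-local generators of `Ω⁺(8,2)`. -/

namespace CfsgH2.T3P

open CfsgH3.TC CfsgH9 CfsgH8 Subgroup CfsgH2.O8

noncomputable def pT : NT := (.node (.node (.node (.node (.node (.leaf (nat_lit 0x1000000001000000001000000001000000001000000001000000001000000001)) (.leaf (nat_lit 0x1100000001000000001100000001000001001000110011000001001000110011))) (.leaf (nat_lit 0x100000011100001000000001000011011100010110000000001001011101))) (.node (.node (.leaf (nat_lit 0x1000000001000000000100100111001100001000011001110011000001010000)) (.leaf (nat_lit 0x10010111101010100001011011101000000111000001000000110100000001))) (.leaf (nat_lit 0x1000000001000000001000000001000000001000000001000001001000100001)))) (.node (.node (.node (.leaf (nat_lit 0x1110000010100001000000001000010010100110011000000001001010101)) (.leaf (nat_lit 0x1011000001010000001000000001000000111000001001001111101010011101))) (.leaf (nat_lit 0x1000011110101010110011011111101000001111000000111111111111001100)))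 (.node (.leaf (nat_lit 0x1000000001000000000000100100001100001000010101110111001101010010)) (.leaf (nat_lit 0x1000000001000000001100000001000000001000000001000001001000110011))))) (.node (.node (.node (.node (.leaf (nat_lit 0x1000000001000000001000000001000000001000000001000000001000000001)) (.leaf (nat_lit 0x1100000001000000001100000001000001001000110011000001001000110011))) (.leaf (nat_lit 0x1101110010010100001000000001000010000000110100000000001011010101))) (.node (.node (.leaf (nat_lit 0x1000000001000000010000110100000100001000010101010110000100110011)) (.leaf (nat_lit 0x10010111101010100001011011101000000111000001000000110100000001))) (.leaf (nat_lit 0x1000000001000000001000000001000000001000000001000001001000100001)))) (.node (.node (.node (.leaf (nat_lit 0x100100011011100001000000001000011000000010100000000001010011101)) (.leaf (nat_lit 0x1011000001010000001000000001000000111000001001001110101010111101))) (.leaf (nat_lit 0x1011011110111010111011011110101000111111001100110010010100100001))) (.node (.leaf (nat_lit 0x1000000001000000011100110110000100001000011101010010000001110000)) (.leaf (nat_lit 0x1000000001000000001100000001000000001000000001000001001000110011))))))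

noncomputable def pW : NT := (.node (.node (.node (.node (.node (.leaf (nat_lit 0)) (.leaf (nat_lit 341949075303264712943121))) (.leaf (nat_lit 14415600))) (.node (.node (.leaf (nat_lit 0xd8ca4d8d27496d8595e7d8a16b)) (.leaf (nat_lit 0x252ef364598f5c73ae8bfee16b7))) (.leaf (nat_lit 146000225633629241136)))) (.node (.node (.node (.leaf (nat_lit 38614152)) (.leaf (nat_lit 413053105080624672))) (.leaf (nat_lit 0x131bb2841b94dce04955f4383b207))) (.node (.leaf (nat_lit 160514418007071480)) (.leaf (nat_lit 1011324466336492744179))))) (.node (.node (.node (.node (.leaf (nat_lit 0)) (.leaf (nat_lit 341949075303264712943121))) (.leaf (nat_lit 19365024))) (.node (.node (.leaf (nat_lit 651171388486369908)) (.leaf (nat_lit 0x252ef364598f5c73ae8bfee16b7))) (.leaf (nat_lit 146000225633629241136)))) (.node (.node (.node (.leaf (nat_lit 13399860)) (.leaf (nat_lit 404630923815624036))) (.leaf (nat_lit 0x1e098d7b7c62e50c7969368ace267))) (.node (.leaf (nat_lit 0x252a49f52b208d21a53fe3f9e1f)) (.leaf (nat_lit 1011324466336492744179))))))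


theorem exists_vO : ∃ val : ℕ → Om, Sat val rAll ∧
    ∀ l, l ≤ 2 * 10 + 1 → oM.enc (sval val l) = pT.get l :=
  exists_sat_of_chk (Model.mem_of_subCheck (r := 18) (s := cT) (ws := pW) (fuel := 28)
    (by norm_num) (fun a ha => ⟨_, mem_top _, vH_enc a (by omega)⟩) (by decide +kernel))
    (by decide +kernel) (by decide +kernel) (by decide +kernel)

/-- the generators in the model -/
noncomputable def vO : ℕ → Om := exists_vO.choose

theorem vO_sat : Sat vO rAll := exists_vO.choose_spec.1

theorem vO_enc : ∀ l, l ≤ 2 * 10 + 1 → oM.enc (sval vO l) = pT.get l := exists_vO.choose_spec.2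

noncomputable def bT : NT := (.node (.node (.node (.node (.leaf (nat_lit 0x1000000001000000001000000001000000001000000001000000001000000001)) (.leaf (nat_lit 0x1000000000100000010000000001000000001000000000100000010000000001))) (.leaf (nat_lit 0x1000000001000000000100000010000000001000000001000000000100000010))) (.node (.leaf (nat_lit 0x1100000001000000001000000001000000001000000011000000001000000001)) (.leaf (nat_lit 0x10000001000001000000001000001000000100000000000001000000001)))) (.node (.node (.leaf (nat_lit 0x1000000001000000001100000001000000001000000001000000001000000011)) (.leaf (nat_lit 0x100000010000000001000000001000000000100000010000000001000000001))) (.node (.leaf (nat_lit 0x1000000001000000001000000001000001001000100001000000001000000001)) (.leaf (nat_lit 0x1000000001000000001000000001000000001000000101000000001001000001)))))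

noncomputable def bW : NT := (.node (.node (.node (.node (.leaf (nat_lit 0)) (.leaf (nat_lit 12243678726212106))) (.leaf (nat_lit 462886919871))) (.node (.leaf (nat_lit 6842)) (.leaf (nat_lit 39655729027890158466)))) (.node (.node (.leaf (nat_lit 314)) (.leaf (nat_lit 75804551441526752))) (.node (.leaf (nat_lit 4353106)) (.leaf (nat_lit 23155766394723)))))


theorem genO_top : Gen 10 vO = ⊤ := by
  have h := Model.mem_of_subCheck (M := oM) (r := 22) (s := pT) (K := Gen 10 vO) (r' := 9)
    (s' := bT) (ws := bW) (fuel := 16) (by norm_num) (mem_Gen_of_enc vO_sat.1 vO_enc)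
    (by decide +kernel)
  have e : allLt 9 (fun a => Nat.beq (cT.get (2 * a)) (bT.get a)) = true := by decide +kernel
  refine eq_top_iff.2 (gen_top.ge.trans (Gen_le fun a _ h2 => Model.mem_of_Mem (M := oM) ?_))
  rw [enc_vH a h2, Nat.eq_of_beq_eq_true (allLt_iff.1 e a (by omega))]
  exact h a (by omega)

theorem z0_eq : z0 = wval vO [12] := oM.enc_inj (by
  rw [enc_wval vO_enc _ (by decide), z0, enc_ext 8 (by norm_num)]; decide +kernel)

theorem vH1_eq : vH 1 = wval vO [12, 14] := oM.enc_inj (by
  rw [enc_wval vO_enc _ (by decide), enc_vH 1 (by norm_num)]; decide +kernel)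

theorem vH2_eq : vH 2 = wval vO [12, 10, 20, 11, 12] := oM.enc_inj (by
  rw [enc_wval vO_enc _ (by decide), enc_vH 2 (by norm_num)]; decide +kernel)

theorem vH3_eq : vH 3 = wval vO [12, 11, 20, 14, 11, 20] := oM.enc_inj (by
  rw [enc_wval vO_enc _ (by decide), enc_vH 3 (by norm_num)]; decide +kernel)

/-- the homomorphism from the model -/
theorem exists_hom {G : Type*} [Group G] {v : ℕ → G} (h : Sat v rAll) :
    ∃ φ : Om →* G, φ.range = Gen 10 v ∧
      ∀ w : List ℕ, (∀ l ∈ w, l ≤ 21) → φ (wval vO w) = wval v w := by
  obtain ⟨φ, h1, h2⟩ := exists_hom_of_bound h vO_sat genO_top fun hs =>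
    ⟨(boundD hs).1, om_facts.2.2 ▸ (boundD hs).2⟩
  refine ⟨φ, h1, fun w hw => ?_⟩
  have h3 : ∀ a, a ≤ 10 → φ (vO a) = v a := fun a ha => by
    rcases Nat.eq_zero_or_pos a with rfl | h0
    · rw [vO_sat.1, map_one, h.1]
    · exact h2 a h0 ha
  induction w with
  | nil => simp
  | cons l w ih =>
    have := h3 (l / 2) (by have := hw l (by simp); omega)
    rw [wval_cons, wval_cons, map_mul, ih fun l hl => hw l (by simp [hl])]
    unfold sval
    split_ifs <;> simp [this]

end CfsgH2.T3P
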